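import Cfsg.Agent.PGrp.Sympl

/-! Imprimitivity of irreducible linear `p`-groups with a normal subgroup of type `(p, p)`.
(helper18) -/

set_option autoImplicit false

namespace Cfsg.Agent.Low
open Subgroup Module
open scoped commutatorElement

theorem imprim {F : Type*} [Field F] {V : Type*} [AddCommGroup V] [Module F V] [Finite V]
    [Nontrivial V] {G : Type*} [Group G] [Finite G] (p : ℕ) [hp : Fact p.Prime] (hG : IsPGroup p G)
    (ρ : G →* (V ≃ₗ[F] V)) (hρ : Function.Injective ρ)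
    (hirr : ∀ W : Submodule F V, (∀ g : G, ∀ w ∈ W, ρ g w ∈ W) → W = ⊥ ∨ W = ⊤)
    (B : Subgroup G) [B.Normal] (hB : IsElementaryAbelian p B) (hc : Nat.card B = p ^ 2) :
    ¬ IsMulCommutative G ∧ ∃ (H : Subgroup G) (W : ZMod p → Submodule F V), H.index = p ∧
      iSup W = ⊤ ∧ iSupIndep W ∧ (∀ h ∈ H, ∀ i, ∀ w ∈ W i, ρ h w ∈ W i) ∧
      (∀ i, ∃ h ∈ H, h ≠ 1 ∧ ∀ w ∈ W i, ρ h w = w) ∧
      ∀ g : G, g ∉ H → ∃ a : ZMod p, a ≠ 0 ∧ ∀ i, (W i).map (ρ g : V →ₗ[F] V) = W (i + a) := by
  classical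
  let fx : G → Submodule F V := fun t => LinearMap.ker ((ρ t : V →ₗ[F] V) - LinearMap.id)
  have hfx : ∀ {t v}, v ∈ fx t ↔ ρ t v = v := by simp [fx, sub_eq_zero]
  have hmul : ∀ a b v, ρ (a * b) v = ρ a (ρ b v) := fun a b v => by rw [map_mul]; rfl
  have hconj : ∀ g t v, v ∈ fx t → ρ g v ∈ fx (g * t * g⁻¹) := fun g t v h => by
    rw [hfx, ← hmul, inv_mul_cancel_right, hmul, hfx.mp h]
  have hcen : ∀ d ∈ center G, d ≠ 1 → fx d = ⊥ := by
    intro d hd h1
    refine (hirr _ fun g w hw => ?_).resolve_right fun h => h1 (hρ ?_)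
    · have := hconj g d w hw
      rwa [mem_center_iff.mp hd g, mul_inv_cancel_right] at this
    · rw [map_one]; exact LinearEquiv.ext fun v => hfx.mp (h ▸ Submodule.mem_top)
  have hsum : ∀ d ∈ center G, d ≠ 1 → d ^ p = 1 → ∀ v, ∑ k ∈ Finset.range p, ρ (d ^ k) v = 0 := by
    intro d hd h1 h2 v
    rw [← Submodule.mem_bot F, ← hcen d hd h1, hfx, map_sum]
    simp only [← hmul, ← pow_succ']
    have := Finset.sum_range_succ' (fun k => ρ (d ^ k) v) p
    rw [Finset.sum_range_succ, h2, pow_zero] at this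
    exact (add_right_cancel this).symm
  have h1p := hp.out.one_lt
  obtain ⟨c, hcB, hc1, hcp, hcz⟩ := PGrp.exists_central_mod_pow hG (M := ⊥) (N := B) (by
    intro h
    rw [le_bot_iff.mp h, card_bot] at hc
    exact (Nat.one_lt_pow two_ne_zero h1p).ne hc)
  rw [mem_bot] at hc1 hcp
  have hcc : c ∈ center G := mem_center_iff.mpr fun g =>
    (commutatorElement_eq_one_iff_mul_comm.mp (mem_bot.mp (hcz g))).symm
  have hoc : orderOf c = p := orderOf_eq_prime hcp hc1
  haveI : (zpowers c).Normal := ⟨fun n hn g => by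
    rwa [mem_center_iff.mp ((zpowers_le.mpr hcc) hn) g, mul_inv_cancel_right]⟩
  obtain ⟨x, hxB, hxc, -, hxz⟩ := PGrp.exists_central_mod_pow hG (M := zpowers c) (N := B) (by
    intro h
    have := card_le_of_le h
    rw [hc, Nat.card_zpowers, hoc, sq] at this
    nlinarith)
  have hxp : x ^ p = 1 := hB.2 x hxB
  let e : ZMod p → G := fun i => c ^ i.val
  have he : ∀ n : ℕ, e n = c ^ n := fun n => by
    simp only [e, ZMod.val_natCast]; rw [← hoc, pow_mod_orderOf]
  have headd : ∀ i j, e (i + j) = e i * e j := fun i j => by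
    rw [← ZMod.natCast_zmod_val i, ← ZMod.natCast_zmod_val j, ← Nat.cast_add, he, he, he, pow_add]
  have hepow : ∀ i (k : ℕ), e i ^ k = e (k * i) := fun i k => by
    rw [← ZMod.natCast_zmod_val i, ← Nat.cast_mul, he, he, ← pow_mul, mul_comm]
  have he0 : e 0 = 1 := by simp [e]
  have he1 : ∀ i, e i = 1 → i = 0 := fun i h => by
    have := orderOf_dvd_of_pow_eq_one h
    rw [hoc, ← ZMod.natCast_eq_zero_iff, ZMod.natCast_zmod_val] at this
    exact this
  have hec : ∀ i, e i ∈ center G := fun i => pow_mem hcc _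
  have hep : ∀ i, e i ^ p = 1 := fun i => by rw [hepow]; simp [he0]
  have hlam : ∀ g, ∃ a, g * x * g⁻¹ = e a * x := fun g => by
    obtain ⟨k, hk⟩ := (mem_powers_iff_mem_zpowers.mpr (inv_mem (hxz g)))
    refine ⟨k, ?_⟩
    rw [he, show c ^ k = _ from hk, commutatorElement_inv, commutatorElement_def]; group
  choose l hl using hlam
  have hinj : ∀ i j, e i * x = e j * x → i = j := fun i j h => by
    rw [← sub_eq_zero]
    apply he1
    have h2 := headd (i - j) j
    rw [sub_add_cancel, mul_right_cancel h] at h2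
    exact (mul_eq_right.mp h2.symm)
  have hce : ∀ g i, g * (e i * x) * g⁻¹ = e (i + l g) * x := fun g i => by
    rw [← mul_assoc, mem_center_iff.mp (hec i) g, headd, mul_assoc (e i) (e _), ← hl]; group
  let lam : G →* Multiplicative (ZMod p) := MonoidHom.mk' (fun g => Multiplicative.ofAdd (l g))
    fun a b => by
      rw [← ofAdd_add, add_comm]
      congr 1
      apply hinj
      rw [← hl, ← hce, ← hl]; group
  have hlk : ∀ {g}, g ∈ lam.ker ↔ l g = 0 := Iff.rfl
  let W : ZMod p → Submodule F V := fun i => fx (e i * x)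
  have hex : ∀ i (k : ℕ), (e i * x) ^ k = e (k * i) * x ^ k := fun i k => by
    rw [Commute.mul_pow (mem_center_iff.mp (hec i) x).symm, hepow]
  have hpF : (p : F) ≠ 0 := by
    intro h0
    letI : MulAction G V := MulAction.compHom V ρ
    have hd : p ∣ Nat.card V := by
      obtain ⟨v, hv⟩ := exists_ne (0 : V)
      have : addOrderOf v = p := addOrderOf_eq_prime (by
        rw [← Nat.cast_smul_eq_nsmul F, h0, zero_smul]) hv
      exact this ▸ addOrderOf_dvd_natCard _
    obtain ⟨v, hv, hv0⟩ := hG.exists_fixed_point_of_prime_dvd_card_of_fixed_point V hd (a := 0)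
      fun g => map_zero (ρ g)
    exact hv0 ((Submodule.eq_bot_iff _).mp (hcen c hcc hc1) v (hfx.mpr (hv c))).symm
  let Nm : ZMod p → V →ₗ[F] V := fun i => ∑ k ∈ Finset.range p, (ρ ((e i * x) ^ k) : V →ₗ[F] V)
  have hNm : ∀ i v, Nm i v = ∑ k ∈ Finset.range p, ρ ((e i * x) ^ k) v := fun i v => by
    simp [Nm, LinearMap.sum_apply]
  have hfxp : ∀ t v, v ∈ fx t → ∀ k : ℕ, ρ (t ^ k) v = v := fun t v h k => by
    induction k with
    | zero => simp
    | succ k ih => rw [pow_succ, hmul, hfx.mp h, ih]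
  have n1 : ∀ i v, Nm i v ∈ W i := fun i v => by
    rw [hfx, hNm, map_sum]
    simp only [← hmul, ← pow_succ']
    have := Finset.sum_range_succ' (fun k => ρ ((e i * x) ^ k) v) p
    rw [Finset.sum_range_succ, hex i p, hxp, pow_zero] at this
    simp only [CharP.cast_eq_zero, zero_mul, he0, mul_one] at this
    exact (add_right_cancel this).symm
  have n2 : ∀ i, ∀ v ∈ W i, Nm i v = (p : F) • v := fun i v hv => by
    rw [hNm, Finset.sum_congr rfl fun k _ => hfxp _ v hv k]
    simp [Nat.cast_smul_eq_nsmul]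
  have n3 : ∀ i j, j ≠ i → ∀ v ∈ W j, Nm i v = 0 := fun i j hij v hv => by
    rw [hNm, ← hsum (e (i - j)) (hec _) (fun h => hij (sub_eq_zero.mp (he1 _ h)).symm) (hep _) v]
    refine Finset.sum_congr rfl fun k _ => ?_
    conv_rhs => rw [← hfxp _ v hv k, ← hmul, hex, hepow, ← mul_assoc, ← headd]
    rw [hex]; congr 4; ring
  have n4 : ∀ v, ∑ i, Nm i v = (p : F) • v := fun v => by
    simp only [hNm, hex, hmul]
    rw [Finset.sum_comm, Finset.sum_eq_single 0]
    · simp [he0, Nat.cast_smul_eq_nsmul]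
    · intro k hk hk0
      have hk1 : (k : ZMod p) ≠ 0 := fun h => hk0 (Nat.eq_zero_of_dvd_of_lt
        ((ZMod.natCast_eq_zero_iff k p).mp h) (Finset.mem_range.mp hk))
      rw [← hsum (e k) (hec _) (fun h => hk1 (he1 _ h)) (hep _) (ρ (x ^ k) v)]
      symm
      refine Finset.sum_bij' (fun j _ => (j : ZMod p)) (fun j _ => j.val) (by simp)
        (fun j _ => Finset.mem_range.mpr (ZMod.val_lt j))
        (fun j hj => ZMod.val_cast_of_lt (Finset.mem_range.mp hj)) (by simp) fun j _ => ?_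
      rw [hepow, mul_comm]
    · intro h; exact absurd (Finset.mem_range.mpr hp.out.pos) h
  have htop : iSup W = ⊤ := by
    rw [eq_top_iff]
    intro v _
    rw [← (iSup W).smul_mem_iff hpF, ← n4]
    exact Submodule.sum_mem _ fun i _ => Submodule.mem_iSup_of_mem i (n1 i v)
  have hex1 : ∀ i, e i * x ≠ 1 := fun i h =>
    hxc (by rw [eq_inv_of_mul_eq_one_right h]; exact inv_mem (pow_mem (mem_zpowers c) _))
  have hxn : x ∉ center G := by
    intro h
    have : iSup W = ⊥ := iSup_eq_bot.mpr fun i => hcen _ (mul_mem (hec i) h) (hex1 i)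
    rw [htop] at this
    exact top_ne_bot this
  have hmap : ∀ g i, (W i).map (ρ g : V →ₗ[F] V) ≤ W (i + l g) := by
    rintro g i _ ⟨v, hv, rfl⟩
    have := hconj g _ v hv
    rwa [hce] at this
  refine ⟨fun h => hxn (mem_center_iff.mpr fun g => h.is_comm.comm g x), lam.ker, W, ?_, htop, ?_,
    ?_, fun i => ⟨e i * x, ?_, hex1 i, fun w hw => hfx.mp hw⟩, fun g hg => ⟨l g, hg, fun i => ?_⟩⟩
  · rw [index_ker]
    have h1 := card_subgroup_dvd_card lam.range
    rw [Nat.card_congr Multiplicative.toAdd, Nat.card_zmod] at h1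
    refine ((Nat.dvd_prime hp.out).mp h1).resolve_left fun h => hxn (mem_center_iff.mpr fun g => ?_)
    have h2 : l g = 0 := mem_bot.mp ((card_eq_one.mp h).le ⟨g, rfl⟩ : lam g ∈ (⊥ : Subgroup _))
    have := hl g
    rw [h2, he0, one_mul] at this
    exact mul_inv_eq_iff_eq_mul.mp this
  · intro i
    rw [Submodule.disjoint_def]
    intro v hv hv'
    have : (⨆ j, ⨆ (_ : j ≠ i), W j) ≤ LinearMap.ker (Nm i) :=
      iSup₂_le fun j hj w hw => n3 i j hj w hw
    have h2 := this hv'
    rw [LinearMap.mem_ker, n2 i v hv] at h2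
    exact (smul_eq_zero.mp h2).resolve_left hpF
  · intro h hh i w hw
    simpa [hlk.mp hh] using hmap h i ⟨w, hw, rfl⟩
  · rw [hlk]
    apply hinj
    rw [← hl, he0, one_mul, ← mem_center_iff.mp (hec i) x]
    calc x * e i * x * (x * e i)⁻¹ = x * (e i * x * (e i)⁻¹) * x⁻¹ := by group
      _ = x := by rw [← mem_center_iff.mp (hec i) x]; group
  · refine le_antisymm (hmap g i) fun v hv => ⟨ρ g⁻¹ v, ?_, by simp⟩
    have h1 := hmap g⁻¹ _ ⟨v, hv, rfl⟩
    have h2 : l g⁻¹ = -l g := congrArg Multiplicative.toAdd (map_inv lam g)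
    simpa [h2] using h1

end Cfsg.Agent.Low
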