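import Cfsg.Agent.Classical.SL2Unip
import Cfsg.Agent.Classical.SLCard
import Cfsg.Agent.Root.Basic

/-! Elementary facts on a subgroup `L ≅ SL₂(q)`, `q` odd, with central involution `j` (`S2 L j`), used for
central products of two such groups. -/

namespace Cfsg.Agent.Low
open Cfsg.Agent.Classical Matrix
open scoped MatrixGroups

variable {F : Type*} [Field F]

theorem sl2_scal {g : SL(2, F)} (h : IsScal g.1) : g = 1 ∨ g = -1 := by
  obtain ⟨a, ha⟩ := isScal_iff.1 h
  have := g.2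
  rw [ha] at this
  simp only [det_smul, Fintype.card_fin, det_one, mul_one, sq_eq_one_iff] at this
  exact this.imp (fun e => Subtype.ext (by simp [ha, e])) fun e => Subtype.ext (by simp [ha, e])

theorem sl2_sq_one (h2 : (2 : F) ≠ 0) {g : SL(2, F)} (h : g * g = 1) : g = 1 ∨ g = -1 := by
  refine sl2_scal (by_contra fun hs => ?_)
  have e := m2_mul_self g.1
  rw [show g.1 * g.1 = 1 from congrArg Subtype.val h, g.2] at e
  have := lin_inj hs (a := 1) (b := 0) (c := -1) (d := g.1.trace) (by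
    rw [zero_smul, add_zero, one_smul, neg_smul, add_comm, ← sub_eq_add_neg]; exact e)
  exact h2 (by linear_combination this.1)

theorem sl2_tr0 (h2 : (2 : F) ≠ 0) {g : SL(2, F)} (h : g * g = -1) : g.1.trace = 0 := by
  by_contra ht
  have e := m2_mul_self g.1
  rw [show g.1 * g.1 = -1 from congrArg Subtype.val h, g.2, one_smul, eq_sub_iff_add_eq,
    neg_add_cancel, eq_comm, smul_eq_zero] at e
  have := g.2
  rw [e.resolve_left ht] at this
  simp at this

theorem sl2_cent (h2 : (2 : F) ≠ 0) {a m : SL(2, F)} (h : ∀ g : SL(2, F), Commute (g * a * g⁻¹) m) :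
    IsScal a.1 ∨ IsScal m.1 := by
  by_contra hc
  push Not at hc
  have h0 : ∀ g : SL(2, F), ∃ s t : F, (g * a * g⁻¹).1 = s • 1 + t • a.1 := fun g =>
    (commute_iff_lin hc.1).1 (commute_of_commute hc.2 (congrArg Subtype.val (h g))
      (by simpa using congrArg Subtype.val (h 1)))
  obtain ⟨s, t, e⟩ := h0 (uSL 1)
  obtain ⟨s', t', e'⟩ := h0 (lSL 1)
  rw [uSL_inv] at e
  rw [lSL_inv] at e'
  have e1 := congrFun (congrFun e 0) 0
  have e2 := congrFun (congrFun e 0) 1
  have e3 := congrFun (congrFun e 1) 0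
  have e4 := congrFun (congrFun e 1) 1
  have f1 := congrFun (congrFun e' 0) 0
  have f2 := congrFun (congrFun e' 0) 1
  have f4 := congrFun (congrFun e' 1) 1
  simp [Matrix.mul_apply, Fin.sum_univ_two, vecMul, dotProduct] at e1 e2 e3 e4 f1 f2 f4
  have c0 : a.1 1 0 = 0 := by
    by_contra c
    have t1 : t = 1 := mul_right_cancel₀ c (by rw [← e3, one_mul])
    rw [t1] at e1 e4
    exact mul_ne_zero h2 c (by linear_combination e1 - e4)
  have b0 : a.1 0 1 = 0 := by
    by_contra c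
    have t1 : t' = 1 := mul_right_cancel₀ c (by rw [← f2, one_mul])
    rw [t1] at f1 f4
    exact mul_ne_zero h2 c (by linear_combination f4 - f1)
  exact hc.1 ⟨b0, c0, by rw [b0, c0] at e2; linear_combination -e2⟩

variable {G : Type*} [Group G] {L : Subgroup G} {j : G}

/-- Properties of a subgroup isomorphic to `SL₂(q)`, `q` odd, with central involution `j`. -/
structure S2 (L : Subgroup G) (j : G) : Prop where
  sq1 : ∀ a ∈ L, a * a = 1 → a ∈ Subgroup.zpowers j
  conj : ∀ a ∈ L, ∀ b ∈ L, a * a = j → b * b = j → ∃ g ∈ L, g * a * g⁻¹ = b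
  ex : ∃ a ∈ L, a * a = j
  gen : ∀ H : Subgroup G, (∀ x ∈ L, Odd (orderOf x) → x ∈ H) → L ≤ H
  cent : ∀ a ∈ L, ∀ m ∈ L, (∀ g ∈ L, Commute (g * a * g⁻¹) m) →
    a ∈ Subgroup.zpowers j ∨ m ∈ Subgroup.zpowers j

theorem s2_of [Fintype F] (hF : Odd (Fintype.card F)) (e : L ≃* SL(2, F)) (hj : orderOf j = 2)
    (hL : j ∈ L) : S2 L j := by
  have h2 : (2 : F) ≠ 0 := fun h => by
    have : ringChar F = 2 := CharP.ringChar_of_prime_eq_zero Nat.prime_two h
    exact (Nat.not_even_iff_odd.2 hF) (FiniteField.even_card_iff_char_two.1 this |> Nat.even_iff.2)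
  have jj : j * j = 1 := by rw [← sq, ← hj, pow_orderOf_eq_one]
  have ej : e ⟨j, hL⟩ = -1 := (sl2_sq_one h2 (by
    rw [← map_mul, ← map_one e]; exact congrArg e (Subtype.ext jj))).resolve_left fun h => by
      have : j = 1 := congrArg Subtype.val (e.map_eq_one_iff.1 h)
      simp [this] at hj
  have pm : ∀ a : L, e a = 1 ∨ e a = -1 → a.1 ∈ Subgroup.zpowers j := by
    rintro a (h | h)
    · rw [e.map_eq_one_iff.1 h]; exact one_mem _
    · rw [e.injective (h.trans ej.symm)]; exact Subgroup.mem_zpowers j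
  have sq : ∀ a : L, a.1 * a.1 = j → e a * e a = -1 := fun a h => by
    rw [← map_mul, ← ej]; exact congrArg e (Subtype.ext h)
  refine ⟨fun a ha h => pm ⟨a, ha⟩ (sl2_sq_one h2 (by
    rw [← map_mul, ← map_one e]; exact congrArg e (Subtype.ext h))), fun a ha b hb h h' => ?_, ?_,
    fun H hH x hx => ?_, fun a ha m hm h => ?_⟩
  · have t1 := sl2_tr0 h2 (sq ⟨a, ha⟩ h)
    obtain ⟨g, hg⟩ := exists_SL_conj (m := (e ⟨a, ha⟩).1) (n := (e ⟨b, hb⟩).1) (by
      rw [disc, t1, (e _).2, show (4 : F) = 2 * 2 by norm_num]; simpa using h2)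
      (t1.trans (sl2_tr0 h2 (sq ⟨b, hb⟩ h')).symm) ((e _).2.trans (e _).2.symm)
    refine ⟨e.symm g, (e.symm g).2, ?_⟩
    have : e.symm g * ⟨a, ha⟩ * (e.symm g)⁻¹ = ⟨b, hb⟩ := e.injective (by
      rw [map_mul, map_mul, map_inv, e.apply_symm_apply, mul_inv_eq_iff_eq_mul]; exact Subtype.ext hg)
    exact congrArg Subtype.val this
  · refine ⟨e.symm wSL, (e.symm wSL).2, ?_⟩
    have : e.symm wSL * e.symm wSL = ⟨j, hL⟩ := e.injective (by
      rw [map_mul, e.apply_symm_apply, ej]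
      ext i k; fin_cases i <;> fin_cases k <;> simp [Matrix.mul_apply, Fin.sum_univ_two])
    exact congrArg Subtype.val this
  · obtain ⟨p, hp⟩ := CharP.exists F
    have hp' : p.Prime := CharP.char_is_prime F p
    have od : ∀ g : SL(2, F), g ^ p = 1 → g ∈ (H.comap L.subtype).comap e.symm.toMonoidHom :=
      fun g hg => hH _ (e.symm g).2 (by
        change Odd (orderOf ((e.symm g : L) : G))
        rw [Subgroup.orderOf_coe, e.symm.orderOf_eq]
        exact Odd.of_dvd_nat (hp'.odd_of_ne_two (by rintro rfl; exact h2 (CharP.cast_eq_zero F 2)))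
          (orderOf_dvd_of_pow_eq_one hg))
    have := sl_eq_top_of_uSL_lSL (fun b => od _ (by simp [uSL_pow])) fun b => od _ (by simp [lSL_pow])
    have h1 : e ⟨x, hx⟩ ∈ (H.comap L.subtype).comap e.symm.toMonoidHom := this ▸ trivial
    simpa [Subgroup.mem_subgroupOf] using h1
  · refine (sl2_cent h2 (a := e ⟨a, ha⟩) (m := e ⟨m, hm⟩) fun g => ?_).imp
      (fun h => pm ⟨a, ha⟩ (sl2_scal h)) fun h => pm ⟨m, hm⟩ (sl2_scal h)
    obtain ⟨g, rfl⟩ := e.surjective g
    rw [← map_inv, ← map_mul, ← map_mul]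
    exact Commute.map (show Commute (g * ⟨a, ha⟩ * g⁻¹) ⟨m, hm⟩ from Subtype.ext (h g g.2)) e

theorem mem_zpowers_two (hj : orderOf j = 2) {x : G} (h : x ∈ Subgroup.zpowers j) : x = 1 ∨ x = j := by
  obtain ⟨k, rfl⟩ := h
  rcases Int.even_or_odd' k with ⟨m, rfl | rfl⟩
  · left; simp only; rw [_root_.zpow_mul, zpow_ofNat, ← hj, pow_orderOf_eq_one, _root_.one_zpow]
  · right; simp only; rw [_root_.zpow_add, _root_.zpow_mul, zpow_ofNat, ← hj, pow_orderOf_eq_one]; simp

end Cfsg.Agent.Low
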