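import Cfsg.Agent.Low.SL6
import Mathlib.NumberTheory.LegendreSymbol.QuadraticChar.Basic

/-! Imprimitive maximal subgroups of `SL_4(q)`: four lines for `q ≥ 7` (`slDec41`), two planes for `q ≥ 4`
(`slDec42`). -/

set_option autoImplicit false

namespace Cfsg.Agent.Root.Mx

open Cfsg.Agent.Geom Cfsg.Agent.AutCl Module

section Num
variable {F : Type*} [Field F] [Fintype F]

theorem exists_rr (h7 : ∀ l : List F, l.length ≤ 6 → ∃ x, x ∉ l) {γ : F} (hγ : ¬ IsSquare γ) :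
    ∃ r r' κ : F, κ ≠ 0 ∧ r * (1 - r) * (r' * (1 - r')) = γ * κ ^ 4 := by
  classical
  have h2 : (2 : F) ≠ 0 := fun e => hγ (FiniteField.isSquare_of_char_two
    (ringChar.eq_iff.2 (CharTwo.of_one_ne_zero_of_two_eq_zero one_ne_zero e)) γ)
  have γ0 : γ ≠ 0 := by rintro rfl; simp at hγ
  by_contra! hc
  let χ := quadraticChar F
  have H : ∀ r r' s : F, s ≠ 0 → r * (1 - r) * (r' * (1 - r')) = γ * s ^ 2 → χ s = -1 := fun r r' s s0 e =>
    quadraticChar_neg_one_iff_not_isSquare.2 fun ⟨k, hk⟩ => hc r r' k (by rintro rfl; simp [hk] at s0)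
      (by rw [e, hk]; ring)
  obtain ⟨x, x0, g1⟩ : ∃ x : F, x ≠ 0 ∧ 1 + γ * x ^ 2 ≠ 0 := by
    obtain ⟨x, hx⟩ := h7 [0, 1, -1] (by simp)
    simp only [List.mem_cons, List.not_mem_nil, or_false, not_or] at hx
    by_cases e : 1 + γ * x ^ 2 = 0
    · refine ⟨1, one_ne_zero, fun e' => ?_⟩
      have : γ * ((x - 1) * (x + 1)) = 0 := by linear_combination e - e'
      simp [γ0, sub_eq_zero, add_eq_zero_iff_eq_neg, hx] at this
    · exact ⟨x, hx.1, e⟩
  have Z : ∀ r a : F, a ≠ 0 → r * (1 - r) = a ^ 2 → χ a * χ (x / (1 + γ * x ^ 2)) = -1 := fun r a a0 e => by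
    rw [← map_mul]
    exact H r (1 + γ * x ^ 2)⁻¹ _ (by simp [*]) (by rw [e]; field_simp; ring)
  have m1 : χ (-1) = 1 := by
    have p := Z 2⁻¹ 2⁻¹ (by simpa) (by field_simp; ring)
    have q := Z 2⁻¹ (-1 * 2⁻¹) (by simpa) (by field_simp; ring)
    rw [map_mul, mul_assoc, p] at q; omega
  obtain ⟨i, hi⟩ := (quadraticChar_one_iff_isSquare (by simp)).1 m1
  have i0 : i ≠ 0 := by rintro rfl; simp at hi
  obtain ⟨τ, hτ⟩ := h7 [0, 1, -1, i, -i] (by simp)
  simp only [List.mem_cons, List.not_mem_nil, or_false, not_or] at hτ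
  have t1 : 1 + τ ^ 2 ≠ 0 := fun e => by
    have : (τ - i) * (τ + i) = 0 := by linear_combination e + hi
    simp [sub_eq_zero, add_eq_zero_iff_eq_neg, hτ] at this
  have t2 : 1 - τ ^ 2 ≠ 0 := fun e => by
    have : (τ - 1) * (τ + 1) = 0 := by linear_combination -e
    simp [sub_eq_zero, add_eq_zero_iff_eq_neg, hτ] at this
  obtain ⟨A, B, A0, B0, e⟩ : ∃ A B : F, A ≠ 0 ∧ B ≠ 0 ∧ 1 - A ^ 2 = B ^ 2 :=
    ⟨(1 - τ ^ 2) / (1 + τ ^ 2), 2 * τ / (1 + τ ^ 2), by simp [*], by simp [*], by field_simp; ring⟩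
  have p1 := Z (A ^ 2) (A * B) (by simp [*]) (by rw [e]; ring)
  have p2 := Z (A ^ 2)⁻¹ (i * B / A ^ 2) (by simp [*]) (by field_simp; linear_combination -e + B ^ 2 * hi)
  have p3 := Z (B ^ 2)⁻¹ (i * A / B ^ 2) (by simp [*]) (by field_simp; linear_combination -e + A ^ 2 * hi)
  have p4 : χ (A * B) * χ (i * B / A ^ 2) * χ (i * A / B ^ 2) = 1 := by
    rw [← map_mul, ← map_mul, ← m1]; congr 1; field_simp; linear_combination -hi
  have p5 : χ (x / (1 + γ * x ^ 2)) = -1 := by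
    rcases quadraticChar_dichotomy (a := x / (1 + γ * x ^ 2)) (by simp [*]) with e | e
    · simp only [χ, e, mul_one] at p1 p2 p3 p4; simp [p1, p2, p3] at p4
    · exact e
  have p6 : χ (A * B) = 1 := by rw [p5] at p1; omega
  have fin : ∀ r r' s a : F, s ≠ 0 → a ≠ 0 → r * (1 - r) = γ * s ^ 2 → r' * (1 - r') = a ^ 2 →
      γ * (s * a * (x / (1 + γ * x ^ 2))) = -1 → False := fun r r' s a s0 a0 e1 e2 e3 => by
    have q1 := H r (A ^ 2) (s * (A * B)) (by simp [*]) (by rw [e1, e]; ring)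
    have q2 := Z r' a a0 e2
    have q3 := congrArg χ e3
    have q4 : χ γ = -1 := quadraticChar_neg_one_iff_not_isSquare.2 hγ
    rw [map_mul, p6, mul_one] at q1
    rw [map_mul, mul_assoc s, map_mul, map_mul, q1, q2, m1, q4] at q3
    omega
  by_cases hs : IsSquare (1 + γ * x ^ 2)
  · obtain ⟨f, hf⟩ := hs
    have f0 : f ≠ 0 := by rintro rfl; simp [g1] at hf
    refine fin (-(γ * x ^ 2)) (-(γ * x ^ 2))⁻¹ (i * x * f) (i * f / (γ * x ^ 2)) (by simp [*]) (by simp [*])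
      (by linear_combination -γ * x ^ 2 * hf + γ * x ^ 2 * f ^ 2 * hi) (by
        field_simp; linear_combination -hf + f ^ 2 * hi) (by rw [hf]; field_simp; linear_combination -hi)
  · obtain ⟨f, hf⟩ := isSquare_mul_of_not_isSquare hs hγ
    have f0 : f ≠ 0 := by rintro rfl; simp [g1, γ0] at hf
    have hf' : 1 + γ * x ^ 2 = f * f / γ := by rw [← hf]; field_simp
    refine fin (-(γ * x ^ 2))⁻¹ (-(γ * x ^ 2)) (i * f / (γ * (γ * x ^ 2))) (i * x * f) (by simp [*]) (by simp [*])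
      (by field_simp; linear_combination -hf + f ^ 2 * hi) (by linear_combination -x ^ 2 * hf + x ^ 2 * f ^ 2 * hi)
      (by rw [hf']; field_simp; linear_combination -hi)

omit [Fintype F] in
theorem sq_of {Y Y' : Fin 4 → F} {a P : F} (h : Y = a • Y') (k : Fin 4) (e : P = Y 0 * Y k * (Y' 0 * Y' k)) :
    IsSquare P := ⟨a * Y' 0 * Y' k, by rw [e, h]; simp; ring⟩

theorem sol4 (h7 : ∀ l : List F, l.length ≤ 6 → ∃ x, x ∉ l) {γ : F} :
    ∃ y : Fin 4 → Fin 4 → F, (∀ m, ∑ k, y m k = 0 ∧ ∃ κ : F, κ ≠ 0 ∧ ∏ k, y m k = γ * κ ^ 4) ∧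
      ∀ m m' (a : F), γ ≠ 0 → y m = a • y m' → m = m' := by
  by_cases hs : IsSquare γ
  · obtain ⟨δ, rfl⟩ := hs
    obtain ⟨u, v, u0, v0, h1, h2, h3⟩ : ∃ u v : F, u ≠ 0 ∧ v ≠ 0 ∧ u ^ 2 ≠ v ^ 2 ∧ δ * u ^ 2 ≠ -1 ∧ δ * v ^ 2 ≠ -1 := by
      obtain ⟨x, hx⟩ := h7 [0, 1, -1] (by simp)
      obtain ⟨z, hz⟩ := h7 [0, 1, -1, x, -x] (by simp)
      simp only [List.mem_cons, List.not_mem_nil, or_false, not_or] at hx hz
      have n1 : (1 : F) ^ 2 ≠ x ^ 2 := by rw [ne_comm]; simp [hx]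
      have n2 : (1 : F) ^ 2 ≠ z ^ 2 := by rw [ne_comm]; simp [hz]
      have n3 : x ^ 2 ≠ z ^ 2 := by rw [ne_comm]; simp [sq_eq_sq_iff_eq_or_eq_neg, hz]
      have k : ∀ {a b : F}, a ^ 2 ≠ b ^ 2 → δ * a ^ 2 = -1 → δ * b ^ 2 ≠ -1 := fun {a b} n e e' =>
        n (by linear_combination a ^ 2 * e' - b ^ 2 * e)
      by_cases e1 : δ * 1 ^ 2 = -1
      · exact ⟨x, z, hx.1, hz.1, n3, k n1 e1, k n2 e1⟩
      by_cases e2 : δ * x ^ 2 = -1
      · exact ⟨1, z, one_ne_zero, hz.1, n2, e1, k n3 e2⟩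
      · exact ⟨1, x, one_ne_zero, hx.1, n1, e1, e2⟩
    refine ⟨![![1, -1, δ * u ^ 2, -(δ * u ^ 2)], ![1, -1, δ * v ^ 2, -(δ * v ^ 2)], ![1, δ * u ^ 2, -1, -(δ * u ^ 2)],
      ![1, δ * v ^ 2, -1, -(δ * v ^ 2)]], fun m => ?_, fun m m' a d0 e => ?_⟩
    · fin_cases m
      exacts [⟨by simp [Fin.sum_univ_four], u, u0, by simp [Fin.prod_univ_four]; ring⟩,
        ⟨by simp [Fin.sum_univ_four], v, v0, by simp [Fin.prod_univ_four]; ring⟩,
        ⟨by simp [Fin.sum_univ_four], u, u0, by simp [Fin.prod_univ_four]; ring⟩,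
        ⟨by simp [Fin.sum_univ_four], v, v0, by simp [Fin.prod_univ_four]; ring⟩]
    · have d0 : δ ≠ 0 := left_ne_zero_of_mul d0
      have a1 : a = 1 := by fin_cases m <;> fin_cases m' <;> simpa [eq_comm] using congrFun e 0
      have e1 := congrFun e 1
      have e2 := congrFun e 2
      fin_cases m <;> fin_cases m' <;> simp_all [eq_comm (a := (-1 : F)), eq_comm (a := v ^ 2)]
  obtain ⟨r, s, κ, k0, e⟩ := exists_rr h7 hs
  have ns : ¬ IsSquare (r * (1 - r) * (s * (1 - s))) := fun h => hs (by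
    rwa [e, show κ ^ 4 = κ ^ 2 * κ ^ 2 by ring, mul_comm, isSquare_mul_iff_of_isSquare (IsSquare.mul_self _) (by simpa)] at h)
  refine ⟨![![r, 1 - r, -s, s - 1], ![1 - r, r, s - 1, -s], ![-s, s - 1, r, 1 - r], ![s - 1, -s, 1 - r, r]],
    fun m => ?_, fun m m' a _ e => ?_⟩
  · fin_cases m <;> exact ⟨by simp [Fin.sum_univ_four]; try ring, κ, k0, by
      simp [Fin.prod_univ_four]; linear_combination e⟩
  · fin_cases m <;> fin_cases m' <;> first | rfl | (refine absurd (sq_of e 2 ?_) ns; simp only [Fin.reduceFinMk, Matrix.cons_val]; ring1) |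
      (refine absurd (sq_of e 1 ?_) ns; simp only [Fin.reduceFinMk, Matrix.cons_val]; ring1)

end Num

section Mon
variable {F : Type*} [Field F] {ι : Type} [Fintype ι] [DecidableEq ι] {X : Subgroup ((ι → F) ≃ₗ[F] (ι → F))}

local notation "e" i:max => (Pi.single i (1 : F) : ι → F)
local notation "ε" i:max => (LinearMap.proj i : Dual F (ι → F))

/-- `X` contains all diagonal maps, over a field with at least seven elements. -/
structure M3 (X : Subgroup ((ι → F) ≃ₗ[F] (ι → F))) : Prop where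
  hH : ∀ i, Hp X (Pi.single i 1) (LinearMap.proj i)
  h7 : ∀ l : List F, l.length ≤ 6 → ∃ x, x ∉ l

namespace M3

omit [Fintype ι] in
theorem two (h : M3 X) : ∃ θ : F, θ ≠ 0 ∧ θ - 1 ≠ 0 ∧ θ⁻¹ - 1 ≠ 0 := by
  obtain ⟨x, hx⟩ := h.h7 [0, 1] (by simp)
  simp only [List.mem_cons, List.not_mem_nil, or_false, not_or] at hx
  exact ⟨x, hx.1, sub_ne_zero.2 hx.2, by simpa [sub_eq_zero] using hx.2⟩

omit [Fintype ι] in
theorem tvA (h : M3 X) {p : ι → F} {i : ι} (hp : p ≠ 0) (h0 : p i = 0) (H : HasL X (rk1 p (ε i))) : ET X := by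
  obtain ⟨θ, t0, t1, -⟩ := h.two
  obtain ⟨l, hl⟩ := Function.ne_iff.1 hp
  have a1 : i ≠ l := by rintro rfl; exact hl h0
  obtain ⟨t, ht, e1⟩ := ((h.hH l).2 θ t0).exists_apply
  exact ⟨l, i, (θ - 1) * p l, a1.symm, by simpa [t1] using hl, ((H.conj (β := rk1 (t p) (ε i)) ht fun v => by
    simp; simp [e1, a1]).add (H.neg (rk1_mul_zero h0)) (LinearMap.ext fun v => by simp [h0])).congr fun v => by
      simp [e1, single_eq l (_ * _)]; module⟩

theorem tvB (h : M3 X) {ψ : Dual F (ι → F)} {i : ι} (hp : ψ ≠ 0) (h0 : ψ (e i) = 0) (H : HasL X (rk1 (e i) ψ)) :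
    ET X := by
  obtain ⟨θ, t0, t1, -⟩ := h.two
  obtain ⟨l, hl⟩ := exists_e_ne hp
  have a1 : l ≠ i := by rintro rfl; exact hl h0
  obtain ⟨t, ht, e1⟩ := ((h.hH l).2 θ t0).exists_apply
  have : t.symm (e i) = e i := t.symm_apply_eq.2 (by simp [e1, a1])
  exact ⟨i, l, (θ - 1) * ψ (e l), a1.symm, by simpa [t1] using hl, ((H.conj (β := rk1 (e i) (ψ ∘ₗ t.toLinearMap))
    (inv_mem ht) fun v => by simp [this]).add (H.neg (rk1_mul_zero h0))
      (LinearMap.ext fun v => by simp [e1, a1, h0])).congr fun v => by simp [e1, single_eq i (_ * _)]; module⟩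

variable {a : ι → F} {α : Dual F (ι → F)}

theorem hA (h : M3 X) (hE : ¬ ET X) (H : Hp X a α) (i : ι) :
    a i = 0 ↔ α (e i) = 0 := by
  obtain ⟨θ, t0, t1, t2⟩ := h.two
  have K := (h.hH i).act H t0
  have a0 : a ≠ 0 := by rintro rfl; simpa using H.1
  have α0 : α ≠ 0 := by rintro rfl; simpa using H.1
  have M := (K.2 θ t0).mul (H.2 θ⁻¹ (inv_ne_zero t0))
  refine ⟨fun h0 => by_contra fun h1 => hE (h.tvA (i := i) (p := ((θ - 1) * (θ⁻¹ - 1) * α (e i)) • a)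
    (by simp [*]) (by simp [h0]) (M.congr fun v => ?_)), fun h0 => by_contra fun h1 => hE (h.tvB (i := i)
    (ψ := ((θ - 1) * θ⁻¹ * (θ - 1) * a i) • α) (by simp [*]) (by simp [h0]) (M.congr fun v => ?_))⟩ <;>
  · simp [h0, H.1]; match_scalars <;> field_simp <;> ring

theorem hB (h : M3 X) (hE : ¬ ET X) (H : Hp X a α) {j : ι} (hj : a j ≠ 0) :
    a j * α (e j) ≠ 0 ∧ (a j * α (e j) = 1 ∨ 2 * (a j * α (e j)) = 1) := by
  have t0 : a j * α (e j) ≠ 0 := mul_ne_zero hj (mt (h.hA hE H j).2 hj)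
  refine ⟨t0, or_iff_not_imp_left.2 fun t1 => ?_⟩
  have e0 : 1 - (a j * α (e j))⁻¹ ≠ 0 := fun e3 => t1 (inv_eq_one.1 (sub_eq_zero.1 e3).symm)
  have := (h.hA hE (H.act (h.hH j) e0) j).1 (by
    simp only [Pi.add_apply, Pi.smul_apply, Pi.single_eq_same, smul_eq_mul]
    have := (mul_ne_zero_iff.1 t0).2; field_simp; ring)
  simp only [LinearMap.add_apply, LinearMap.smul_apply, LinearMap.proj_apply, Pi.single_eq_same, smul_eq_mul,
    mul_assoc] at this
  generalize a j * α (e j) = t at *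
  have t2 : t - 1 ≠ 0 := sub_ne_zero.2 t1
  rw [show 1 - t⁻¹ = (t - 1) / t by field_simp] at this
  field_simp at this
  linear_combination this

theorem hS (h : M3 X) (hE : ¬ ET X) (H : Hp X a α) {i j : ι} (hij : i ≠ j)
    (hi : a i ≠ 0) (hj : a j ≠ 0) {η : F} (h0 : η ≠ 0) (h1 : η ≠ 1) : ∃ k : F, (k = 1 ∨ k = 2) ∧
      k * ((η - 1) * (η⁻¹ - 1)) * ((a i * α (e i)) * (a j * α (e j))) = 1 := by
  have := (h.hB hE (H.act (h.hH j) h0) (j := i) (by
    simpa [hij, hi, sub_eq_zero, h1] using mt (h.hA hE H j).2 hj)).2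
  simp only [Pi.add_apply, Pi.smul_apply, LinearMap.add_apply, LinearMap.smul_apply, LinearMap.proj_apply,
    Pi.single_eq_of_ne hij, Pi.single_eq_of_ne hij.symm, smul_eq_mul, zero_add] at this
  rcases this with e1 | e1
  exacts [⟨1, .inl rfl, by linear_combination e1⟩, ⟨2, .inr rfl, by linear_combination e1⟩]

theorem hC (h : M3 X) (hE : ¬ ET X) (H : Hp X a α) {i j : ι} (hij : i ≠ j)
    (hi : a i ≠ 0) (hj : a j ≠ 0) : False := by
  have S := @hS _ _ _ _ _ _ _ _ h hE H i j hij hi hj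
  generalize a i * α (e i) = s at *
  generalize a j * α (e j) = t at *
  have key : ∀ {x y k : F}, x ≠ 0 → y ≠ 0 → k * ((x - 1) * (x⁻¹ - 1)) * (s * t) = 1 →
      k * ((y - 1) * (y⁻¹ - 1)) * (s * t) = 1 → y = x ∨ y = x⁻¹ := fun {x y k} x0 y0 e1 e2 => by
    have k0 : k * (s * t) ≠ 0 := fun e3 => by
      have : (1 : F) = 0 := by linear_combination (x - 1) * (x⁻¹ - 1) * e3 - e1
      simp at this
    have e3 : (x - 1) * (x⁻¹ - 1) = (y - 1) * (y⁻¹ - 1) := mul_left_cancel₀ k0 (by linear_combination e1 - e2)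
    have : (y - x) * (y - x⁻¹) = 0 := by field_simp at e3 ⊢; linear_combination e3
    simpa [sub_eq_zero] using this
  obtain ⟨x, hx⟩ := h.h7 [0, 1] (by simp)
  obtain ⟨y, hy⟩ := h.h7 [0, 1, x, x⁻¹] (by simp)
  obtain ⟨z, hz⟩ := h.h7 [0, 1, x, x⁻¹, y, y⁻¹] (by simp)
  simp only [List.mem_cons, List.not_mem_nil, or_false, not_or] at hx hy hz
  obtain ⟨k1, rfl | rfl, e1⟩ := S hx.1 hx.2 <;> obtain ⟨k2, rfl | rfl, e2⟩ := S hy.1 hy.2.1 <;>
    obtain ⟨k3, rfl | rfl, e3⟩ := S hz.1 hz.2.1 <;>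
    first | (have := key hx.1 hy.1 e1 e2; tauto) | (have := key hx.1 hz.1 e1 e3; tauto) |
      (have := key hy.1 hz.1 e2 e3; tauto)

theorem mon_of_hom (h : M3 X) (hE : ¬ ET X) {y : (ι → F) ≃ₗ[F] (ι → F)}
    (hy : y ∈ X) : MonL y := fun r => by
  have H := (h.hH r).conj (β := (ε r) ∘ₗ y.symm.toLinearMap) hy fun v => by simp
  by_cases hc : ∃ i, y (e r) i ≠ 0
  · obtain ⟨i, hi⟩ := hc
    exact ⟨i, fun j hj => by_contra fun hj' => h.hC hE H hj hj' hi⟩
  · exact ⟨r, fun j _ => by_contra fun hj' => hc ⟨j, hj'⟩⟩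

end M3

namespace MX
variable {c : (ι → F) ≃ₗ[F] (ι → F)} {o : ι} (h : MX X) (h7 : ∀ l : List F, l.length ≤ 6 → ∃ x, x ∉ l) (hE : ¬ ET X)
include h h7 hE

theorem not_ET_quo4 (h4 : Fintype.card ι = 4) (o : ι) : ¬ ET (quo X o) := by
  rintro ⟨l, i, s, hli, s0, H⟩
  obtain ⟨y, ⟨τ, hτ, e1⟩, e2⟩ := H.exists_apply
  have e3 : ∀ v, ∀ j ≠ o, τ v j = v j + v i * (Pi.single l.1 s : ι → F) j := fun v j hj => by
    simp [e1 v ⟨j, hj⟩, e2, Pi.single_apply, Subtype.ext_iff]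
  have ho : ∀ j ≠ o, τ (e o) j = 0 := fun j hj => by simp [e3 _ _ hj, hj, i.2]
  obtain ⟨m, m1, m2, m3⟩ := out h.four o l i
  have e4 : ∀ r ≠ o, r ≠ m → τ (e r) o = 0 := fun r hr hm =>
    h.kill hE hτ ho m1 m1 (fun j a b => by simp [e3 _ _ a, b, m3.symm]) (fun x a => by
      simp [e3 _ _ m1, a.symm, m2]) hr hm
  obtain ⟨θ, hθ⟩ := h7 [0, 1, -1] (by simp)
  simp only [List.mem_cons, List.not_mem_nil, or_false, not_or] at hθ
  have t0 := hθ.1
  have li : (l : ι) ≠ i := Subtype.val_injective.ne hli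
  obtain ⟨t, ht, e5⟩ := h.d2 li t0
  refine hE ⟨l, i, (θ ^ 2 - 1) * s, li, by simp [sub_eq_zero, *], .of_apply (g := t * τ * t⁻¹ * τ⁻¹)
    (mul_mem (mul_mem (mul_mem ht hτ) (inv_mem ht)) (inv_mem hτ)) fun w => funext fun j => ?_⟩
  obtain ⟨v, rfl⟩ := (t.trans τ).surjective w
  have := l.2
  have := i.2
  simp only [LinearEquiv.trans_apply, LinearEquiv.mul_apply, LinearEquiv.coe_inv, LinearEquiv.symm_apply_apply]
  by_cases hj : j = o
  · simp [hj, e5, e4 l l.2 m2.symm, e4 i i.2 m3.symm, l.2.symm, i.2.symm]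
  by_cases hl : j = l
  · simp [hl, e5 (τ v), e3 _ _ l.2, e3 _ _ i.2, e5 v, li, li.symm]; field_simp; ring
  by_cases hi : j = i
  · simp [hi, e5 (τ v), e3 _ _ i.2, e5 v, li, li.symm]
  · simp [e5 (τ v), e3 _ _ hj, e5 v, hl, hi]

variable (h4 : Fintype.card ι = 4)
include h4

theorem par04 (hc : c ∈ X) (ho : ∀ j ≠ o, c (e o) j = 0) :
    MonL c := fun r => by
  by_cases hr : r = o
  · exact ⟨o, hr ▸ ho⟩
  obtain ⟨y, hy, e1, -⟩ := exists_quo hc ho
  have M := M3.mon_of_hom ⟨h.hp_quo o, h7⟩ (h.not_ET_quo4 h7 hE h4 o) hy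
  have e2 : ∀ x (hx : x ≠ o) j (hj : j ≠ o), c (e x) j = y (Pi.single ⟨x, hx⟩ 1) ⟨j, hj⟩ := fun x hx j hj => by
    rw [e1 _ ⟨j, hj⟩]; exact congrFun (congrArg y (funext fun k => by simp [Pi.single_apply, Subtype.ext_iff])) _
  obtain ⟨m, m1, m2, -⟩ := out h.four o r r
  obtain ⟨m', h1, h2⟩ := M.row ⟨m, m1⟩
  obtain ⟨i, hi⟩ := M ⟨r, hr⟩
  refine ⟨i, fun j hj => ?_⟩
  by_cases hj' : j = o
  · refine hj' ▸ h.kill hE hc ho m1 m'.2 (fun j a b => ?_) (fun x a => ?_) hr m2.symm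
    · rw [e2 _ m1 _ a]; exact h1 _ (by simpa [Subtype.ext_iff] using b)
    · by_cases hx : x = o
      · exact hx ▸ ho _ m'.2
      · rw [e2 _ hx _ m'.2]; exact h2 _ (by simpa [Subtype.ext_iff] using a)
  · rw [e2 _ hr _ hj']; exact hi _ (by simpa [Subtype.ext_iff] using hj)

theorem par4 (hc : c ∈ X) {k l : ι}
    (ho : ∀ j ≠ l, c (e k) j = 0) : MonL c := fun r => by
  by_cases hk : l = k
  · exact h.par04 h7 hE h4 hc (hk ▸ ho) r
  obtain ⟨w, hw, e1⟩ := h.swap hk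
  have M := h.par04 h7 hE h4 (mul_mem hc hw) (o := l) fun j hj => by simpa [e1, Ne.symm hk] using ho j hj
  by_cases r1 : r = k
  · exact ⟨l, r1 ▸ ho⟩
  by_cases r2 : r = l
  · simpa [e1, hk, r2] using M k
  · simpa [e1, Ne.symm r1, Ne.symm r2] using M r

theorem par_inv4 (hc : c ∈ X) (M : MonL c.symm) : MonL c := by
  obtain ⟨k⟩ : Nonempty ι := Fintype.card_pos_iff.1 (by omega)
  obtain ⟨l, hl⟩ := M k
  refine h.par4 h7 hE h4 hc (k := l) (l := k) fun j hj => ?_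
  simpa [hj, col_ne _ hl] using congrFun (c.symm_apply_eq.1 (eq_smul_e hl)) j

theorem two4 (hc : c ∈ X) {k j l : ι} (b1 : j ≠ l) (hz : c (e k) j = 0) (b3 : c (e k) l = 0) : MonL c := by
  obtain ⟨r, hk⟩ := exists_e_ne (ψ := (ε j) ∘ₗ c.toLinearMap) fun h0 => by
    simpa using LinearMap.congr_fun h0 (c.symm (e j))
  replace hk : c (e r) j ≠ 0 := hk
  refine h.par_inv4 h7 hE h4 hc (h.par4 h7 hE h4 (inv_mem hc) (k := j) (l := r) fun s hs => by_contra fun y0 => ?_)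
  replace y0 : c.symm (e j) s ≠ 0 := y0
  have key : ∀ η : F, η ≠ 0 → η ≠ 1 → η ≠ c (e r) l * c.symm (e l) s / (c (e r) j * c.symm (e j) s) →
      η + η * (η - 1) * (c (e r) j * c.symm (e j) r) + (1 - η) * (c (e r) l * c.symm (e l) r) = 0 := fun η h0 h1 h2 => by
    obtain ⟨d, hd, -, e1⟩ := h.cj (inv_mem hc) b1 h0
    simp only [LinearEquiv.coe_inv, LinearEquiv.coe_inv, LinearEquiv.symm_symm, show c⁻¹ = c.symm from rfl] at e1
    obtain ⟨i, hi⟩ := h.par04 h7 hE h4 hd (o := k) (fun x hx => by simp [e1, hz, b3, hx]) r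
    obtain rfl : s = i := by_contra fun n => h2 (by
      have := hi s n
      simp [e1, hs] at this
      field_simp at this ⊢
      exact mul_left_cancel₀ (sub_ne_zero.2 h1) (by linear_combination this))
    have := hi r hs.symm
    simp [e1] at this
    field_simp at this
    linear_combination this
  generalize c (e r) l * c.symm (e l) s / (c (e r) j * c.symm (e j) s) = w at key
  obtain ⟨x, hx⟩ := h7 [0, 1, w] (by simp)
  obtain ⟨y, hy⟩ := h7 [0, 1, w, x] (by simp)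
  obtain ⟨z, hz⟩ := h7 [0, 1, w, x, y] (by simp)
  simp only [List.mem_cons, List.not_mem_nil, or_false, not_or] at hx hy hz
  have e1 := key x hx.1 hx.2.1 hx.2.2
  have e2 := key y hy.1 hy.2.1 hy.2.2.1
  have e3 := key z hz.1 hz.2.1 hz.2.2.1
  generalize c (e r) j * c.symm (e j) r = A at *
  generalize c (e r) l * c.symm (e l) r = B at *
  have f1 : 1 + (x + y - 1) * A - B = 0 := mul_left_cancel₀ (sub_ne_zero.2 hy.2.2.2) (by linear_combination e2 - e1)
  have f2 : 1 + (x + z - 1) * A - B = 0 := mul_left_cancel₀ (sub_ne_zero.2 hz.2.2.2.1) (by linear_combination e3 - e1)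
  have f3 : A = 0 := mul_left_cancel₀ (sub_ne_zero.2 hz.2.2.2.2) (by linear_combination f2 - f1)
  exact one_ne_zero (α := F) (by linear_combination e1 + (1 - x) * f1 - (x * (x - 1) + (1 - x) * (x + y - 1)) * f3)

end MX
end Mon

section Four
variable {F : Type*} [Field F] {X : Subgroup ((Fin 4 → F) ≃ₗ[F] (Fin 4 → F))} {c : (Fin 4 → F) ≃ₗ[F] (Fin 4 → F)}

local notation "e" i:max => (Pi.single i (1 : F) : Fin 4 → F)

theorem MX.diag (h : MX X) (t : Fin 4 → F) (ht : ∏ k, t k = 1) : ∃ d ∈ X, ∀ v, d v = t * v := by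
  have t0 : ∀ k, t k ≠ 0 := fun k => Finset.prod_ne_zero_iff.1 (ht ▸ one_ne_zero) k (Finset.mem_univ _)
  obtain ⟨a, ha, e1⟩ := h.d2 (show (0 : Fin 4) ≠ 3 by decide) (t0 0)
  obtain ⟨b, hb, e2⟩ := h.d2 (show (1 : Fin 4) ≠ 3 by decide) (t0 1)
  obtain ⟨d, hd, e3⟩ := h.d2 (show (2 : Fin 4) ≠ 3 by decide) (t0 2)
  refine ⟨a * b * d, mul_mem (mul_mem ha hb) hd, fun v => funext fun k => ?_⟩
  rw [Fin.prod_univ_four] at ht
  have := t0 0; have := t0 1; have := t0 2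
  fin_cases k <;> simp [e1, e2, e3]
  iterate 3 ring
  field_simp; linear_combination -v 3 * ht

theorem MX.zero4 (h : MX X) (h7 : ∀ l : List F, l.length ≤ 6 → ∃ x, x ∉ l) (hE : ¬ ET X) (hc : c ∈ X) {k l : Fin 4}
    (hz : c (e k) l = 0) : MonL c := by
  obtain ⟨a, a0, a1⟩ : ∃ a : F, a ≠ 0 ∧ (a ^ 3)⁻¹ - a ≠ 0 := by
    obtain ⟨i, hi⟩ : ∃ i : F, ∀ x : F, x ^ 2 + 1 = 0 → x = i ∨ x = -i := by
      by_cases hc : ∃ i : F, i ^ 2 + 1 = 0
      · exact hc.imp fun i hi x hx => sq_eq_sq_iff_eq_or_eq_neg.1 (by linear_combination hx - hi)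
      · exact ⟨0, fun x hx => absurd ⟨x, hx⟩ hc⟩
    obtain ⟨x, hx⟩ := h7 [0, 1, -1, i, -i] (by simp)
    simp only [List.mem_cons, List.not_mem_nil, or_false, not_or] at hx
    refine ⟨x, hx.1, fun e1 => ?_⟩
    have := hx.1
    have : (x - 1) * (x + 1) * (x ^ 2 + 1) = 0 := by field_simp at e1; linear_combination -e1
    simp only [mul_eq_zero, sub_eq_zero, add_eq_zero_iff_eq_neg (b := (1 : F)) (a := x)] at this
    have := hi x; tauto
  obtain ⟨t, ht, e1⟩ := h.diag (fun j => if j = l then (a ^ 3)⁻¹ else a) (by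
    fin_cases l <;> simp [Fin.prod_univ_four] <;> field_simp)
  have e2 : ∀ v, (c⁻¹ * t * c) v = a • v + (((a ^ 3)⁻¹ - a) * c v l) • c.symm (e l) := fun v => by
    change c.symm (t (c v)) = _
    rw [c.symm_apply_eq, e1]
    funext j; by_cases hj : j = l <;> simp [hj]; ring
  obtain ⟨r, hr⟩ := exists_e_ne (ψ := (LinearMap.proj l : Dual F (Fin 4 → F)) ∘ₗ c.toLinearMap) fun h0 => by
    simpa using LinearMap.congr_fun h0 (c.symm (e l))
  replace hr : c (e r) l ≠ 0 := hr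
  obtain ⟨i, hi⟩ := h.par04 h7 hE rfl (mul_mem (mul_mem (inv_mem hc) ht) hc) (o := k)
    (fun x hx => by simp only [e2]; simp [hz, hx]) r
  obtain ⟨x, x1, x2, -⟩ := MX.out h.four i r r
  obtain ⟨y, y1, y2, y3⟩ := MX.out h.four i r x
  have k : ∀ x, x ≠ i → x ≠ r → c⁻¹ (e l) x = 0 := fun x p q => by
    have := hi x p
    simp only [e2] at this
    simpa [q, a1, hr] using this
  exact h.par_inv4 h7 hE rfl hc (h.two4 h7 hE rfl (inv_mem hc) y3 (k y y1 y2) (k x x1 x2))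

theorem MX.mon_or4 [Fintype F] (h : MX X) (h7 : ∀ l : List F, l.length ≤ 6 → ∃ x, x ∉ l) :
    SLg F (Fin 4 → F) ≤ X ∨ ∀ c ∈ X, MonL c := by
  refine or_iff_not_imp_left.2 fun hS c hc => by_contra fun hM => ?_
  have hE := mt h.SLg_le hS
  have n1 : ∀ k l, c (e k) l ≠ 0 := fun k l hz => hM (h.zero4 h7 hE hc hz)
  have g0 : ∏ k, c (e k) 0 * c (e 0) k ≠ 0 := Finset.prod_ne_zero_iff.2 fun k _ => mul_ne_zero (n1 _ _) (n1 _ _)
  obtain ⟨y, h1, h2⟩ := sol4 h7 (γ := ∏ k, c (e k) 0 * c (e 0) k)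
  have : ∀ m, ∃ i : {i : Fin 4 // i ≠ 0}, ∃ μ : F, μ ≠ 0 ∧ ∀ k, y m k = μ * (c (e k) 0 * c.symm (e i.1) k) := fun m => by
    obtain ⟨s0, κ, k0, hκ⟩ := h1 m
    obtain ⟨t, ht, e1⟩ := h.diag (fun k => y m k / (κ * (c (e k) 0 * c (e 0) k))) (by
      rw [Finset.prod_div_distrib, Finset.prod_mul_distrib, hκ]; simp; field_simp)
    have z : (c * t * c) (e 0) 0 = 0 := by
      change c (t (c (e 0))) 0 = 0
      rw [← sum_e (t _), map_sum]
      simp only [e1, map_smul, Finset.sum_apply, Pi.smul_apply, Pi.mul_apply, smul_eq_mul]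
      rw [← mul_zero κ⁻¹, ← s0, Finset.mul_sum]
      exact Finset.sum_congr rfl fun k _ => by have := n1 k 0; have := n1 0 k; field_simp
    obtain ⟨i, hi⟩ := h.zero4 h7 hE (mul_mem (mul_mem hc ht) hc) z 0
    have i0 := col_ne _ hi
    refine ⟨⟨i, by rintro rfl; exact i0 z⟩, κ * (c * t * c) (e 0) i, mul_ne_zero k0 i0, fun k => ?_⟩
    have := congrFun (c.eq_symm_apply.2 (show c (t (c (e 0))) = (c * t * c) (e 0) i • e i from eq_smul_e hi)) k
    change y m k = κ * (c * t * c) (e 0) i * (c (e k) 0 * c.symm (e i) k)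
    generalize (c * t * c) (e 0) i = ν at this ⊢
    rw [map_smul, e1] at this
    simp only [Pi.mul_apply, Pi.smul_apply, smul_eq_mul] at this
    have := n1 k 0; have := n1 0 k
    field_simp at *
    linear_combination this
  choose i μ m0 hμ using this
  obtain ⟨m, m', n, e1⟩ := Fintype.exists_ne_map_eq_of_card_lt i (by simp)
  exact n (h2 m m' (μ m / μ m') g0 (funext fun k => by simp [hμ, e1]; field_simp [m0 m']))

end Four

section Imp
variable {F : Type*} [Field F] {V : Type*} [AddCommGroup V] [Module F V] {t k : ℕ} {D : Fin t → Submodule F V}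
  {X : Subgroup (V ≃ₗ[F] V)} {π : Fin t → End F V} [FiniteDimensional F V]

theorem IX.one4 [Fintype F] (h : IX 1 D π X) (h7 : t = 4) (h5 : 7 ≤ Fintype.card F) {g : V ≃ₗ[F] V} (hg : g ∈ X)
    (hg' : g ∉ dstab D) : SLg F V ≤ X := by
  classical
  subst h7
  choose b hb b0 using h.exists_ne
  choose c c1 c2 c3 using fun i => h.exists_in (hb i) (S := ⊥) (b0 i)
  have sp : ∀ i, ∀ x ∈ D i, x = c i x • b i := fun i x hx => by
    obtain ⟨a, ha⟩ := (finrank_eq_one_iff_of_nonzero' (⟨b i, hb i⟩ : D i) (by simpa using b0 i)).1 (h.rk i) ⟨x, hx⟩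
    obtain rfl : a • b i = x := congrArg Subtype.val ha
    simp [c2]
  have c4 : ∀ i j, c i (b j) = if j = i then 1 else 0 := fun i j => by
    split_ifs with a
    exacts [a ▸ c2 j, c1 i j a _ (hb j)]
  let E : (Fin 4 → F) ≃ₗ[F] V := LinearEquiv.ofLinearMap (Fintype.linearCombination F b) (LinearMap.pi c)
    (LinearMap.ext fun v => by
      simp only [LinearMap.comp_apply, Fintype.linearCombination_apply, LinearMap.pi_apply, LinearMap.id_apply]
      conv_rhs => rw [← h.sum v]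
      exact Finset.sum_congr rfl fun i _ => by rw [← h.apply (c1 i), ← sp i _ (h.mem i v)])
    (LinearMap.ext fun v => funext fun i => by simp [Fintype.linearCombination_apply, c4])
  have E1 : ∀ i, E (Pi.single i 1) = b i := fun i => by simp [E]
  have E2 : ∀ i, E.symm (b i) = Pi.single i 1 := fun i => E.symm_apply_eq.2 (E1 i).symm
  have E3 : ∀ v i, c i (E v) = v i := fun v i => congrFun (E.symm_apply_apply v) i
  have av : ∀ n, n < Fintype.card F → ∀ l : List F, l.length ≤ n → ∃ x, x ∉ l := fun n hn l hl =>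
    exists_out_list l (by omega)
  have M : MX (X.comap (autCongr E).toMonoidHom) := by
    refine ⟨fun {i j} hij θ h0 => ?_, fun {i j} hij => ?_, av 4 (by omega), .inr (av 6 h5), by simp⟩
    · obtain ⟨s, hs, e1⟩ := h.bh hij (hb i) (c1 i) (c2 i) (hb j) (c1 j) (c2 j) h0
      exact ⟨(autCongr E).symm s, by simpa using hs, fun v => by simp [e1, E2, E3]⟩
    · let f : D i ≃ₗ[F] D j := LinearEquiv.ofLinearMap ((c i ∘ₗ (D i).subtype).smulRight ⟨b j, hb j⟩)
        ((c j ∘ₗ (D j).subtype).smulRight ⟨b i, hb i⟩) (by ext x; simp [c2, ← sp j x x.2])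
        (by ext x; simp [c2, ← sp i x x.2])
      obtain ⟨s, hs, e1, e2, e3⟩ := h.sw0 hij f
      refine ⟨(autCongr E).symm s, by simpa using hs, fun v => ?_⟩
      have : ∀ l, E.symm (s (E (Pi.single l 1))) = Pi.single l 1 + (Pi.single l 1 : Fin 4 → F) i •
          ((Pi.single j 1 : Fin 4 → F) - Pi.single i 1) - (Pi.single l 1 : Fin 4 → F) j •
          ((Pi.single i 1 : Fin 4 → F) + Pi.single j 1) := fun l => by
        rw [E1]
        by_cases a1 : l = i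
        · rw [a1, e1 ⟨_, hb i⟩]; simp [f, c2, E2, hij.symm]
        by_cases a2 : l = j
        · rw [a2, e2 ⟨_, hb j⟩]; simp [f, c2, E2, hij]
        · simp [e3 l a1 a2 _ (hb l), E2, Ne.symm a1, Ne.symm a2]
      conv_lhs => rw [← sum_e v]; simp only [autCongr_symm_apply, map_sum, map_smul, this]
      simp only [smul_add, smul_sub, Finset.sum_add_distrib, Finset.sum_sub_distrib, sum_e, smul_smul,
        ← Finset.sum_smul]
      simp [Pi.single_apply]
  rcases M.mon_or4 (av 6 h5) with H | H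
  · exact fun s hs => by
      simpa using H (x := (autCongr E).symm s) (by
        rwa [SLg, MonoidHom.mem_ker, ← det_autCongr E, MulEquiv.apply_symm_apply])
  · refine absurd (h.mem_dstab fun i => ?_) hg'
    obtain ⟨j, hj⟩ := H ((autCongr E).symm g) (by simpa) i
    refine ⟨j, fun x hx => ?_⟩
    have := congrArg E (eq_smul_e hj)
    simp only [autCongr_symm_apply, LinearEquiv.apply_symm_apply, map_smul, E1] at this
    rw [sp i x hx, map_smul, this]
    exact (D j).smul_mem _ ((D j).smul_mem _ (hb j))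

theorem IX.winA2 (h : IX k D π X) (h2 : 2 ≤ k) {θ : F} (t0 : θ ≠ 0) (t1 : θ ≠ 1) (t2 : θ ≠ -1) {p : V} {ψ : Dual F V}
    (hp : ∀ j, p ∉ D j) (ψ0 : ψ ≠ 0) (e0 : ψ p = 0) (H : ∀ c : F, HasL X (rk1 p (c • ψ))) : ∀ p, p ∈ centres X := by
  have H' : HasL X (rk1 p ψ) := one_smul F ψ ▸ H 1
  obtain ⟨j, y, hy, y0⟩ := h.exists_ne' ψ0
  by_cases hc : ∃ w ∈ D j, w ∉ (F ∙ y) ⊔ F ∙ π j p
  · obtain ⟨w, hw, hw'⟩ := hc
    obtain ⟨χ, a1, a2, a3⟩ := h.exists_in hw hw'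
    have a4 := a3 y (by rw [h.self hy]; exact Submodule.mem_sup_left (Submodule.mem_span_singleton_self y))
    have a5 := a3 p (mem_sup_self _ _)
    exact h.winB h2 (p := ψ y • p) (by rw [(D j).smul_mem_iff y0]; exact hp j) a1 (by rintro rfl; simp at a2)
      (by simp [a5]) (by
        simpa only [rk1_mul] using H'.comm (h.bt hy a1 a4) (rk1_mul_zero e0) (rk1_mul_zero a4) (rk1_mul_zero a5))
  push Not at hc
  have ex : ∀ l, ∀ a ∈ D l, a ∉ F ∙ π l p → ∃ α, InB D l α ∧ α a = 1 ∧ α p = 0 := fun l a ha ha' =>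
    (h.exists_in ha ha').imp fun α hα => ⟨hα.1, hα.2.1, hα.2.2 p (Submodule.mem_span_singleton_self _)⟩
  obtain ⟨α, a1, a2, a3⟩ := ex j y hy fun hy' => by
    obtain ⟨w, hw, hw'⟩ := h.out h2 j (π j p)
    exact hw' (sup_le ((Submodule.span_singleton_le_iff_mem _ _).2 hy') le_rfl (hc w hw))
  have st : ∀ l, j ≠ l → ∃ β, InB D l β ∧ β p = 0 ∧ ∃ b ∈ D l, β b = 1 ∧ ∀ ψ : Dual F V, ψ p = 0 → HasL X (rk1 p ψ) →
      HasL X (rk1 p (((θ - 1) * ψ y) • α + ((θ⁻¹ - 1) * ψ b) • β)) := fun l hl => by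
    obtain ⟨b, hb, hb'⟩ := h.out h2 l (π l p)
    obtain ⟨β, b1, b2, b3⟩ := ex l b hb hb'
    obtain ⟨s, hs, e1⟩ := h.bh hl hy a1 a2 hb b1 b2 t0
    have : s.symm p = p := s.symm_apply_eq.2 (by simp [e1, a3, b3])
    exact ⟨β, b1, b3, b, hb, b2, fun ψ e0 H => ((H.conj (β := rk1 p (ψ ∘ₗ s.toLinearMap)) (inv_mem hs) fun v => by
      simp [this]).add (H.neg (rk1_mul_zero e0)) (LinearMap.ext fun v => by simp [e1, a3, b3, e0])).congr
        fun v => by simp [e1]; module⟩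
  classical
  obtain ⟨l, hl⟩ := exists_out_list [j] (by have := h.two_le; simp; omega)
  simp only [List.mem_cons, List.not_mem_nil, or_false] at hl
  obtain ⟨β, b1, b2, b, hb, b3, H1⟩ := st l (Ne.symm hl)
  have n : θ - θ⁻¹ ≠ 0 := fun e1 => by
    have : (θ - 1) * (θ + 1) = 0 := by field_simp at e1; linear_combination e1
    simp [sub_eq_zero, add_eq_zero_iff_eq_neg, t1, t2] at this
  refine h.winB h2 (hp j) (χ := ((θ - 1) * ((θ - θ⁻¹) * ψ y)) • α) (fun i hi x hx => by simp [a1 i hi x hx])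
    (fun e1 => by simpa [a2, y0, sub_eq_zero.not.2 t1, n] using LinearMap.congr_fun e1 y) (by simp [a3])
    (((H1 _ (by simp [a3, b2]) (H1 ψ e0 H')).add (H1 _ (by simp [e0]) (H (1 - θ⁻¹)))
      (rk1_mul_zero (by simp [a3, b2]))).congr fun v => ?_)
  simp [a2, b3, b1 j (Ne.symm hl) y hy, a1 l hl b hb]
  module

theorem isMax_dstab [Fintype F] {ι : Type} [Fintype ι] [DecidableEq ι] {D : Fin t → Submodule F (ι → F)}
    (h : Dec k D) (H : ∀ π X, IX k D π X → ∀ g ∈ X, g ∉ dstab D → SLg F (ι → F) ≤ X) :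
    Geo.IsMaximalIn (SLg F (ι → F)) (dstab D ⊓ SLg F (ι → F)) := by
  classical
  obtain ⟨π, P⟩ := h.exists_prj
  have := h.two_le
  refine max_crit inf_le_right ?_ fun X a1 a2 g hg hg' => ?_
  · let i : Fin t := ⟨0, by omega⟩
    let j : Fin t := ⟨1, by omega⟩
    have ij : i ≠ j := by simp [i, j]
    obtain ⟨w, hw, w0⟩ := h.exists_ne i
    obtain ⟨y, hy, y0⟩ := h.exists_ne j
    obtain ⟨χ, b1, b2, -⟩ := P.exists_in hw (S := ⊥) w0
    refine ⟨_, tv_mem_SLg (b1 j ij.symm y hy), fun H => ?_⟩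
    obtain ⟨l, hl⟩ := exists_of_dstab H.1 i
    have := hl w hw
    rw [LinearEquiv.transvection.apply, b2, one_smul] at this
    by_cases b3 : l = i
    · exact y0 (h.eq_zero ij ((add_mem_cancel_left hw).1 (b3 ▸ this)) hy)
    · exact w0 (by simpa [P.self hw, P.ne hy ij] using P.ne this (Ne.symm b3))
  exact H π X ⟨P, a1⟩ g hg fun e => hg' ⟨e, a2 hg⟩

end Imp

open Geo
variable {F : Type*} [Field F] [Fintype F] {n : ℕ}

theorem slDec41 (h : 7 ≤ Fintype.card F) (D : Fin 4 → Submodule F (Fin n → F)) (hD : IsMDecomposition 1 D) :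
    IsMaximalIn (specialLinear (Fin n) F) (decompositionStabilizer D ⊓ specialLinear (Fin n) F) :=
  isMaximalIn_inf (glEquiv _ F) (isMax_dstab (dec_of hD) fun _ _ H _ => H.one4 rfl h) (fun _ => mem_specialLinear)
    fun _ => mem_decompositionStabilizer

theorem slDec42 {t : ℕ} (h : 4 ≤ Fintype.card F) (D : Fin t → Submodule F (Fin n → F)) (hD : IsMDecomposition 2 D) :
    IsMaximalIn (specialLinear (Fin n) F) (decompositionStabilizer D ⊓ specialLinear (Fin n) F) := by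
  refine isMaximalIn_inf (glEquiv _ F) (isMax_dstab (dec_of hD) fun π X H g hg hg' => ?_) (fun _ => mem_specialLinear)
    fun _ => mem_decompositionStabilizer
  classical
  obtain ⟨i, y, hy, hy'⟩ := H.exists_out hg'
  obtain ⟨w, hw, hw'⟩ := H.out le_rfl i y
  obtain ⟨χ, b1, b2, b3⟩ := H.exists_in hw hw'
  have b4 := b3 y (by rw [H.self hy]; exact Submodule.mem_span_singleton_self y)
  obtain ⟨θ, hθ⟩ := exists_out_list [(0 : F), 1, -1] (by simp; omega)
  simp only [List.mem_cons, List.not_mem_nil, or_false, not_or] at hθ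
  refine SLg_le (H.winA2 le_rfl hθ.1 hθ.2.1 hθ.2.2 hy' (ψ := χ ∘ₗ g.symm.toLinearMap) (fun e => ?_) (by simpa)
    fun c => (H.bt hy (χ := c • χ) (fun i hi x hx => by simp [b1 i hi x hx]) (by simp [b4])).conj_rk1 hg)
  simpa [b2] using LinearMap.congr_fun e (g w)

end Cfsg.Agent.Root.Mx
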