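import Cfsg.Agent.Low.SL6
import Cfsg.Agent.Root.Ext3
import Cfsg.Agent.Root.Ten4

/-! Similarity groups of forms are maximal in `SL_4(q)`: `slSp4`, `slU4`, `slQuad4`. -/

set_option autoImplicit false

namespace Cfsg.Agent.Root.Mx

open Cfsg.Agent.Geom Cfsg.Agent.AutCl Module

section Sim
variable {F : Type*} [Field F] {σ : F →+* F} {V : Type*} [AddCommGroup V] [Module F V] {Φ : Formed σ V}
  [Finite F] [FiniteDimensional F V] {X : Subgroup (V ≃ₗ[F] V)}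

/-- The transvections with centre `x` in `X`. -/
def tvG (Φ : Formed σ V) (X : Subgroup (V ≃ₗ[F] V)) (x : V) : AddSubgroup V where
  carrier := {w | Φ.B w x = 0 ∧ HasL X (rk1 x (Φ.B w))}
  zero_mem' := ⟨by simp, HasL.zero.congr (by simp)⟩
  add_mem' := fun ha hb => ⟨by simp [ha.1, hb.1],
    (ha.2.add hb.2 (rk1_mul_zero ha.1)).congr fun v => by simp [add_smul]⟩
  neg_mem' := fun ha => ⟨by simp [ha.1], (ha.2.neg (rk1_mul_zero ha.1)).congr fun v => by simp⟩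

omit [Finite F] [FiniteDimensional F V] in
theorem tvG_map {x a : V} (ha : a ∈ tvG Φ X x) {s : V ≃ₗ[F] V} (hs : s ∈ X) (hs' : s ∈ Φ.isom) {c : F} (c0 : c ≠ 0)
    (e : s x = c • x) : σ c • s a ∈ tvG Φ X x :=
  ⟨by have := hs'.1 a x; rw [e, ha.1] at this; simpa [Φ.σσ] using this, ha.2.conj hs fun v => by
    simp [hs'.1, e, Φ.σσ, smul_smul, mul_comm]⟩

omit [Finite F] [FiniteDimensional F V] in
theorem tvG_fix {x a : V} (ha : a ∈ tvG Φ X x) {s : V ≃ₗ[F] V} (hs : s ∈ X) (hs' : s ∈ Φ.isom) (e : s x = x) :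
    s a ∈ tvG Φ X x := by simpa using tvG_map ha hs hs' one_ne_zero (by simpa)

theorem all_centres (hn : Φ.Nondeg) (h3 : 3 ≤ finrank F V) (hX : EG Φ ≤ X) {x : V} (hx0 : x ≠ 0)
    (h : ∀ a, Φ.B a x = 0 → a ∈ tvG Φ X x) (p : V) : p ∈ centres X :=
  le_of_inv hn (nondeg_top hn) (by simpa) (centres X).toAddSubgroup
    (fun _ _ _ _ _ _ hg _ ha => map_mem_centres ha (hX (IsE_mem_EG hg))) (a := x) (fun φ hφ => by
      obtain ⟨a, rfl⟩ := hn.exists_eq_B φ
      exact (h a hφ).2)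
    (let ⟨y, hy⟩ := hn.exists_ne hx0; ⟨y, trivial, fun e => hy (Φ.B_eq_zero_symm e)⟩) p trivial

omit [FiniteDimensional F V] in
theorem smul_of_sq (A : AddSubgroup V) {e : V} {k : F} (k0 : k ≠ 0) (h : ∀ c : F, c ≠ 0 → (c * c * k) • e ∈ A) (c : F) :
    c • e ∈ A := by
  have h' : ∀ c : F, (c * c * k) • e ∈ A := fun c => by
    by_cases c0 : c = 0
    exacts [by simp [c0], h c c0]
  obtain ⟨x, y, e1⟩ := sum_sq (c / k)
  convert add_mem (h' x) (h' y) using 1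
  rw [← add_smul, ← add_mul, ← e1, div_mul_cancel₀ _ k0]

/-- Symplectic or unitary spaces of dimension four. -/
structure T4 (Φ : Formed σ V) : Prop where
  nd : Φ.Nondeg
  four : finrank F V = 4
  τ : Φ.τ = 0
  t : ∃ t ≠ 0, Φ.ε * t + σ t = 0
  two : ∀ U R : Submodule F V, finrank F R + 2 ≤ finrank F U → ∃ x ∈ U, x ∉ R ∧ Φ.Sing x

theorem T4.ctv (h : T4 Φ) (hX : Φ.isom ⊓ SLg F V ≤ X) {x w : V} (hx0 : x ≠ 0) (hx : Φ.Sing x) (hxw : Φ.B x w = 0)
    (hw : w ∉ F ∙ x) (H : HasL X (rk1 x (Φ.B w))) : ∀ p, p ∈ centres X := by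
  have hn := h.nd
  have hE : EG Φ ≤ X := (le_inf EG_le_isom EG_le_SLg).trans hX
  obtain ⟨r, hr⟩ := hn.exists_isPair hx0 hx
  have hd := hr.finrank_pairPerp hn
  have hW := hr.nondeg_pairPerp hn
  have := h.four
  obtain ⟨t, t0, ht⟩ := h.t
  have st : ∀ e ∈ Φ.pairPerp x r, ∀ f ∈ Φ.pairPerp x r, Φ.IsPair e f → ∀ a ∈ tvG Φ X x, Φ.B e a ≠ 0 →
      ∀ c : F, c • e ∈ tvG Φ X x := fun e he f hf hef a ha n => by
    obtain ⟨g, hg⟩ := exists_isE hn hef.se (a := 0) (d := t) (by simp) (by simp [h.τ]) (by simpa)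
    have ex := Φ.B_eq_zero_symm (Φ.mem_pairPerp.1 he).1
    have := sub_mem ha (tvG_fix ha (hE (IsE_mem_EG hg)) hg.mem_isom (by simp [hg.app, ex]))
    rw [hg.app] at this
    simp only [map_zero, LinearMap.zero_apply, zero_sub, smul_zero, sub_zero, sub_add_cancel_left, neg_smul, neg_neg] at this
    refine smul_of_sq _ (mul_ne_zero t0 n) fun c c0 => ?_
    have m := tvG_map this (s := (hr.torus (.mk0 (σ c) (by simpa))).1 * (hef.torus (.mk0 c c0)).1) (hX ⟨mul_mem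
      (Subtype.prop _) (Subtype.prop _), mem_SLg.2 (by
        rw [LinearEquiv.coe_toLinearMap_mul, map_mul, hr.det_torus, hef.det_torus]
        have : σ c ≠ 0 := by simpa
        simp [Φ.σσ]; field_simp)⟩)
      (mul_mem (Subtype.prop _) (Subtype.prop _)) (c := σ c) (by simpa) (by
        rw [LinearEquiv.mul_apply, hef.torus_perp _ (Φ.mem_pairPerp.2 ⟨ex,
          Φ.B_eq_zero_symm (Φ.mem_pairPerp.1 hf).1⟩), hr.torus_left]; rfl)
    rw [LinearEquiv.mul_apply, map_smul, hef.torus_left, map_smul, map_smul, hr.torus_perp _ he] at m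
    simpa [Φ.σσ, smul_smul, mul_assoc, mul_comm, mul_left_comm] using m
  obtain ⟨e, he, e0, se⟩ := h.two (Φ.pairPerp x r) ⊥ (by simp; omega)
  obtain ⟨f, hf, hef⟩ := exists_pair_mem hn hW he (by simpa using e0) se
  have dec : ∀ a, Φ.B x a = 0 → ∃ α β γ : F, a = α • x + β • e + γ • f := fun a ha => by
    obtain ⟨α, β, u, hu, rfl⟩ := hr.exists_decomp a
    obtain ⟨γ, δ, u', hu', rfl⟩ := hef.exists_decomp u
    have b0 : β = 0 := by simpa [hx.2, hr.ef, (Φ.mem_pairPerp.1 hu).1] using ha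
    have : u' ∈ Φ.pairPerp x r ⊓ Φ.pairPerp e f := ⟨by
      simpa using sub_mem hu (add_mem (Submodule.smul_mem _ γ he) (Submodule.smul_mem _ δ hf)), hu'⟩
    rw [Submodule.finrank_eq_zero.1 (show finrank F ↥(Φ.pairPerp x r ⊓ Φ.pairPerp e f) = 0 by
      have := finrank_inf_perp hn hW (U := (F ∙ e) ⊔ F ∙ f) (by simp [he, hf])
      rw [hef.finrank_span] at this; exact (by omega : finrank F ↥(Φ.pairPerp x r ⊓ Φ.perp ((F ∙ e) ⊔ F ∙ f)) = 0)), Submodule.mem_bot] at this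
    exact ⟨α, γ, δ, by simp [b0, this, add_assoc]⟩
  have w0 : w ∈ tvG Φ X x := ⟨Φ.B_eq_zero_symm hxw, H⟩
  have he' := Submodule.smul_mem _ Φ.ε he
  obtain ⟨a1, a2⟩ : (∀ c : F, c • e ∈ tvG Φ X x) ∧ ∀ c : F, c • f ∈ tvG Φ X x := by
    by_cases n : Φ.B e w = 0
    · have := st f hf _ he' (IsPair.symm' hef) w w0 fun n' => by
        obtain ⟨α, β, γ, rfl⟩ := dec w hxw
        simp [Φ.B_eq_zero_symm (Φ.mem_pairPerp.1 he).1, Φ.B_eq_zero_symm (Φ.mem_pairPerp.1 hf).1, hef.se.2, hef.sf.2,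
          hef.ef, hef.fe, Φ.ε_ne_zero] at n n'
        simp [n, n', Submodule.smul_mem] at hw
      exact ⟨st e he f hf hef _ (this 1) (by simp [hef.ef]), this⟩
    · have := st e he f hf hef w w0 n
      exact ⟨this, st f hf _ he' (IsPair.symm' hef) _ (this 1) (by simp [hef.fe, Φ.ε_ne_zero])⟩
  refine all_centres hn (by omega) hE hx0 fun a ha => ?_
  obtain ⟨α, β, γ, rfl⟩ := dec a (Φ.B_eq_zero_symm ha)
  refine add_mem (add_mem ?_ (a1 β)) (a2 γ)
  obtain ⟨d, g, hg⟩ := exists_isE' hn hx (Φ.mem_pairPerp.1 he).1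
  have := sub_mem (tvG_fix (a2 α) (hE (IsE_mem_EG hg)) hg.mem_isom hg.apply_p) (a2 α)
  rwa [hg.apply_perp (by simp [(Φ.mem_pairPerp.1 hf).1]), Φ.B_smul_right, hef.ef, mul_one, add_sub_cancel_left] at this

theorem T4.sim (h : T4 Φ) (hX' : Φ.isom ⊓ SLg F V ≤ X) {g : V ≃ₗ[F] V} (hg : g ∈ X) :
    (∀ p, p ∈ centres X) ∨ ∃ c, ∀ u v, Φ.B (g u) (g v) = c * Φ.B u v := by
  have hn := h.nd
  have := h.four
  have hX : EG Φ ≤ X := (le_inf EG_le_isom EG_le_SLg).trans hX'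
  have hQ : ∀ x, Φ.B x x = 0 → Φ.Q x = 0 := fun x _ => by obtain ⟨d, e, -⟩ := Φ.trace x; rw [← e, h.τ, zero_mul]
  obtain ⟨x, hx0, hx, hx'⟩ : ∃ x, x ≠ 0 ∧ Φ.Sing x ∧ Φ.Sing (g x) := by
    obtain ⟨a, -, a0, ha⟩ := h.two ⊤ ⊥ (by simp; omega)
    obtain ⟨b, h3, hb0, hb⟩ := h.two (⊤ ⊓ pf Φ ![a]) (F ∙ a) (by
      have := finrank_span_one (F := F) a; have := finrank_pf (Φ := Φ) ![a] ⊤; rw [finrank_top] at *; omega)
    have h4 : Φ.B a b = 0 := mem_pf.1 h3.2 0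
    obtain ⟨y, hy, hy0, hy'⟩ := h.two (((F ∙ a) ⊔ F ∙ b).map (g : _ →ₗ[F] _)) ⊥ (by
      have := Submodule.finrank_lt_finrank_of_lt (SetLike.lt_iff_le_and_exists.2
        ⟨le_sup_left, b, mem_sup_self (F ∙ a) b, hb0⟩)
      rw [finrank_span_singleton (by simpa using a0)] at this
      rw [finrank_bot, LinearEquiv.finrank_map_eq]; omega)
    obtain ⟨x, hx, rfl⟩ := hy
    obtain ⟨_, h5, _, h6, rfl⟩ := Submodule.mem_sup.1 hx
    obtain ⟨s, rfl⟩ := Submodule.mem_span_singleton.1 h5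
    obtain ⟨t, rfl⟩ := Submodule.mem_span_singleton.1 h6
    exact ⟨_, fun e => hy0 (by simp [e]), sing_add_of_perp (ha.smul s) (hb.smul t) (by simp [h4]), hy'⟩
  refine or_iff_not_imp_left.2 fun hc => ?_
  choose f hf using fun u => hn.exists_eq_B (Φ.B (g u) ∘ₗ (g : V →ₗ[F] V))
  have hf : ∀ u t, Φ.B (f u) t = Φ.B (g u) (g t) := fun u t => by simp [hf]
  have cj : ∀ x b, Φ.Sing (g x) → Φ.B (f x) b = 0 → ∃ d, ∃ t ∈ X, ∀ v,
      t v = v + (Φ.B (f b) v - d * Φ.B (f x) v) • x - (Φ.ε * Φ.B (f x) v) • b := fun x b hx hb => by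
    obtain ⟨d, s, hs⟩ := exists_isE' hn hx (a := g b) (by rwa [← hf])
    exact ⟨d, g⁻¹ * s * g, mul_mem (mul_mem (inv_mem hg) (hX (IsE_mem_EG hs))) hg, fun v => by
      simp [hs.app, hf]⟩
  have s1 : ∀ x, x ≠ 0 → Φ.Sing x → Φ.Sing (g x) → f x ∈ F ∙ x := fun x hx0 hx hx' => by
    by_contra hy
    obtain ⟨t, t0, ht⟩ := h.t
    obtain ⟨s, hs⟩ := exists_isE hn hx' (a := 0) (d := t) (by simp) (by simp [h.τ]) (by simpa)
    refine hc (h.ctv hX' hx0 hx (w := -σ t • f x) (by simp [Φ.B_eq_zero_symm (show Φ.B (f x) x = 0 by rw [hf, hx'.2])])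
      (by rwa [Submodule.smul_mem_iff _ (by simpa)]) (.of_apply (g := g⁻¹ * s * g)
        (mul_mem (mul_mem (inv_mem hg) (hX (IsE_mem_EG hs))) hg) fun v => by simp [hs.app, hf, Φ.σσ]))
  have s2 : ∀ x, x ≠ 0 → Φ.Sing x → Φ.Sing (g x) → ∀ b, Φ.Sing b → Φ.B x b = 0 → Φ.Sing (g b) :=
    fun x hx0 hx hx' b hb e => by
      obtain ⟨l, hl⟩ := Submodule.mem_span_singleton.1 (s1 x hx0 hx hx')
      obtain ⟨d', t, ht, e1⟩ := cj x b hx' (by simp [← hl, e])
      obtain ⟨d, s, hs⟩ := exists_isE' hn hx (a := σ l • b) (by simp [e])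
      have sX := hX (IsE_mem_EG hs)
      have bx : Φ.B (f b) x = 0 := by rw [hf]; exact Φ.B_eq_zero_symm (by rw [← hf, ← hl]; simp [e])
      have hm : f b - σ l • b + σ (d - d' * σ l + Φ.ε * σ l * Φ.B (f b) b) • x ∈ F ∙ x := by
        by_contra hm
        refine hc (h.ctv hX' hx0 hx (by simp [hx.2, Φ.B_eq_zero_symm bx, e]) hm
          (.of_apply (g := t * s⁻¹) (mul_mem ht (inv_mem sX)) fun v => ?_))
        obtain ⟨v, rfl⟩ := s.surjective v
        simp only [LinearEquiv.mul_apply, LinearEquiv.coe_inv, LinearEquiv.symm_apply_apply]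
        simp only [LinearMap.smulRight_apply, Φ.B_sub_left, Φ.B_add_left, Φ.B_smul_left, Φ.σσ]
        simp only [e1, hs.app, ← hl, map_add, map_sub, map_smul, smul_eq_mul, hx.2, hb.2, e, bx,
          Φ.B_eq_zero_symm e, Φ.B_smul_left, Φ.σσ]
        module
      obtain ⟨m, hm⟩ := Submodule.mem_span_singleton.1 hm
      have := congrArg (Φ.B · b) hm
      simp only [Φ.B_sub_left, Φ.B_add_left, Φ.B_smul_left, e, hb.2, mul_zero, sub_zero, add_zero, hf] at this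
      exact ⟨hQ _ this.symm, this.symm⟩
  obtain ⟨a, -, b, -, hab⟩ := exists_pair hn (nondeg_top hn) (by simp; omega)
  obtain ⟨ν, hν⟩ := Rich.scalar (fun _ _ _ => .inl (h.t.imp fun t ht => ⟨ht.1, by simp [h.τ], ht.2⟩)) hab (AddMonoidHom.mk' f fun x y =>
    hn.ext fun t => by simp [hf]) fun u hu => by
      rcases eq_or_ne u 0 with rfl | hu0
      · exact ⟨0, fun c => hn.ext fun t => by simp [hf]⟩
      obtain ⟨z, h1, hz0, hz⟩ := h.two (⊤ ⊓ pf Φ ![x, u]) ⊥ (by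
        have := finrank_pf (Φ := Φ) ![x, u] ⊤; rw [finrank_top] at *; rw [finrank_bot]; omega)
      replace h1 := mem_pf.1 h1.2
      obtain ⟨l, hl⟩ := Submodule.mem_span_singleton.1 (s1 u hu0 hu (s2 z (by simpa using hz0) hz
        (s2 x hx0 hx hx' z hz (h1 0)) u hu (Φ.B_eq_zero_symm (h1 1))))
      refine ⟨l, fun c => hn.ext fun t => ?_⟩
      simp only [AddMonoidHom.mk'_apply, hf, map_smul, Φ.B_smul_left]
      rw [← hf, ← hl, Φ.B_smul_left]; ring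
  exact ⟨σ ν, fun u v => by rw [← hf, ← Φ.B_smul_left, ← hν]; rfl⟩

theorem isMax_simB {ι : Type} [Fintype ι] [DecidableEq ι] {Φ : Formed σ (ι → F)} (hn : Φ.Nondeg)
    (h5 : 3 ≤ Fintype.card ι) (H : ∀ X, simB Φ ⊓ SLg F _ ≤ X → X ≤ SLg F _ → ∀ g ∈ X,
      (∀ p, p ∈ centres X) ∨ ∃ c, ∀ u v, Φ.B (g u) (g v) = c * Φ.B u v) :
    Geo.IsMaximalIn (SLg F (ι → F)) (simB Φ ⊓ SLg F (ι → F)) := by
  obtain ⟨a, -, b, -, hab⟩ := exists_pair hn (nondeg_top hn) (by simp; omega)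
  refine max_crit inf_le_right ?_ fun X h1 h2 g hg hg' => ?_
  · obtain ⟨x, ⟨-, hx⟩, hx0⟩ := exists_notMem_of_lt (U := ⊤ ⊓ pf Φ ![a, b]) (R := ⊥) (by
      have := finrank_pf (Φ := Φ) ![a, b] ⊤
      simp only [finrank_top, finrank_bot, Module.finrank_pi] at this ⊢; omega)
    have hax : Φ.B a x = 0 := mem_pf.1 hx 0
    have hbx : Φ.B b x = 0 := mem_pf.1 hx 1
    obtain ⟨y, -, h3, h4⟩ := sep hn (nondeg_top hn) (S := Submodule.span F {a, b}) le_top trivial (p := x)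
      fun h => by
        obtain ⟨s, t, rfl⟩ := Submodule.mem_span_pair.1 h
        simp [hab.se.2, hab.sf.2, hab.ef, hab.fe, Φ.ε_ne_zero] at hax hbx
        simp [hax, hbx] at hx0
    rw [Φ.mem_perp_span] at h3
    have hay := h3 a (by simp)
    have hby := h3 b (by simp)
    refine ⟨_, tv_mem_SLg hax, fun ⟨⟨c, hc⟩, _⟩ => ?_⟩
    have := hc b y
    simp [LinearMap.transvection.apply, hab.ef, hay, hby, h4] at this
  · refine (H X h1 h2 g hg).elim SLg_le fun ⟨c, hc⟩ => ?_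
    refine absurd ⟨⟨Units.mk0 c fun h0 => ?_, hc⟩, h2 hg⟩ hg'
    exact hab.left_ne_zero (by
      simpa using hn (g a) fun y => by simpa [h0] using hc a (g.symm y))

omit [Finite F] [FiniteDimensional F V] in
theorem isom_le (h : simB Φ ⊓ SLg F V ≤ X) : Φ.isom ⊓ SLg F V ≤ X :=
  fun _ hk => h ⟨⟨1, fun u v => by simp [hk.1.1]⟩, hk.2⟩

end Sim

section Quad
variable {F : Type*} [Field F] {V : Type*} [AddCommGroup V] [Module F V] [Finite F] [FiniteDimensional F V]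
  {Φ : Formed (RingHom.id F) V} {X : Subgroup (V ≃ₗ[F] V)}

/-- An overgroup of the similarities of determinant one of a quadratic form in dimension four. -/
structure O4 (Φ : Formed (RingHom.id F) V) (X : Subgroup (V ≃ₗ[F] V)) : Prop where
  nd : Φ.Nondeg
  ε : Φ.ε = 1
  τ : Φ.τ = 1
  four : finrank F V = 4
  h2 : (2 : F) ≠ 0
  le : simB Φ ⊓ SLg F V ≤ X
  sl : X ≤ SLg F V
  nc : ¬ ∀ p, p ∈ centres X

namespace O4
variable (h : O4 Φ X)
include h

theorem hE : EG Φ ≤ X := (le_inf EG_le_isom EG_le_SLg).trans (isom_le h.le)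

omit [Finite F] [FiniteDimensional F V] in
theorem sy (x y : V) : Φ.B y x = Φ.B x y := by simpa [h.ε] using Φ.symm x y

omit [Finite F] [FiniteDimensional F V] in
theorem bb (x : V) : Φ.B x x = 2 * Φ.Q x := by
  obtain ⟨d, a, b⟩ := Φ.trace x
  simp only [h.ε, h.τ, one_mul, RingHom.id_apply] at a b
  rw [← a, ← b, two_mul]

omit [Finite F] [FiniteDimensional F V] in
theorem sg {x : V} (e : Φ.B x x = 0) : Φ.Sing x := ⟨by simpa [h.bb, h.h2] using e, e⟩

omit [Finite F] in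
theorem ns {W : Submodule F V} (hW : (Φ.restrict W).Nondeg) (n : 0 < finrank F W) : ∃ a ∈ W, Φ.Q a ≠ 0 := by
  by_contra! hc
  obtain ⟨x, hx, x0⟩ := exists_notMem_of_lt (U := W) (R := ⊥) (by simpa)
  exact x0 (Φ.restrict_nondeg_iff'.1 hW x hx fun y hy => by
    simpa [hc _ (add_mem hx hy), hc x hx, hc y hy, h.τ] using (Φ.Q_add x y).symm)

omit [Finite F] in
theorem ei {p a : V} (hp : Φ.Sing p) (ha : Φ.B p a = 0) : ∃ g, IsE Φ p a (Φ.Q a) g :=
  exists_isE h.nd hp ha (by simp [h.τ]) (by simp [h.ε, h.bb, two_mul])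

omit [Finite F] in
theorem opp {p z : V} (hz : Φ.IsPair p z) : ∃ g ∈ EG Φ, Φ.B p (g p) ≠ 0 ∧ Φ.B z (g p) ≠ 0 := by
  obtain ⟨a, ha, qa⟩ := h.ns (hz.nondeg_pairPerp h.nd) (by have := hz.finrank_pairPerp h.nd; have := h.four; omega)
  obtain ⟨a1, a2⟩ := Φ.mem_pairPerp.1 ha
  obtain ⟨g, hg⟩ := h.ei hz.sf a2
  exact ⟨g, IsE_mem_EG hg, by simp [hg.app, hz.se.2, a1, h.sy p a, hz.ef, h.sy p z, qa],
    by simp [hg.B_p, h.sy p z, hz.ef]⟩

theorem tv {p : V} (p0 : p ≠ 0) (hp : Φ.Sing p) {φ : Dual F V} (e0 : φ p = 0) (H : HasL X (rk1 p φ)) : φ = 0 := by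
  obtain ⟨y, rfl⟩ := h.nd.exists_eq_B φ
  refine by_contra fun n => h.nc ?_
  have y0 : y ∈ tvG Φ X p := ⟨e0, H⟩
  obtain ⟨z, hz⟩ := h.nd.exists_isPair p0 hp
  obtain ⟨s, s0, hs⟩ : ∃ s : F, s ≠ 0 ∧ s • p ∈ tvG Φ X p := by
    by_cases m : y ∈ F ∙ p
    · obtain ⟨s, rfl⟩ := Submodule.mem_span_singleton.1 m
      exact ⟨s, by rintro rfl; simp at n, y0⟩
    obtain ⟨a, -, a1, a2⟩ := sep h.nd (nondeg_top h.nd) le_top trivial m
    obtain ⟨d, g, hg⟩ := exists_isE' h.nd hp (a1 p (Submodule.mem_span_singleton_self p))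
    have := sub_mem (tvG_fix y0 (h.hE (IsE_mem_EG hg)) hg.mem_isom hg.apply_p) y0
    rw [hg.apply_perp (Φ.B_eq_zero_symm e0), add_sub_cancel_left] at this
    exact ⟨_, fun e => by simp [Φ.B_eq_zero_symm e] at a2, this⟩
  have T := smul_of_sq (tvG Φ X p) s0 fun c c0 => by
    have m := tvG_map hs (s := (hz.torus (.mk0 c c0)).1) (isom_le h.le ⟨Subtype.prop _, mem_SLg.2 (by
      rw [hz.det_torus]; simp [c0])⟩) (Subtype.prop _) c0 (hz.torus_left _)
    rw [map_smul, hz.torus_left] at m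
    simpa [smul_smul, mul_assoc, mul_comm, mul_left_comm] using m
  obtain ⟨r, hr, T'⟩ : ∃ r, Φ.IsPair p r ∧ HasL X (rk1 r (Φ.B r)) := by
    obtain ⟨g, hg, e, -⟩ := h.opp hz
    exact ⟨_, isPair_smul hp (hp.map (EG_le_isom hg)) e, (T ((Φ.B p (g p))⁻¹ * (Φ.B p (g p))⁻¹)).2.conj (h.hE hg)
      fun v => by simp [(EG_le_isom hg).1, smul_smul, mul_comm, mul_left_comm]⟩
  obtain ⟨t, ht, e1⟩ := (T 1).2.exists_apply
  have b1 := hr.ef
  have b2 : Φ.B r p = 1 := by rw [h.sy, b1]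
  have x1 : r - p ∈ tvG Φ X (r + p) := ⟨by simp [hp.2, hr.sf.2, b1, b2], T'.conj ht fun v => by
    simp [e1, b1, b2, hp.2]⟩
  have x2 : Φ.B (r + p) (r + p) ≠ 0 := by simp [hp.2, hr.sf.2, b1, b2, one_add_one_eq_two, h.h2]
  have hW := h.nd.restrict_perp (Φ.nondeg_span_singleton x2)
  have x0 : r + p ≠ 0 := fun e => by simp [e] at x2
  have := h.four
  refine all_centres h.nd (by omega) h.hE x0 fun a ha => le_of_inv h.nd hW (by
    have := h.nd.finrank_add_finrank_perp (F ∙ (r + p)); rw [finrank_span_singleton x0] at this; omega) _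
    (fun u hu w hw d g hg a ha => tvG_fix ha (h.hE (IsE_mem_EG hg)) hg.mem_isom
      (IsE.fix hg hu hw _ (Submodule.mem_span_singleton_self _))) x1
    ⟨r - p, Φ.mem_perp_span_singleton.2 (Φ.B_eq_zero_symm x1.1), ?_⟩ a
    (Φ.mem_perp_span_singleton.2 (Φ.B_eq_zero_symm ha))
  simp [hp.2, hr.sf.2, b1, b2, ← neg_add', one_add_one_eq_two, h.h2]

theorem fixp {p : V} (p0 : p ≠ 0) (hp : Φ.Sing p) {g : V ≃ₗ[F] V} (hg : g ∈ X) {μ : F} (e : g p = μ • p) :
    ∃ ν, ∀ v, Φ.B p v = ν * Φ.B p (g v) := by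
  have μ0 : μ ≠ 0 := by rintro rfl; simp [p0] at e
  choose f hf using fun u => h.nd.exists_eq_B (Φ.B u ∘ₗ (g.symm : V →ₗ[F] V))
  have hf : ∀ u t, Φ.B (f u) (g t) = Φ.B u t := fun u t => by simp [hf]
  have fp : ∀ u, Φ.B p u = 0 → Φ.B (f u) p = 0 := fun u hu => by
    simpa [e, μ0, h.sy p u, hu] using hf u p
  by_cases m : f p ∈ F ∙ p
  · obtain ⟨ν, hν⟩ := Submodule.mem_span_singleton.1 m
    exact ⟨ν, fun v => by rw [← hf, ← hν]; simp⟩
  exfalso
  have zp := fp p hp.2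
  have pz := Φ.B_eq_zero_symm zp
  have cj : ∀ a, Φ.B p a = 0 → ∃ t ∈ X, ∀ v,
      t v = v + (μ * (Φ.B (f a) v - Φ.Q a * Φ.B (f p) v)) • p - Φ.B (f p) v • g a := fun a ha => by
    obtain ⟨s, hs⟩ := h.ei hp ha
    refine ⟨g * s * g⁻¹, mul_mem (mul_mem hg (h.hE (IsE_mem_EG hs))) (inv_mem hg), fun v => ?_⟩
    obtain ⟨v, rfl⟩ := g.surjective v
    simp [hs.app, hf, e, h.ε, smul_smul, mul_comm]
  have cm : ∀ a, Φ.B p a = 0 → Φ.B p (g a) = 0 → Φ.Q a = 0 ∧ Φ.Q (g a) = 0 := fun a a1 a2 => by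
    obtain ⟨t, ht, e1⟩ := cj a a1
    obtain ⟨s, hs⟩ := h.ei hp a2
    have sX := h.hE (IsE_mem_EG hs)
    have := h.tv p0 hp (φ := Φ.B ((2 * μ * Φ.Q a) • p - (2 * Φ.Q (g a)) • f p)) (by simp [hp.2, zp])
      (.of_apply (g := s * t * s⁻¹ * t⁻¹) (mul_mem (mul_mem (mul_mem sX ht) (inv_mem sX)) (inv_mem ht)) fun v => by
        obtain ⟨v, rfl⟩ := (s.trans t).surjective v
        simp only [LinearEquiv.trans_apply, LinearEquiv.mul_apply, LinearEquiv.coe_inv, LinearEquiv.symm_apply_apply]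
        simp only [LinearMap.smulRight_apply, Φ.B_sub_left, Φ.B_smul_left, RingHom.id_apply]
        simp only [e1, hs.app, map_add, map_sub, map_smul, smul_eq_mul, hp.2, a1, a2, zp, hf, fp a a1, h.bb, h.ε,
          hs.ap, hp.1]
        module)
    have e2 := h.nd _ (LinearMap.congr_fun this)
    have q2 : Φ.Q (g a) = 0 := by_contra fun n => m (by
      rw [← Submodule.smul_mem_iff _ (mul_ne_zero h.h2 n), ← sub_eq_zero.1 e2]
      exact Submodule.smul_mem _ _ (Submodule.mem_span_singleton_self p))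
    exact ⟨by simpa [q2, p0, μ0, h.h2] using e2, q2⟩
  by_cases qz : Φ.Q (f p) = 0
  · obtain ⟨a, ha⟩ := g.surjective (f p)
    have zz : Φ.B (f p) (f p) = 0 := by simp [h.bb, qz]
    have a1 : Φ.B p a = 0 := by rw [← hf, ha, zz]
    have qa := (cm a a1 (ha ▸ pz)).1
    have a2 : Φ.B (f a) (f p) = 0 := by rw [← ha, hf, h.bb, qa, mul_zero]
    have a3 := fp a a1
    obtain ⟨t, ht, e1⟩ := cj a a1
    rw [ha, qa] at e1
    generalize f p = z at *
    generalize f a = y at *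
    have H : HasL X (rk1 p (μ • Φ.B y) - rk1 z (Φ.B z)) := .of_apply ht fun v => by simp [e1, add_sub_assoc]
    obtain ⟨c, -, c1, c2⟩ := sep h.nd (nondeg_top h.nd) le_top trivial m
    have c1 := c1 p (Submodule.mem_span_singleton_self p)
    have k : ∀ s : F, HasL X (rk1 p (μ • Φ.B (y + (s * Φ.B c y) • p)) - rk1 (z + s • p) (Φ.B (z + s • p))) := fun s => by
      obtain ⟨u, hu⟩ := h.ei hp (a := s • c) (by simp [c1])
      have u1 : u z = z + s • p := by rw [hu.apply_perp pz]; simp [h.sy z c, c2]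
      have u2 : u y = y + (s * Φ.B c y) • p := by rw [hu.apply_perp (Φ.B_eq_zero_symm a3)]; simp
      exact H.conj (h.hE (IsE_mem_EG hu)) fun v => by simp [← u1, ← u2, hu.mem_isom.1, hu.apply_p]
    have z0 : ∀ {s s' t t' : F}, (rk1 p (μ • Φ.B (y + t • p)) - rk1 (z + s • p) (Φ.B (z + s • p))) *
        (rk1 p (μ • Φ.B (y + t' • p)) - rk1 (z + s' • p) (Φ.B (z + s' • p))) = 0 :=
      LinearMap.ext fun v => by simp [a2, a3, zp, pz, zz, hp.2]
    have := h.tv p0 hp (φ := (-2 : F) • Φ.B p) (by simp [hp.2]) (((((k 1).add (k (-1)) z0).add ((k 0).neg z0)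
      (by rw [add_mul, mul_neg, mul_neg, z0, z0]; simp)).add ((k 0).neg z0)
      (by simp only [add_mul, mul_neg, neg_mul, z0]; simp)).congr fun v => by
        simp; module)
    exact p0 (h.nd p fun y => by simpa [h.h2] using LinearMap.congr_fun this y)
  obtain ⟨b, hb, b0⟩ := exists_notMem_of_lt (U := ⊤ ⊓ pf Φ ![p, f p]) (R := F ∙ p) (by
    have := finrank_pf (Φ := Φ) ![p, f p] ⊤; have := finrank_span_one (F := F) p; have := h.four
    rw [finrank_top] at *; omega)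
  have b1 : Φ.B p b = 0 := mem_pf.1 hb.2 0
  have b2 : Φ.B (f p) b = 0 := mem_pf.1 hb.2 1
  obtain ⟨a, rfl⟩ := g.surjective b
  have qb := (cm a (by rwa [hf] at b2) b1).2
  have hp' : Φ.TotSing (F ∙ p) := Φ.totSing_span (by simp [hp.2]) (by simp [hp.1])
  have hS : Φ.TotSing ((F ∙ p) ⊔ F ∙ g a) := hp'.sup_span
    (Φ.mem_perp_span_singleton.2 b1) qb (by simp [h.bb, qb])
  have d1 := Submodule.finrank_lt_finrank_of_lt (SetLike.lt_iff_le_and_exists.2
    ⟨le_sup_left, _, mem_sup_self (F ∙ p) (g a), b0⟩)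
  have d2 := h.nd.finrank_add_finrank_perp ((F ∙ p) ⊔ F ∙ g a)
  rw [finrank_span_singleton p0, h.four] at *
  refine qz (hS.2 _ ((Submodule.eq_of_le_of_finrank_le hS.le_perp (by omega)).ge ?_))
  rw [Formed.perp_sup]
  exact ⟨Φ.mem_perp_span_singleton.2 pz, Φ.mem_perp_span_singleton.2 (Φ.B_eq_zero_symm b2)⟩

theorem par {p : V} (p0 : p ≠ 0) (hp : Φ.Sing p) {g : V ≃ₗ[F] V} (hg : g ∈ X) {μ : F} (e : g p = μ • p) :
    g ∈ simB Φ := by
  have μ0 : μ ≠ 0 := by rintro rfl; simp [p0] at e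
  obtain ⟨ν, hν⟩ := h.fixp p0 hp hg e
  obtain ⟨r, hr⟩ := h.nd.exists_isPair p0 hp
  have ν0 : ν ≠ 0 := by rintro rfl; simpa [hr.ef] using hν r
  have gp : ∀ v, Φ.B p (g v) = ν⁻¹ * Φ.B p v := fun v => by rw [hν v, inv_mul_cancel_left₀ ν0]
  have k : ∀ a, Φ.B p a = 0 → ∀ t, Φ.B (g a) (g t) = μ / ν * Φ.B a t := fun a ha => by
    have a2 : Φ.B p (g a) = 0 := by simp [gp, ha]
    obtain ⟨s, hs⟩ := h.ei hp ha
    obtain ⟨u, hu⟩ := h.ei hp (a := ν • g a) (by simp [a2])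
    have := h.tv p0 hp (φ := ((μ • (Φ.B a - Φ.Q a • Φ.B p)) ∘ₗ g.symm.toLinearMap - (ν • Φ.B (g a) -
      (ν * ν * Φ.Q (g a)) • Φ.B p)) ∘ₗ u.symm.toLinearMap) (by
        have e1 : u.symm p = p := u.symm_apply_eq.2 hu.apply_p.symm
        have e2 : g.symm p = μ⁻¹ • p := g.symm_apply_eq.2 (by simp [e, μ0])
        simp [e1, e2, hp.2, h.sy p, ha, a2])
      (.of_apply (g := g * s * g⁻¹ * u⁻¹) (mul_mem (mul_mem (mul_mem hg (h.hE (IsE_mem_EG hs))) (inv_mem hg))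
        (inv_mem (h.hE (IsE_mem_EG hu)))) fun v => by
        obtain ⟨v, rfl⟩ := (g.trans u).surjective v
        simp only [LinearEquiv.trans_apply, LinearEquiv.mul_apply, LinearEquiv.coe_inv, LinearEquiv.symm_apply_apply,
          LinearMap.smulRight_apply, LinearMap.comp_apply, LinearEquiv.coe_coe, LinearMap.sub_apply, LinearMap.smul_apply]
        simp only [hs.app, hu.app, map_add, map_sub, map_smul, smul_eq_mul, h.ε, e, Φ.Q_smul, Φ.B_smul_left, hν v,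
          RingHom.id_apply, LinearMap.smul_apply]
        module)
    have k1 : ∀ t, μ * (Φ.B a t - Φ.Q a * Φ.B p t) = ν * Φ.B (g a) (g t) - ν * ν * Φ.Q (g a) * Φ.B p (g t) := fun t => by
      simpa [sub_eq_zero] using LinearMap.congr_fun this (u (g t))
    have k2 := k1 a
    rw [h.bb, h.bb, ha, a2] at k2
    intro t
    have k3 : μ * Φ.Q a = ν * Φ.Q (g a) := mul_left_cancel₀ h.h2 (by linear_combination k2)
    have k4 := k1 t
    rw [hν t] at k4
    field_simp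
    linear_combination -k4 - ν * Φ.B p (g t) * k3
  have e0 : ((-Φ.Q (g r) * ν / μ) • Φ.B p) p = 0 := by simp [hp.2]
  have m : g * .transvection e0 ∈ simB Φ := ⟨.mk0 (μ / ν) (by simp [*]), fun u v => by
    have dec : ∀ u, ∃ a, Φ.B p a = 0 ∧ u = a + Φ.B p u • r := fun u => ⟨u - Φ.B p u • r, by simp [hr.ef], by simp⟩
    obtain ⟨a, a1, a2⟩ := dec u
    obtain ⟨b, b1, b2⟩ := dec v
    rw [a2, b2]
    simp only [LinearEquiv.mul_apply, LinearEquiv.transvection.apply, map_add, map_smul, LinearMap.add_apply,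
      LinearMap.smul_apply, Φ.B_smul_left, smul_eq_mul, a1, b1, hr.ef, e, k a a1, h.sy (g b) (g r), k b b1, h.sy p, gp, hp.2,
      h.bb (g r), hr.sf.2, h.sy b r, h.sy b a, RingHom.id_apply, Units.val_mk0]
    field_simp; ring⟩
  have := h.tv p0 hp e0 (hasL_tv e0 (by
    simpa using mul_mem (inv_mem hg) (h.le ⟨m, mul_mem (h.sl hg) (tv_mem_SLg e0)⟩)))
  rwa [show LinearEquiv.transvection e0 = 1 from LinearEquiv.ext fun v => by
    rw [LinearEquiv.transvection.apply, this]; simp, mul_one] at m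

theorem sim {g : V ≃ₗ[F] V} (hg : g ∈ X) : g ∈ simB Φ := by
  have := h.four
  obtain ⟨p, p0, hp⟩ := exists_sing_top Φ (by omega)
  have g0 : g p ≠ 0 := by simpa
  have sp : Φ.Sing (g p) := h.sg (by_contra fun n => by
    have hW := h.nd.restrict_perp (Φ.nondeg_span_singleton n)
    have d1 := h.nd.finrank_add_finrank_perp (F ∙ g p)
    have d2 := h.nd.finrank_add_finrank_perp (F ∙ p)
    rw [finrank_span_singleton g0] at d1
    rw [finrank_span_singleton p0] at d2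
    obtain ⟨a, ha, a0⟩ := exists_notMem_of_lt (U := (Φ.perp (F ∙ p)).map g.toLinearMap) (R := F ∙ g p) (by
      rw [LinearEquiv.finrank_map_eq, finrank_span_singleton g0]; omega)
    have le := le_of_inv h.nd hW (by omega) ((Φ.perp (F ∙ p)).map g.toLinearMap).toAddSubgroup (fun u hu w hw d k hk => by
      rintro _ ⟨x, hx, rfl⟩
      obtain ⟨ν, hν⟩ := h.fixp p0 hp (g := (g⁻¹ * k * g)⁻¹) (μ := 1) (inv_mem (mul_mem (mul_mem (inv_mem hg)
        (h.hE (IsE_mem_EG hk))) hg)) ((g⁻¹ * k * g).symm_apply_eq.2 (by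
          simp [IsE.fix hk hu hw _ (Submodule.mem_span_singleton_self _)]))
      refine ⟨(g⁻¹ * k * g) x, Φ.mem_perp_span_singleton.2 ?_, by simp⟩
      rw [hν]; simp [Φ.mem_perp_span_singleton.1 hx]) ha (by
        obtain ⟨y, -, y1, y2⟩ := sep h.nd (nondeg_top h.nd) le_top trivial a0
        exact ⟨y, y1, by simp [h.sy a y, y2]⟩)
    have := Submodule.eq_of_le_of_finrank_le (show Φ.perp (F ∙ g p) ≤ _ from le) (by
      rw [LinearEquiv.finrank_map_eq]; omega)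
    exact n (Φ.mem_perp_span_singleton.1 (this.ge ⟨p, Φ.mem_perp_span_singleton.2 hp.2, rfl⟩)))
  obtain ⟨z, hz, z1, z2⟩ : ∃ z, Φ.Sing z ∧ Φ.B p z ≠ 0 ∧ Φ.B (g p) z ≠ 0 := by
    by_cases e : Φ.B (g p) p = 0
    · obtain ⟨w, -, a⟩ := exists_sing_both h.nd (nondeg_top h.nd) trivial p0 hp trivial g0 e
      exact ⟨w, a⟩
    · obtain ⟨s, hs, a, b⟩ := h.opp (isPair_smul hp sp (by rwa [h.sy]))
      exact ⟨_, hp.map (EG_le_isom hs), a, fun e' => b (by simp [e'])⟩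
  obtain ⟨a, -, d, s, hs, e⟩ := exists_isE_apply h.nd (isPair_smul hz sp (by rwa [h.sy])) (isPair_smul hz hp (by rwa [h.sy]))
  have m := h.par p0 hp (mul_mem (h.hE (IsE_mem_EG hs)) hg) (μ := Φ.B z (g p) * (Φ.B z p)⁻¹) (by
    rw [mul_smul, ← e, map_smul, smul_inv_smul₀ (by rwa [h.sy])]; rfl)
  simpa using mul_mem (inv_mem (show s ∈ simB Φ from ⟨1, by simp [hs.mem_isom.1]⟩)) m

end O4
end Quad

open Cfsg.Geo
variable {F : Type*} [Field F] [Fintype F]

theorem slSp4 (f : (Fin 4 → F) → (Fin 4 → F) → F) (hf : IsSymplecticForm f) :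
    IsMaximalIn (specialLinear (Fin 4) F) (similarityGroup f ⊓ specialLinear (Fin 4) F) := by
  obtain ⟨Φ, a1, a2, a3, a4, a5, a6⟩ := exists_symp' hf one_ne_zero
  refine isMaximalIn_of_equiv (glEquiv _ F) (fun g => mem_specialLinear) (fun g => ?_)
    (isMax_simB a1 (by simp) fun X h _ g => T4.sim ⟨a1, by simp, a3, ⟨1, one_ne_zero, by simp [a5]⟩, fun U R e =>
      (exists_notMem_of_lt (U := U) (R := R) (by omega)).imp fun x hx => ⟨hx.1, hx.2, a4 x, a6 x⟩⟩ (isom_le h))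
  refine and_congr ?_ mem_specialLinear
  simp only [simB, a2, one_mul]; rfl

theorem slU4 (σ : F ≃+* F) (f : (Fin 4 → F) → (Fin 4 → F) → F) (hf : IsUnitaryForm σ f) :
    IsMaximalIn (specialLinear (Fin 4) F) (similarityGroup f ⊓ specialLinear (Fin 4) F) := by
  obtain ⟨Φ, h1, h2⟩ := exists_herm hf
  have hσ : (σ : F →+* F) ≠ RingHom.id F := fun h => hf.ne_refl (RingEquiv.ext fun a => congrArg (fun s => s a) h)
  refine isMaximalIn_of_equiv (glEquiv _ F) (fun g => mem_specialLinear) (fun g => ?_)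
    (isMax_simB h1 (by simp) fun X h _ g => T4.sim ⟨h1, by simp, Φ.τ_eq_zero hσ, ?_, fun U R =>
      exists_sing_notMem2 hσ Φ⟩ (isom_le h))
  · refine and_congr ?_ mem_specialLinear
    simp only [simB, h2]
    exact exists_congr fun c => forall_comm
  obtain ⟨a, ha⟩ : ∃ a, σ a ≠ a := by by_contra! h; exact hσ (RingHom.ext h)
  rcases mul_self_eq_one_iff.1 Φ.εε with e | e
  · exact ⟨a - σ a, sub_ne_zero.2 ha.symm, by simp [e, hf.involutive a]⟩
  · exact ⟨1, one_ne_zero, by simp [e]⟩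

theorem slQuad4 (hodd : Odd (Fintype.card F)) (Q : (Fin 4 → F) → F) (hQ : IsNondegenerateQuadraticForm Q) :
    IsMaximalIn (specialLinear (Fin 4) F) (quadSimilarityGroup Q ⊓ specialLinear (Fin 4) F) := by
  obtain ⟨Q, rfl, h1⟩ := exists_quad hQ
  have h2 := two_ne_zero_of_odd_card hodd
  refine isMaximalIn_of_equiv (glEquiv _ F) (fun g => mem_specialLinear) (fun g => ?_)
    (isMax_simB h1 (by simp) fun X a b g hg => or_iff_not_imp_left.2 fun n =>
      let ⟨c, hc⟩ := O4.sim ⟨h1, rfl, rfl, by simp, h2, a, b, n⟩ hg; ⟨c, hc⟩)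
  refine and_congr (exists_congr fun c => ⟨fun h u v => ?_, fun h v => ?_⟩) mem_specialLinear
  · simp only [ofQuad_B_apply, QuadraticMap.polar, glEquiv_apply, ← Matrix.mulVec_add, h]; ring
  · have := h v v
    simp only [ofQuad_B_apply, polar_self', glEquiv_apply] at this
    exact mul_left_cancel₀ h2 (by linear_combination this)

end Cfsg.Agent.Root.Mx
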