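import Cfsg.Agent.Low.SL4c
import Cfsg.Agent.Low.Sp4c
import Cfsg.Agent.Low.Fr6b
import Cfsg.Agent.Root.Ten7

/-! The Klein correspondence: the six-dimensional orthogonal module `F × W` of alternating forms on a four-dimensional
space, and maximality in `SL_4(p)` of the stabiliser of an orthonormal frame of it (`Spin.max6`). -/

set_option autoImplicit false

namespace Cfsg.Agent.Root.Mx

open Cfsg.Agent.Geom Cfsg.Agent.AutCl Module QuadraticMap

variable {F : Type*} [Field F] {V : Type*} [AddCommGroup V] [Module F V] {W : Type*} [AddCommGroup W] [Module F W]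
  {Φ : Formed (RingHom.id F) V} {Q : QuadraticForm F W} {ω : W →ₗ[F] End F V} {X H : Subgroup (V ≃ₗ[F] V)} {i : F}

attribute [-simp] QuadraticMap.polar_self

/-- The Pfaffian of a form with respect to four vectors. -/
def pf4 (B : V → V → F) (b : Fin 4 → V) : F :=
  B (b 0) (b 1) * B (b 2) (b 3) - B (b 0) (b 2) * B (b 1) (b 3) + B (b 0) (b 3) * B (b 1) (b 2)

theorem pf4_det (b : Basis (Fin 4) F V) (B : V →ₗ[F] V →ₗ[F] F) (alt : ∀ x, B x x = 0) (sk : ∀ x y, B y x = -B x y)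
    (g : End F V) : pf4 (fun u v => B (g u) (g v)) b = LinearMap.det g * pf4 (fun u v => B u v) b := by
  obtain ⟨M, hM⟩ : ∃ M, M = LinearMap.toMatrix b b g := ⟨_, rfl⟩
  have e : ∀ j, g (b j) = ∑ i, M i j • b i := fun j => by simp [hM, LinearMap.toMatrix_apply]
  rw [← LinearMap.det_toMatrix b, ← hM]
  simp only [pf4, e, Fin.sum_univ_four, map_add, map_smul, LinearMap.add_apply, LinearMap.smul_apply, smul_eq_mul, alt,
    sk (b 0) (b 1), sk (b 0) (b 2), sk (b 0) (b 3), sk (b 1) (b 2), sk (b 1) (b 3), sk (b 2) (b 3)]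
  simp [Matrix.det_succ_row_zero, Fin.sum_univ_succ, Fin.succAbove]
  ring

/-- The six-dimensional form. -/
noncomputable def Q6 (Q : QuadraticForm F W) : QuadraticForm F (F × W) := (QuadraticMap.sq (R := F)).prod Q

@[simp] theorem Q6_apply (x : F × W) : Q6 Q x = x.1 * x.1 + Q x.2 := rfl

theorem Q6_polar (x y : F × W) : polar (Q6 Q) x y = 2 * (x.1 * y.1) + polar Q x.2 y.2 := by
  simp [polar]; ring

/-- The self-adjoint map of a vector. -/
def al (i : F) (ω : W →ₗ[F] End F V) : F × W →ₗ[F] End F V := (LinearMap.toSpanSingleton F _ (i • 1)).coprod ω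

theorem al_app (x : F × W) (v : V) : al i ω x v = (x.1 * i) • v + ω x.2 v := by simp [al, mul_smul]

/-- The group induced on the six-dimensional module. -/
def ind6 (Φ : Formed (RingHom.id F) V) (Q : QuadraticForm F W) (ω : W →ₗ[F] End F V) (i : F) (X : Subgroup (V ≃ₗ[F] V)) :
    Subgroup (OG (Q6 Q)) where
  carrier := {k | ∃ g ∈ X, ∀ x u v, Φ.B (al i ω (k.1 x) (g u)) (g v) = Φ.B (al i ω x u) v}
  one_mem' := ⟨1, one_mem _, by simp⟩
  mul_mem' := fun {a b} ⟨g, a1, a2⟩ ⟨l, b1, b2⟩ => ⟨g * l, mul_mem a1 b1, fun x u v => by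
    rw [OG.mul_apply, LinearEquiv.mul_apply, LinearEquiv.mul_apply, a2, b2]⟩
  inv_mem' := fun {a} ⟨g, a1, a2⟩ => ⟨g⁻¹, inv_mem a1, fun x u v => by rw [← a2, OG.apply_inv_apply]; simp⟩

/-- The extended frame. -/
def E6 (e : Fin 5 → W) : Fin 6 → F × W := Fin.cons (1, 0) fun j => (0, e j)

namespace Spin
variable [FiniteDimensional F V] [FiniteDimensional F W] (h : Spin Φ Q ω)
include h

omit [FiniteDimensional F V] [FiniteDimensional F W] in
theorem al_adj (x : F × W) (u v : V) : Φ.B (al i ω x u) v = Φ.B u (al i ω x v) := by simp [al_app, h.adj]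

omit [FiniteDimensional F V] [FiniteDimensional F W] in
theorem al_sq (ii : i * i = -1) (x : F × W) (v : V) : al i ω x (al (-i) ω x v) = Q6 Q x • v := by
  simp only [al_app, map_add, map_smul, h.sq, Q6_apply]
  linear_combination (norm := module) (-x.1 * x.1 * ii) • v

omit [FiniteDimensional F V] [FiniteDimensional F W] in
theorem al_anti (ii : i * i = -1) (x y : F × W) (v : V) :
    al i ω x (al (-i) ω y v) = polar (Q6 Q) x y • v - al i ω y (al (-i) ω x v) := by
  have := h.al_sq ii (x + y) v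
  simp only [map_add, LinearMap.add_apply, h.al_sq ii, quad_add] at this
  linear_combination (norm := module) this

omit [FiniteDimensional F W] in
theorem four : (4 : F) ≠ 0 := fun e => mul_ne_zero h.two h.two (by linear_combination e)

omit [FiniteDimensional F W] in
theorem al_inj (ii : i * i = -1) {x y : F × W} (e : ∀ v, al i ω x v = al i ω y v) : x = y := by
  have t : ∀ x, LinearMap.trace F V (al i ω x) = x.1 * i * 4 := fun x => by simp [al, h.tr, h.d4, mul_assoc]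
  have e1 : x.1 = y.1 := mul_right_cancel₀ (mul_ne_zero (show i ≠ 0 by rintro rfl; simp at ii) h.four) (by
    rw [← mul_assoc, ← mul_assoc, ← t, ← t, LinearMap.ext e])
  exact Prod.ext e1 (h.inj fun v => by simpa [al_app, e1] using e v)

omit [FiniteDimensional F W] in
theorem al_surj (ii : i * i = -1) {a : End F V} (ha : ∀ u v, Φ.B (a u) v = Φ.B u (a v)) : ∃ x, al i ω x = a := by
  have := h.four
  obtain ⟨w, e⟩ := h.surj (a - (LinearMap.trace F V a / 4) • 1) (fun u v => by simp [ha]) (by simp [h.d4, this])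
  refine ⟨(-i * (LinearMap.trace F V a / 4), w), LinearMap.ext fun v => ?_⟩
  simp only [al_app, e, LinearMap.sub_apply, LinearMap.smul_apply, End.one_apply]
  linear_combination (norm := module) (-(LinearMap.trace F V a / 4) * ii) • v

omit [FiniteDimensional F V] [FiniteDimensional F W] in
theorem al_rf (ii : i * i = -1) {u : F × W} (q : Q6 Q u ≠ 0) (y : F × W) (v : V) :
    al i ω u (al (-i) ω ((refl (Q6 Q) u).1 y) (al i ω u v)) = -Q6 Q u • al i ω y v := by
  have a := h.al_sq (i := -i) (by simpa) u v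
  rw [neg_neg] at a
  rw [refl_apply, map_sub, map_smul, LinearMap.sub_apply, LinearMap.smul_apply, a, map_sub, h.al_anti ii u y, a]
  simp only [map_smul]
  match_scalars <;> field_simp <;> ring

variable {b : Basis (Fin 4) F V} (hb : ∀ c w, pf4 (fun u v => Φ.B (c • u + ω w u) v) b = Q w - c * c) (ii : i * i = -1)
include hb ii

omit [FiniteDimensional F V] [FiniteDimensional F W] in
theorem pf6 {g : End F V} {x y : F × W} (e : ∀ u v, Φ.B (al i ω y (g u)) (g v) = Φ.B (al i ω x u) v) :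
    LinearMap.det g * Q6 Q y = Q6 Q x := by
  have sk : ∀ u v, Φ.B (al i ω y v) u = -Φ.B (al i ω y u) v := fun u v => by rw [h.al_adj, h.sp.skew]
  have := pf4_det b (Φ.B.comp (al i ω y)) (fun u => mul_left_cancel₀ h.two (by
    simpa [two_mul, add_eq_zero_iff_eq_neg] using sk u u)) sk g
  simp only [LinearMap.comp_apply, e] at this
  simp only [al_app, hb] at this
  simp only [Q6_apply]
  linear_combination -this + (LinearMap.det g * y.1 * y.1 - x.1 * x.1) * ii

theorem act6 {g : V ≃ₗ[F] V} (hg : g ∈ SLg F V) :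
    ∃ k : OG (Q6 Q), ∀ x u v, Φ.B (al i ω (k.1 x) (g u)) (g v) = Φ.B (al i ω x u) v := by
  choose f hf using fun u => h.hn.exists_eq_B (Φ.B u ∘ₗ (g.symm : V →ₗ[F] V))
  replace hf : ∀ u t, Φ.B (f u) t = Φ.B u (g.symm t) := fun u t => by simp [hf]
  let f' : End F V := ⟨⟨f, fun x y => h.hn.ext fun t => by simp [hf]⟩, fun c x => h.hn.ext fun t => by simp [hf]⟩
  have k : ∀ x, ∃ y, ∀ u v, Φ.B (al i ω y (g u)) (g v) = Φ.B (al i ω x u) v := fun x => by
    obtain ⟨y, e⟩ := h.al_surj ii (a := f' * al i ω x * g.symm.toLinearMap) fun u v => by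
      change Φ.B (f (al i ω x (g.symm u))) v = Φ.B u (f (al i ω x (g.symm v)))
      rw [hf, h.sp.skew (f _), hf, h.al_adj, h.sp.skew]
    exact ⟨y, fun u v => by rw [e]; change Φ.B (f (al i ω x (g.symm (g u)))) _ = _; simp [hf]⟩
  choose κ hκ using k
  have ex : ∀ {x y}, (∀ u v, Φ.B (al i ω x (g u)) (g v) = Φ.B (al i ω y (g u)) (g v)) → x = y := fun e =>
    h.al_inj ii fun u => h.hn.ext fun v => by simpa using e (g.symm u) (g.symm v)
  let L : F × W →ₗ[F] F × W := ⟨⟨κ, fun x y => ex fun u v => by simp [hκ]⟩, fun c x => ex fun u v => by simp [hκ]⟩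
  refine ⟨⟨LinearEquiv.ofInjectiveEndo L ((injective_iff_map_eq_zero L).2 fun x hx => h.al_inj ii fun u => h.hn.ext fun v => ?_),
    Formed.mem_isom_ofQuad.2 fun x => ?_⟩, hκ⟩
  · rw [← hκ, show κ x = 0 from hx]; simp
  · have := h.pf6 hb ii (g := g) (hκ x)
    rwa [mem_SLg.1 hg, one_mul] at this

omit [FiniteDimensional F W] in
theorem lift6 {u w : F × W} (qu : Q6 Q u ≠ 0) (qw : Q6 Q w ≠ 0) (sq : IsSquare (Q6 Q u * Q6 Q w)) :
    ∃ g ∈ SLg F V, ∀ x p q, Φ.B (al i ω ((refl (Q6 Q) u * refl (Q6 Q) w).1 x) (g p)) (g q) = Φ.B (al i ω x p) q := by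
  obtain ⟨l, hl⟩ := sq
  have l0 : l ≠ 0 := by rintro rfl; simp [qu, qw, -Q6_apply] at hl
  have a := fun y v => h.al_rf (i := -i) (by simpa) qu y v
  simp only [neg_neg] at a
  have k : ∀ x p q, Φ.B (al i ω ((refl (Q6 Q) u * refl (Q6 Q) w).1 x) ((l⁻¹ • (al (-i) ω u * al i ω w)) p))
      ((l⁻¹ • (al (-i) ω u * al i ω w)) q) = Φ.B (al i ω x p) q := fun x p q => by
    simp only [LinearMap.smul_apply, End.mul_apply, map_smul, Φ.B_smul_left, ← h.al_adj, OG.mul_apply, a, h.al_rf ii qw,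
      smul_eq_mul, RingHom.id_apply]
    field_simp; linear_combination Φ.B (al i ω x p) q * hl
  have d := h.pf6 hb ii (k (1, 0))
  rw [OG.map_Q] at d
  replace d : LinearMap.det (l⁻¹ • (al (-i) ω u * al i ω w)) = 1 := by simpa using d
  exact ⟨LinearEquiv.ofInjectiveEndo (l⁻¹ • (al (-i) ω u * al i ω w)) (LinearMap.ker_eq_bot.1 (by_contra fun n => by
    simp [LinearMap.det_eq_zero_iff_ker_ne_bot.2 n] at d)), mem_SLg.2 d, k⟩

theorem max6 [Finite F] (hp : ∀ c : F, ∃ n : ℕ, (n : F) = c) (hE : Φ.isom ≤ EG Φ) (h3 : (3 : F) ≠ 0) {e : Fin 5 → W}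
    (q : ∀ i, Q (e i) = 1) (o : ∀ i j, i ≠ j → polar Q (e i) (e j) = 0)
    (h1 : ∀ g : V ≃ₗ[F] V, (∀ j, ∃ m n, ∃ ε : F, ε * ε = 1 ∧
      ∀ v, al i ω (E6 e m) (g (ω (e j) v)) = (ε * i) • al i ω (E6 e n) (g v)) → g ∈ H)
    (h0 : ∀ g ∈ H, ∀ i j, ∃ ε : F, ε * ε = 1 ∧
      ∀ v, g (ω (e i) (g.symm (ω (e j) v))) = ε • ω (e j) (g (ω (e i) (g.symm v)))) :
    Geo.IsMaximalIn (SLg F V) (H ⊓ SLg F V) := by
  have h2 := h.two
  have i0 : i ≠ 0 := by rintro rfl; simp at ii
  have a0 : ∀ v, al i ω (E6 e 0) v = i • v := fun v => by simp [E6, al_app]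
  have a1 : ∀ j v, al i ω (E6 e (Fin.succ j)) v = ω (e j) v := fun j v => by simp [E6, al_app]
  have M := h.max_frame (H := H) hp hE q o (fun g _ H => h1 g fun j => let ⟨n, ε, e1, e2⟩ := H j
    ⟨0, n.succ, ε, e1, fun v => by rw [a0, a1, e2, smul_smul, mul_comm]⟩) h0
  have s5 := fun v => sub_eq_zero.1
    (on_zero h.hQ h2 (v := e) (by simp [q]) o (by simp [h.d5]) (on_proj h2 (by simp [q]) o v))
  have fo : Fo (Q6 Q) (E6 e) := by
    refine ⟨h2, hp, fun a c => ?_, fun v => ?_⟩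
    · refine Fin.cases ?_ (fun a => ?_) a <;> refine Fin.cases ?_ (fun c => ?_) c <;>
        simp [E6, Q6_polar, (Fin.succ_ne_zero _).symm]
      split_ifs with m
      exacts [by rw [m, polar_self', q, mul_one], o _ _ m]
    · rw [Fin.sum_univ_succ]
      refine Prod.ext (by simp [E6, Q6_polar, Prod.fst_sum, h2]) ?_
      simpa [E6, Q6_polar, Prod.snd_sum, q] using (s5 v.2).symm
  have mon : ∀ (k : OG (Q6 Q)) (g : V ≃ₗ[F] V), (∀ x u v, Φ.B (al i ω (k.1 x) (g u)) (g v) = Φ.B (al i ω x u) v) →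
      Mon (E6 e) k → g ∈ H := fun k g r m => h1 g fun j => by
    obtain ⟨m0, ε, e1, e2⟩ := m 0
    obtain ⟨n, δ, d1, d2⟩ := m j.succ
    refine ⟨m0, n, ε * δ, by linear_combination δ * δ * e1 + d1, fun u => h.hn.ext fun v => ?_⟩
    obtain ⟨v, rfl⟩ := g.surjective v
    have r1 := r (E6 e 0) (ω (e j) u) v
    have r2 := r (E6 e j.succ) u v
    simp only [e2, d2, a0, a1, map_smul, LinearMap.smul_apply, smul_eq_mul, Φ.B_smul_left, RingHom.id_apply] at r1 r2 ⊢
    linear_combination ε * r1 - ε * i * r2 - Φ.B (al i ω (E6 e m0) (g (ω (e j) u))) (g v) * e1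
  obtain ⟨-, k0, k1, k2⟩ := SetLike.lt_iff_le_and_exists.1 M.1
  refine max_crit inf_le_right ⟨k0, EG_le_SLg k1, fun c => k2 ⟨c.1, k1⟩⟩ fun X hX h4 g hg hg' =>
    by_contra fun hne => hg' ⟨?_, h4 hg⟩
  have r2 : ∀ u w, Q6 Q u ≠ 0 → Q6 Q w ≠ 0 → IsSquare (Q6 Q u * Q6 Q w) → Mon (E6 e) (refl (Q6 Q) u) →
      Mon (E6 e) (refl (Q6 Q) w) → refl (Q6 Q) u * refl (Q6 Q) w ∈ ind6 Φ Q ω i X := fun u w qu qw sq a c =>
    let ⟨g, g1, g2⟩ := h.lift6 hb ii qu qw sq; ⟨g, hX ⟨mon _ g g2 (a.mul c), g1⟩, g2⟩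
  have nE : ¬ EG Φ ≤ X := fun c => by
    obtain ⟨g, hg, r⟩ := r2 (E6 e 0 - E6 e 1) (E6 e 2 - E6 e 3) (by rw [fo.Q_sub (by decide)]; exact h2)
      (by rw [fo.Q_sub (by decide)]; exact h2) (by rw [fo.Q_sub (by decide), fo.Q_sub (by decide)]; exact ⟨2, rfl⟩)
      (fo.mon_sub (by decide)) (fo.mon_sub (by decide))
    refine (T4.sim ⟨h.hn, h.d4, h.sp.τ, ⟨1, one_ne_zero, by simp [h.sp.ε]⟩, fun U R e =>
      (exists_notMem_of_lt (U := U) (R := R) (by omega)).imp fun x hx => ⟨hx.1, hx.2, h.sp.sing x⟩⟩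
      (inf_le_left.trans (hE.trans c)) hg).elim (fun c => hne (SLg_le' c)) fun ⟨c, hc⟩ => ?_
    have e1 : (refl (Q6 Q) (E6 e 0 - E6 e 1) * refl (Q6 Q) (E6 e 2 - E6 e 3)).1 (E6 e 0) = E6 e 1 := fo.ext fun m => by
      rw [OG.mul_apply, refl_of_perp (v := E6 e 2 - E6 e 3) (by simp [fo.on]), fo.co_swap (by decide), fo.on, fo.on]
      simp only [Equiv.swap_apply_eq_iff, Equiv.swap_apply_left]
    have := h.al_inj ii (x := c • E6 e 1) (y := E6 e 0) fun u => h.hn.ext fun v => by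
      obtain ⟨u, rfl⟩ := g.surjective u
      obtain ⟨v, rfl⟩ := g.surjective v
      have := r (E6 e 0) u v
      rw [e1] at this
      simp [this, a0, hc, mul_left_comm]
    simpa [fo.on, h2.symm] using congrArg (polar (Q6 Q) (E6 e 0)) this
  have hY : F6 (ind6 Φ Q ω i X) (E6 e) := by
    refine ⟨fo, h3, r2, fun k ⟨g, hg, r⟩ k0 => Fin.forall_fin_succ.2 ⟨⟨0, 1, by simp, by simp [k0]⟩, fun j => ?_⟩⟩
    have gi : g ∈ Φ.isom := ⟨fun u v => mul_left_cancel₀ i0 (by simpa [k0, a0] using r (E6 e 0) u v),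
      fun x => by rw [(h.sp.sing _).1, (h.sp.sing _).1]⟩
    have gH : g ∈ H := ((M.2 (X ⊓ EG Φ) (le_inf (fun x c => hX ⟨c.1, EG_le_SLg c.2⟩) inf_le_right)
      inf_le_right).resolve_right (fun c => nE (inf_eq_right.1 c))).le ⟨hg, hE gi⟩ |>.1
    obtain ⟨y, hy⟩ : ∃ y, y = k.1 (E6 e j.succ) := ⟨_, rfl⟩
    have y0 : y.1 = 0 := by
      have := OG.map_polar k (E6 e 0) (E6 e j.succ)
      rw [k0, ← hy, fo.on, if_neg (Fin.succ_ne_zero j).symm] at this
      simpa [E6, Q6_polar, h2] using this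
    have y1 : ∀ v, g (ω (e j) (g.symm v)) = ω y.2 v := fun u => h.hn.ext fun v => by
      obtain ⟨v, rfl⟩ := g.surjective v
      have := r (E6 e j.succ) (g.symm u) v
      rw [← hy, a1, al_app, y0] at this
      simpa [gi.1] using this.symm
    have y2 : Q y.2 = 1 := by simpa [← hy, y0] using (OG.map_Q k (E6 e j.succ)).trans (fo.Q_e _)
    obtain ⟨m, hm⟩ : ∃ m, polar Q (e m) y.2 ≠ 0 := by
      by_contra! hc
      rw [s5 y.2] at y2
      simp [hc] at y2
    obtain ⟨ε, e1, e2⟩ := h0 g gH j m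
    simp only [y1, h.anti y.2 (e m)] at e2
    rcases mul_self_eq_one_iff.1 e1 with rfl | rfl
    · have y3 : y.2 = (polar Q y.2 (e m) / 2) • e m := h.inj fun v => by
        have := congrArg (ω (e m)) (e2 v)
        simp only [map_sub (ω (e m)), map_smul, h.sq, q, LinearMap.smul_apply] at this ⊢
        linear_combination (norm := (match_scalars <;> field_simp <;> ring)) (-2⁻¹ : F) • this
      refine ⟨m.succ, polar Q y.2 (e m) / 2, ?_, hy.symm.trans (Prod.ext (by simp [E6, y0]) (by simpa [E6] using y3))⟩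
      rw [y3, quad_smul, q] at y2
      linear_combination y2
    · exact absurd (h.scal (c := polar Q (e m) y.2) (d := 0) fun v => by
        rw [polar_comm]; linear_combination (norm := module) e2 v) hm
  obtain ⟨k, hk⟩ := h.act6 hb ii (h4 hg)
  have : Finite W := Module.finite_of_finite F
  exact mon k g hk (hY.mon ⟨g, hg, hk⟩)

end Spin

end Cfsg.Agent.Root.Mx
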