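import Cfsg.Agent.Low.SL4d

/-! The normaliser of `4 ∘ 2^{1+4}` is maximal in `SL_4(p)`, `p ≡ 1 mod 4` (`slXs4`). -/

set_option autoImplicit false

namespace Cfsg.Agent.Root.Mx

open Cfsg Cfsg.Agent.Geom Cfsg.Agent.AutCl Module QuadraticMap Elu

variable {F : Type*} [Field F] {V : Type*} [AddCommGroup V] [Module F V] [FiniteDimensional F V]
  {R : Subgroup (End F V)ˣ}

theorem nosc (hV : finrank F V = 4) (h2 : (2 : F) ≠ 0) {a b : (End F V)ˣ} (aa : a * a = 1 ∨ a * a = -1)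
    (bb : b * b = 1 ∨ b * b = -1) (ba : b * a = a * b ∨ b * a = -(a * b)) :
    ∃ m : End F V, m * a.1 = a.1 * m ∧ m * b.1 = b.1 * m ∧ ∀ c : F, m ≠ c • 1 := by
  obtain ⟨u, -, u0⟩ := exists_notMem_of_lt (U := (⊤ : Submodule F V)) (R := ⊥) (by simp [hV])
  obtain ⟨φ, φ0, hφ⟩ := Submodule.exists_dual_map_eq_bot_of_lt_top
    (p := Submodule.span F (Set.range ![u, a⁻¹.1 u, b⁻¹.1 u])) (lt_top_iff_ne_top.2 fun e => by
      have := finrank_range_le_card (R := F) ![u, a⁻¹.1 u, b⁻¹.1 u]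
      rw [Set.finrank, e] at this; simp [hV] at this) inferInstance
  have z : ∀ j, φ (![u, a⁻¹.1 u, b⁻¹.1 u] j) = 0 := fun j =>
    (Submodule.eq_bot_iff _).1 hφ _ ⟨_, Submodule.subset_span ⟨j, rfl⟩, rfl⟩
  have key : ∀ v, ∃ m : End F V, m * a.1 = a.1 * m ∧ m * b.1 = b.1 * m ∧ LinearMap.trace F V m = 4 * φ v ∧
      m u = φ ((a * b)⁻¹.1 u) • (a * b).1 v := fun v => by
    obtain ⟨f, hf⟩ : ∃ f : (End F V)ˣ → End F V, ∀ x, f x = x.1 * φ.smulRight v * x⁻¹.1 := ⟨_, fun _ => rfl⟩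
    have pm : ∀ {x y}, x = y ∨ x = -y → f x = f y := by rintro _ _ (rfl | rfl) <;> simp [hf]
    have cj : ∀ x y : (End F V)ˣ, x.1 * f y = f (x * y) * x.1 := fun x y => by simp [hf, mul_assoc]
    have tr : ∀ x, LinearMap.trace F V (f x) = φ v := fun x => by
      rw [hf, LinearMap.trace_mul_comm, ← mul_assoc, Units.inv_mul, one_mul, LinearMap.trace_smulRight]
    refine ⟨f 1 + f a + f b + f (a * b), ?_, ?_, by simp only [map_add, tr]; ring, ?_⟩
    · simp only [mul_add, cj, mul_one, pm aa, pm (show a * (a * b) = b ∨ a * (a * b) = -b by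
        rw [← mul_assoc]; rcases aa with e | e <;> simp [e]), add_mul]
      abel
    · simp only [mul_add, cj, mul_one, pm bb, pm ba, pm (show b * (a * b) = a ∨ b * (a * b) = -a by
        rw [← mul_assoc]; rcases ba with e | e <;> rcases bb with e' | e' <;> simp [e, mul_assoc, e']), add_mul]
      abel
    · have z0 : φ u = 0 := z 0
      have z1 : φ (a⁻¹.1 u) = 0 := z 1
      have z2 : φ (b⁻¹.1 u) = 0 := z 2
      simp [hf, z0, z1, z2]
  by_contra! hc
  have k : ∀ v, φ ((a * b)⁻¹.1 u) • (a * b).1 v = φ v • u := fun v => by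
    obtain ⟨m, m1, m2, m3, m4⟩ := key v
    obtain ⟨c, rfl⟩ := hc m m1 m2
    simp only [map_smul, LinearMap.trace_one, hV, smul_eq_mul, mul_comm c, Nat.cast_ofNat] at m3
    rw [← m4, mul_left_cancel₀ (fun e => mul_ne_zero h2 h2 (by linear_combination e)) m3]; rfl
  have k0 := congrArg (a * b)⁻¹.1 (k u)
  rw [show φ u = 0 from z 0, map_smul, ← End.mul_apply, Units.inv_mul] at k0
  replace u0 : u ≠ 0 := u0
  have k1 : φ ((a * b)⁻¹.1 u) = 0 := by simpa [u0] using k0
  exact φ0 (LinearMap.ext fun v => by simpa [u0, -mul_inv_rev, k1] using (k v).symm)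

theorem exists_gam4 (H : Xs R) (hV : finrank F V = 4) {I : (End F V)ˣ} (hI : I ∈ R) {i : F} (i1 : i * i = -1)
    (i2 : I.1 = i • 1) : ∃ a ∈ R, ∃ b ∈ R, ∃ c ∈ R, ∃ d ∈ R, Gam a.1 b.1 c.1 d.1 := by
  have sq : ∀ x ∈ R, x * x = 1 ∨ x * x = -1 := fun x hx => (H.sq x hx).imp Units.ext Units.ext
  obtain ⟨a, ha, a1⟩ : ∃ x ∈ R, ∀ c : F, x.1 ≠ c • 1 := by
    by_contra! hc
    obtain ⟨m, -, -, hm⟩ := nosc hV H.two (a := 1) (b := 1) (by simp) (by simp) (by simp)
    obtain ⟨c, e⟩ := H.schur m fun x hx => by obtain ⟨c, e⟩ := hc x hx; simp [e]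
    exact hm c e
  obtain ⟨b, hb, b1⟩ := H.exists_anti ha a1
  have b2 := H.not_comm (congrArg Units.val b1)
  have b3 := mt Commute.symm b2
  have st : ∀ e ∈ R, ∃ y, (y = 1 ∨ y = a ∨ y = b ∨ y = a * b) ∧ Commute (e * y) a ∧ Commute (e * y) b := fun e he => by
    by_cases p : Commute e a <;> by_cases q : Commute e b
    · exact ⟨1, by simp, by simpa using p, by simpa using q⟩
    · exact ⟨a, by simp, by simp [H.comm_mul, *]⟩
    · exact ⟨b, by simp, by simp [H.comm_mul, *]⟩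
    · exact ⟨a * b, by simp, by simp [H.comm_mul, mul_mem, *]⟩
  obtain ⟨c, hc, c1, c2, c3⟩ : ∃ c ∈ R, Commute c a ∧ Commute c b ∧ ∀ t : F, c.1 ≠ t • 1 := by
    by_contra! hc
    obtain ⟨m, m1, m2, hm⟩ := nosc hV H.two (sq a ha) (sq b hb) (.inr b1)
    obtain ⟨c, e⟩ := H.schur m fun x hx => by
      obtain ⟨y, y1, y2, y3⟩ := st x hx
      have y4 : y ∈ R ∧ m * y.1 = y.1 * m := by
        rcases y1 with rfl | rfl | rfl | rfl
        exacts [by simp, ⟨ha, m1⟩, ⟨hb, m2⟩, ⟨mul_mem ha hb, by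
          rw [Units.val_mul, ← mul_assoc, m1, mul_assoc, m2, mul_assoc]⟩]
      obtain ⟨t, ht⟩ := hc _ (mul_mem hx y4.1) y2 y3
      refine (Units.mul_left_inj y).1 ?_
      rw [mul_assoc, mul_assoc, y4.2, ← mul_assoc x.1, ← Units.val_mul, ht]; simp
    exact hm c e
  obtain ⟨e, he, e1⟩ := H.exists_anti hc c3
  have e2 := H.not_comm (congrArg Units.val e1)
  obtain ⟨d, hd, d1, d2, d3⟩ : ∃ d ∈ R, Commute d a ∧ Commute d b ∧ ¬ Commute d c := by
    obtain ⟨y, y1, y2, y3⟩ := st e he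
    have y4 : y ∈ R ∧ Commute y c := by
      rcases y1 with rfl | rfl | rfl | rfl
      exacts [by simp, ⟨ha, c1.symm⟩, ⟨hb, c2.symm⟩, ⟨mul_mem ha hb, c1.symm.mul_left c2.symm⟩]
    exact ⟨_, mul_mem he y4.1, y2, y3, by simp [H.comm_mul he y4.1 hc, y4.2, e2]⟩
  obtain ⟨a', ha', b', hb', h1, p2, h4⟩ := H.pair_norm ha hb b2
  obtain ⟨c', hc', d', hd', h2, q2, h5⟩ := H.pair_norm hc hd d3
  have r1 := q2 a' (p2 c c1 c2).1.symm (p2 d d1 d2).1.symm
  have r2 := q2 b' (p2 c c1 c2).2.symm (p2 d d1 d2).2.symm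
  obtain ⟨p1, p2, p3, p4⟩ := And.intro r1.1.symm (And.intro r2.1.symm (And.intro r1.2.symm r2.2.symm))
  have k1 : ∀ y, Commute I y := fun y => Units.ext (by simp [i2])
  have k2 : ∀ x y : (End F V)ˣ, (I * x).1 * (I * y).1 = -(x.1 * y.1) := fun x y => by simp [i2, smul_smul, i1]
  rcases h4 with h4 | h4 <;> rcases h5 with h5 | h5
  · exact Xs.gam_mk ha' hb' (mul_mem hI hc') (mul_mem hI hd') h1 (by rw [k2, k2, h2]) ⟨(k1 _).mul_left p1,
      (k1 _).mul_left p2, (k1 _).mul_left p3, (k1 _).mul_left p4⟩ h4 (by rw [k2, k2, h5.1, h5.2]; simp)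
  · exact Xs.gam_mk ha' hb' hc' hd' h1 h2 ⟨p1, p2, p3, p4⟩ h4 h5
  · exact Xs.gam_mk hc' hd' ha' hb' h2 h1 ⟨p1.symm, p3.symm, p2.symm, p4.symm⟩ h5 h4
  · exact Xs.gam_mk (mul_mem hI ha') (mul_mem hI hb') hc' hd' (by rw [k2, k2, h1]) h2
      ⟨(k1 _).symm.mul_right p1, (k1 _).symm.mul_right p2, (k1 _).symm.mul_right p3,
      (k1 _).symm.mul_right p4⟩ (by rw [k2, k2, h4.1, h4.2]; simp) h5

omit [FiniteDimensional F V] in
theorem exists_I (H : Xs R) (hZ : Nat.card (R ⊓ Subgroup.centralizer (R : Set (End F V)ˣ) : Subgroup _) = 4) :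
    ∃ I ∈ R, ∃ i : F, i * i = -1 ∧ I.1 = i • 1 := by
  have := H.nt
  by_contra! hc
  have h1 : ((R ⊓ Subgroup.centralizer (R : Set (End F V)ˣ) : Subgroup _) : Set (End F V)ˣ) ⊆ {1, -1} := fun x hx => by
    obtain ⟨c, h1⟩ := (H.mem_center_iff hx.1).1 hx
    have h2 : ∀ e : F, x.1 * x.1 = e • 1 → c * c = e := fun e h => smul_left_injective F
      (one_ne_zero (α := End F V)) (by simpa [h1, smul_smul] using h)
    rcases H.sq x hx.1 with h | h
    · rcases mul_self_eq_one_iff.1 (h2 1 (by simpa using h)) with rfl | rfl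
      · exact Or.inl (Units.ext (by simpa using h1))
      · exact Or.inr (Units.ext (by simpa using h1))
    · exact (hc x hx.1 c (h2 (-1) (by simpa using h)) h1).elim
  have h2 := (Set.ncard_le_ncard h1 (Set.toFinite _)).trans (Set.ncard_insert_le _ _)
  rw [← Nat.card_coe_set_eq, SetLike.coe_sort_coe, hZ, Set.ncard_singleton] at h2
  omega

theorem gam_basis (hV : finrank F V = 4) (h2 : (2 : F) ≠ 0) {i : F} (ii : i * i = -1) {a b c d : End F V}
    (G : Gam a b c d) : ∃ E : V ≃ₗ[F] (Fin 2 ⊕ Fin 2 → F), ∀ x ∈ [a, b, c, d], ∀ u v,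
      sympForm 2 F (E (x u)) (E v) = sympForm 2 F (E u) (E (x v)) := by
  have aa : ∀ v, a (a v) = v := LinearMap.congr_fun G.aa
  have bb : ∀ v, b (b v) = v := LinearMap.congr_fun G.bb
  have cc : ∀ v, c (c v) = v := LinearMap.congr_fun G.cc
  have dd : ∀ v, d (d v) = v := LinearMap.congr_fun G.dd
  have ba : ∀ v, b (a v) = -a (b v) := LinearMap.congr_fun G.ba
  have ca : ∀ v, c (a v) = -a (c v) := LinearMap.congr_fun G.ca
  have da : ∀ v, d (a v) = -a (d v) := LinearMap.congr_fun G.da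
  have cb : ∀ v, c (b v) = -b (c v) := LinearMap.congr_fun G.cb
  have db : ∀ v, d (b v) = -b (d v) := LinearMap.congr_fun G.db
  have dc : ∀ v, d (c v) = -c (d v) := LinearMap.congr_fun G.dc
  have fl : ∀ a b : End F V, (∀ v, a (a v) = v) → (∀ v, b (b v) = v) → (∀ v, b (a v) = -a (b v)) → ∀ v, v ≠ 0 →
      ∃ w, w ≠ 0 ∧ b w = -i • a w ∧ (w = v + i • a (b v) ∨ w = a v) := fun a b aa bb ba v v0 => by
    by_cases e : v + i • a (b v) = 0
    · refine ⟨a v, fun z => v0 (by rw [← aa v, z, map_zero]), ?_, .inr rfl⟩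
      rw [ba, aa]; linear_combination (norm := module) i • e - ii • a (b v)
    · refine ⟨_, e, ?_, .inl rfl⟩
      simp only [map_add, map_smul, aa, bb, ba]; linear_combination (norm := module) ii • b v
  obtain ⟨u, -, u0⟩ := exists_notMem_of_lt (U := (⊤ : Submodule F V)) (R := ⊥) (by simp [hV])
  obtain ⟨u, u0, hu, -⟩ := fl a b aa bb ba u u0
  obtain ⟨p, p0, hd, e⟩ := fl c d cc dd dc u u0
  have bc : ∀ v, b (c v) = -c (b v) := fun v => by rw [cb, neg_neg]
  have hb : b p = -i • a p := by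
    have bd : ∀ v, b (d v) = -d (b v) := fun v => by rw [db, neg_neg]
    rcases e with rfl | rfl <;> simp only [map_add, map_smul, map_neg, bc, bd, hu, ca, da] <;> module
  clear cb db e
  obtain ⟨v, hv⟩ : ∃ v : Fin 2 ⊕ Fin 2 → V, v = Sum.elim ![p, a p] ![a (c p), c p] := ⟨_, rfl⟩
  have li : LinearIndependent F v := Fintype.linearIndependent_iff.2 fun g r => by
    have i0 : i ≠ 0 := by rintro rfl; simp at ii
    have h4 : (4 : F) * i * i ≠ 0 := by
      rw [mul_assoc, ii]; exact fun e => mul_ne_zero h2 h2 (by linear_combination -e)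
    simp only [hv, Fintype.sum_sum_type, Fin.sum_univ_two, Sum.elim_inl, Sum.elim_inr, Matrix.cons_val_zero,
      Matrix.cons_val_one] at r
    have r1 := congrArg (fun v => a (b v)) r
    have r2 := congrArg (fun v => c (d v)) r
    have r3 := congrArg (fun v => c (d v)) r1
    simp only [map_add, map_smul, map_neg, map_zero, aa, cc, ba, bc, ca, da, dc, hb, hd] at r1 r2 r3
    have n1 : a p ≠ 0 := fun z => p0 (by rw [← aa p, z, map_zero])
    have n2 : c p ≠ 0 := fun z => p0 (by rw [← cc p, z, map_zero])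
    have n3 : a (c p) ≠ 0 := fun z => n2 (by rw [← aa (c p), z, map_zero])
    have k : ∀ (t : F) (x : V), x ≠ 0 → (4 * i * i * t) • x = 0 → t = 0 := fun t x x0 e =>
      (mul_eq_zero.1 ((smul_eq_zero.1 e).resolve_right x0)).resolve_left h4
    refine Sum.forall.2 ⟨Fin.forall_fin_two.2 ⟨?_, ?_⟩, Fin.forall_fin_two.2 ⟨?_, ?_⟩⟩
    · exact k _ p p0 (by linear_combination (norm := module) (i * i) • r - i • r1 - i • r2 + r3)
    · exact k _ _ n1 (by linear_combination (norm := module) (i * i) • r + i • r1 - i • r2 - r3)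
    · exact k _ _ n3 (by linear_combination (norm := module) (i * i) • r + i • r1 + i • r2 + r3)
    · exact k _ _ n2 (by linear_combination (norm := module) (i * i) • r - i • r1 + i • r2 - r3)
  let B := basisOfLinearIndependentOfCardEqFinrank li (by simp [hV])
  have eb : ∀ j, B.equivFun (v j) = Pi.single j 1 := fun j => by
    rw [show v j = B j by simp [B]]; ext k; simp [Pi.single_apply, Finsupp.single_apply, eq_comm]
  have e0 : B.equivFun p = Pi.single (.inl 0) 1 := (congrArg _ (by rw [hv]; rfl)).trans (eb (.inl 0))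
  have e1 : B.equivFun (a p) = Pi.single (.inl 1) 1 := (congrArg _ (by rw [hv]; rfl)).trans (eb (.inl 1))
  have e2 : B.equivFun (a (c p)) = Pi.single (.inr 0) 1 := (congrArg _ (by rw [hv]; rfl)).trans (eb (.inr 0))
  have e3 : B.equivFun (c p) = Pi.single (.inr 1) 1 := (congrArg _ (by rw [hv]; rfl)).trans (eb (.inr 1))
  refine ⟨B.equivFun, fun x hx u w => ?_⟩
  have hB : ∀ j, B j = v j := fun j => by simp [B]
  have : (((sympFormed 2 F).comap B.equivFun.toLinearMap).B).comp x =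
      (((sympFormed 2 F).comap B.equivFun.toLinearMap).B).compl₂ x := LinearMap.ext_basis B B fun j k => by
      generalize B.equivFun = E at *
      simp only [List.mem_cons, List.not_mem_nil, or_false] at hx
      rcases hx with rfl | rfl | rfl | rfl <;> rcases j with j | j <;> fin_cases j <;> rcases k with k | k <;> fin_cases k <;>
        simp [hB, hv, aa, cc, ba, bc, ca, da, dc, hb, hd, e0, e1, e2, e3, sympForm_apply]
  simpa using LinearMap.congr_fun₂ this u w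

variable {W : Type*} [AddCommGroup W] [Module F W] {Q : QuadraticForm F W}

omit [FiniteDimensional F V] in
theorem Spin.comap {V' : Type*} [AddCommGroup V'] [Module F V'] {Φ : Formed (RingHom.id F) V'} {ω : W →ₗ[F] End F V'}
    (h : Spin Φ Q ω) (E : V ≃ₗ[F] V') : Spin (Φ.comap E.toLinearMap) Q (E.symm.conj.toLinearMap ∘ₗ ω) :=
  ⟨⟨h.sp.σ, h.sp.τ, h.sp.ε⟩, h.hn.comap_equiv E, h.two, E.finrank_eq.trans h.d4, h.hQ, h.d5,
    fun w v => by simp [LinearEquiv.conj_apply, h.sq], fun w u v => by simp [LinearEquiv.conj_apply, h.adj],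
    fun w => by simp [LinearMap.trace_conj', h.tr], fun a ha ht => by
      obtain ⟨w, e⟩ := h.surj (E.conj a) (fun u v => by simpa [LinearEquiv.conj_apply] using ha (E.symm u) (E.symm v))
        (by rwa [LinearMap.trace_conj'])
      exact ⟨w, LinearMap.ext fun v => by simp [e, LinearEquiv.conj_apply]⟩⟩

theorem Spin.max_xs6 [Finite F] {Φ : Formed (RingHom.id F) V} {ω : W →ₗ[F] End F V} {H : Subgroup (V ≃ₗ[F] V)}
    [FiniteDimensional F W] (h : Spin Φ Q ω) {B : Basis (Fin 4) F V}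
    (hB : ∀ c w, pf4 (fun u v => Φ.B (c • u + ω w u) v) B = Q w - c * c) (hp : ∀ c : F, ∃ n : ℕ, (n : F) = c)
    (hE : Φ.isom ≤ EG Φ) (h3 : (3 : F) ≠ 0) (hx : Xs R) {I : (End F V)ˣ} (hI : I ∈ R) {i : F} (ii : i * i = -1)
    (i2 : I.1 = i • 1) {a b c d : (End F V)ˣ} (ha : a ∈ R) (hb : b ∈ R) (hc : c ∈ R) (hd : d ∈ R) (G : Gam a.1 b.1 c.1 d.1)
    (sa : ∀ x ∈ [a.1, b.1, c.1, d.1], ∀ u v, Φ.B (x u) v = Φ.B u (x v))
    (hH : ∀ g, g ∈ H ↔ Nm R (g : V →ₗ[F] V)) : Geo.IsMaximalIn (SLg F V) (H ⊓ SLg F V) := by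
  obtain ⟨r, r4, m, s, an, ad⟩ : ∃ r : Fin 5 → (End F V)ˣ, r 4 = r 0 * r 1 * r 2 * r 3 ∧ (∀ i, r i ∈ R) ∧
      (∀ i, r i * r i = 1) ∧ (∀ i j, i ≠ j → r i * r j = -(r j * r i)) ∧
      ∀ i u v, Φ.B ((r i).1 u) v = Φ.B u ((r i).1 v) := by
    have := G.r
    refine ⟨![a, b, c, d, a * b * c * d], rfl, by
      simp [Fin.forall_fin_succ, ha, hb, hc, hd, mul_mem (mul_mem (mul_mem ha hb) hc) hd], fun i => Units.ext ?_,
      fun i j hij => Units.ext ?_, fun i u v => ?_⟩
    · fin_cases i <;> simp [mul_assoc, this]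
    · fin_cases i <;> fin_cases j <;> simp [mul_assoc, this] at hij ⊢
    simp only [List.forall_mem_cons] at sa
    fin_cases i
    exacts [sa.1 u v, sa.2.1 u v, sa.2.2.1 u v, sa.2.2.2.1 u v, by
      change Φ.B (a.1 (b.1 (c.1 (d.1 u)))) v = Φ.B u ((a.1 * b.1 * c.1 * d.1) v)
      rw [sa.1, sa.2.1, sa.2.2.1, sa.2.2.2.1, show a.1 * b.1 * c.1 * d.1 = d.1 * (c.1 * (b.1 * a.1)) by
        simp [mul_assoc, this]]; rfl]
  have s' : ∀ i v, (r i).1 ((r i).1 v) = v := fun i v => LinearMap.congr_fun (congrArg Units.val (s i)) v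
  have an' : ∀ i j, i ≠ j → ∀ v, (r i).1 ((r j).1 v) = -(r j).1 ((r i).1 v) := fun i j hij v =>
    LinearMap.congr_fun (congrArg Units.val (an i j hij)) v
  choose e he using fun i => h.surj (r i).1 (ad i) (by
    obtain ⟨j, hj⟩ := exists_ne i
    exact hx.trace_anti (y := r j) (congrArg Units.val (an j i hj)))
  have q : ∀ i, Q (e i) = 1 := fun i => h.scal fun v => by rw [← h.sq, he, s', one_smul]
  have o : ∀ i j, i ≠ j → polar Q (e i) (e j) = 0 := fun i j hij => h.scal fun v => by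
    have := h.anti (e i) (e j) v
    rw [he, he, an' i j hij] at this
    linear_combination (norm := module) -this
  refine h.max6 hB ii hp hE h3 q o (fun g H => (hH g).2 ⟨LinearMap.GeneralLinearGroup.ofLinearEquiv g, ?_, rfl⟩)
    fun g hg i j => ?_
  swap
  · obtain ⟨u, hu, e1⟩ := (hH g).1 hg
    have e2 : ∀ v, g (ω (e i) (g.symm v)) = (u * r i * u⁻¹).1 v := fun v => by
      obtain ⟨v, rfl⟩ := g.surjective v
      have : u⁻¹.1 (g v) = v := by rw [show g v = u.1 v by rw [e1]; rfl, ← End.mul_apply, Units.inv_mul, End.one_apply]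
      simp only [Units.val_mul, End.mul_apply, this, he, LinearEquiv.symm_apply_apply, e1, LinearEquiv.coe_coe]
    simp only [e2, he j]
    rcases hx.comm (hu _ (m i)) (m j) with e3 | e3
    · exact ⟨1, by simp, fun v => by rw [one_smul]; exact LinearMap.congr_fun (congrArg Units.val e3) v⟩
    · exact ⟨-1, by simp, fun v => by rw [neg_one_smul]; exact LinearMap.congr_fun (congrArg Units.val e3) v⟩
  generalize hu : LinearMap.GeneralLinearGroup.ofLinearEquiv g = u
  have ug : ∀ v, u.1 v = g v := fun v => by rw [← hu]; rfl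
  let S := R.comap (MulAut.conj u).toMonoidHom
  have m6 : ∀ n, ∃ x ∈ R, ∀ v, al i ω (E6 e n) v = x.1 v := fun n => by
    refine Fin.cases ⟨I, hI, fun v => ?_⟩ (fun n => ⟨r n, m n, fun v => ?_⟩) n <;> simp [E6, al_app, i2, he]
  have mS : ∀ i, r i ∈ S := fun j => by
    obtain ⟨k, n, ε, e1, e2⟩ := H j
    obtain ⟨x, x1, x2⟩ := m6 k
    obtain ⟨y, y1, y2⟩ := m6 n
    obtain ⟨z, z1, z2⟩ : ∃ z ∈ R, z.1 = (ε * i) • 1 := by
      rcases mul_self_eq_one_iff.1 e1 with rfl | rfl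
      exacts [⟨I, hI, by simp [i2]⟩, ⟨I * I * I, mul_mem (mul_mem hI hI) hI, by simp [i2, smul_smul, ← mul_assoc, ii]⟩]
    change u * r j * u⁻¹ ∈ R
    rw [← R.mul_mem_cancel_left x1, ← mul_assoc, show x * (u * r j) = z * y * u from Units.ext (LinearMap.ext fun v => by
      simpa [ug, he, x2, y2, z2] using e2 v), mul_inv_cancel_right]
    exact mul_mem z1 y1
  have st : ∀ x ∈ R, ∀ i, i ≠ 4 → ∃ y ∈ S ⊓ R, Commute (x * y) (r i) ∧ ∀ j, j ≠ i → j ≠ 4 → Commute y (r j) :=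
    fun x hx' i hi => by
      rcases hx.comm hx' (m i) with e1 | e1
      · exact ⟨1, one_mem _, by rw [mul_one]; exact e1, fun _ _ _ => Commute.one_left _⟩
      refine ⟨r i * r 4, mul_mem ⟨mS _, m _⟩ ⟨mS _, m _⟩, ?_, fun j h1 h2 => ?_⟩
      · change _ * _ = _ * _
        rw [mul_assoc, mul_assoc, an 4 i hi.symm, ← mul_assoc (r i) x, neg_eq_iff_eq_neg.2 e1 |>.symm]
        simp only [mul_neg, neg_mul, mul_assoc]
      · change _ * _ = _ * _
        rw [mul_assoc, an 4 j h2.symm, mul_neg, ← mul_assoc, an i j h1.symm, neg_mul, neg_neg, mul_assoc]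
  intro x hx'
  obtain ⟨y0, m0, c0, d0⟩ := st x hx' 0 (by decide)
  obtain ⟨y1, m1, c1, d1⟩ := st _ (mul_mem hx' m0.2) 1 (by decide)
  obtain ⟨y2, m2, c2, d2⟩ := st _ (mul_mem (mul_mem hx' m0.2) m1.2) 2 (by decide)
  obtain ⟨y3, m3, c3, d3⟩ := st _ (mul_mem (mul_mem (mul_mem hx' m0.2) m1.2) m2.2) 3 (by decide)
  have mz := mul_mem (mul_mem (mul_mem (mul_mem hx' m0.2) m1.2) m2.2) m3.2
  have z0 := ((c0.mul_left (d1 0 (by decide) (by decide))).mul_left (d2 0 (by decide) (by decide))).mul_left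
    (d3 0 (by decide) (by decide))
  have z1 := (c1.mul_left (d2 1 (by decide) (by decide))).mul_left (d3 1 (by decide) (by decide))
  have z2 := c2.mul_left (d3 2 (by decide) (by decide))
  have zi : ∀ i, Commute (x * y0 * y1 * y2 * y3) (r i) := fun i => by
    fin_cases i
    exacts [z0, z1, z2, c3, r4 ▸ ((z0.mul_right z1).mul_right z2).mul_right c3]
  obtain ⟨t, ht⟩ := h.cent (a := (x * y0 * y1 * y2 * y3).1) fun w v => by
    rw [sub_eq_zero.1 (on_zero h.hQ h.two (v := e) (by simp [q]) o (by simp [h.d5]) (on_proj h.two (by simp [q]) o w))]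
    simp only [map_sum, map_smul, LinearMap.sum_apply, LinearMap.smul_apply, he]
    exact Finset.sum_congr rfl fun i _ => congrArg _ (LinearMap.congr_fun (congrArg Units.val (zi i).eq) v)
  have mz' : x * y0 * y1 * y2 * y3 ∈ S := by
    change u * _ * u⁻¹ ∈ R
    rwa [show u * (x * y0 * y1 * y2 * y3) = x * y0 * y1 * y2 * y3 * u from Units.ext (LinearMap.ext fun v => by
      rw [Units.val_mul, Units.val_mul _ u, End.mul_apply, End.mul_apply, ht, ht, map_smul]), mul_inv_cancel_right]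
  rwa [S.mul_mem_cancel_right m3.1, S.mul_mem_cancel_right m2.1, S.mul_mem_cancel_right m1.1,
    S.mul_mem_cancel_right m0.1] at mz'

theorem pf_std (c : F) (w : Fin 5 → F) : pf4 (fun u v => (sympFormed 2 F).B (c • u + (Matrix.toLin'.toLinearMap ∘ₗ M5 F) w u) v)
    ((Pi.basisFun F (Fin 2 ⊕ Fin 2)).reindex finSumFinEquiv) = Q5 F w - c * c := by
  have e0 : (finSumFinEquiv (m := 2) (n := 2)).symm 0 = .inl 0 := rfl
  have e1 : (finSumFinEquiv (m := 2) (n := 2)).symm 1 = .inl 1 := rfl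
  have e2 : (finSumFinEquiv (m := 2) (n := 2)).symm 2 = .inr 0 := rfl
  have e3 : (finSumFinEquiv (m := 2) (n := 2)).symm 3 = .inr 1 := rfl
  simp only [pf4, Basis.reindex_apply, e0, e1, e2, e3]
  simp [M5, Q5, sympForm_apply]; ring

theorem slXs4 [Fintype F] (p : ℕ) (R : Subgroup (GL (Fin 4) F)) (hp : p.Prime) (hF : Fintype.card F = p) (h4 : p % 4 = 1)
    (hR : Geo.IsLinearSymplecticTypeData 2 R) :
    Geo.IsMaximalIn (Geo.specialLinear (Fin 4) F) (Geo.subgroupNormalizer R ⊓ Geo.specialLinear (Fin 4) F) := by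
  have : Fact p.Prime := ⟨hp⟩
  have : CharP F p := charP_of_card_eq_prime hF
  have h2 : (2 : F) ≠ 0 := cast_two_ne (p := p) (by omega)
  have h3 : ((3 : ℕ) : F) ≠ 0 := cast_ne_zero_of_ne (p := p) (by omega)
  have hZ : Nat.card (Subgroup.center R) = 4 := by
    obtain ⟨_, _, -, -, h | h | h⟩ := hR.field
    · exact absurd h.1 (by decide)
    · exact h.2.2.1
    · simpa using h.2.2.1
  have H := xs_of hR.symplecticType hR.absIrred h2
  obtain ⟨I, hI, i, ii, i2⟩ := exists_I H (card_center_tl.trans hZ)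
  obtain ⟨a, ha, b, hb, c, hc, d, hd, G⟩ := exists_gam4 H (by simp) hI ii i2
  obtain ⟨E, hE⟩ := gam_basis (by simp) h2 ii G
  refine isMaximalIn_inf (glEquiv _ F) (H' := (Geo.subgroupNormalizer R).map (glEquiv _ F).toMonoidHom)
    (((spin_std h2).comap E).max_xs6 (B := ((Pi.basisFun F (Fin 2 ⊕ Fin 2)).reindex finSumFinEquiv).map E.symm)
      (fun c w => (pf_std c w).symm ▸ by simp [pf4, LinearEquiv.conj_apply]) (fun c => ?_)
      (fun g hg => (mem_EG_comap E).2 ((EG_symp 2).ge (mem_isom_comap E hg))) (by simpa using h3) H hI ii i2 ha hb hc hd G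
      (by simpa using hE) fun g => ?_)
    (fun g => mem_specialLinear) fun g => (Subgroup.mem_map_iff_mem (glEquiv _ F).injective).symm
  · have : Fact (Nat.card F).Prime := ⟨by rwa [Nat.card_eq_fintype_card, hF]⟩
    obtain ⟨n, hn⟩ := mem_powers_of_prime_card (G := Multiplicative F) (p := Nat.card F) rfl
      (g := Multiplicative.ofAdd 1) (g' := Multiplicative.ofAdd c) (by simp)
    exact ⟨n, by simpa [← ofAdd_nsmul] using hn⟩
  · rw [← inG_nm]
    exact exists_congr fun k => and_congr_right fun _ => by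
      rw [← coe_glEquiv]; exact LinearEquiv.toLinearMap_injective.eq_iff.symm

end Cfsg.Agent.Root.Mx
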