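import Cfsg.Agent.Root.SLr
import Cfsg.Agent.Low.GU5

/-! Geometric maximal subgroups of `SL_n(q)` in small dimension: monomial groups for `n ≥ 6` (`slDec6`) and
similarity groups of forms for `n ≥ 5` (`slSp5`, `slU5`, `slQuad5`). -/

set_option autoImplicit false

namespace Cfsg.Agent.Root.Mx

open Cfsg.Agent.Geom Cfsg.Agent.AutCl Module

section Mon
variable {F : Type*} [Field F] {ι : Type} [Fintype ι] [DecidableEq ι] {X : Subgroup ((ι → F) ≃ₗ[F] (ι → F))}

local notation "e" i:max => (Pi.single i (1 : F) : ι → F)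
local notation "ε" i:max => (LinearMap.proj i : Dual F (ι → F))

theorem out3x3' (h : 6 ≤ Fintype.card ι) (a b c : ι) : ∃ x y z, x ≠ y ∧ x ≠ z ∧ y ≠ z ∧ ∀ m, m = x ∨ m = y ∨ m = z →
    m ≠ a ∧ m ≠ b ∧ m ≠ c := by
  obtain ⟨x, hx⟩ := exists_out_list [a, b, c] (by simp; omega)
  obtain ⟨y, hy⟩ := exists_out_list [x, a, b, c] (by simp; omega)
  obtain ⟨z, hz⟩ := exists_out_list [x, y, a, b, c] (by simp; omega)
  simp only [List.mem_cons, List.not_mem_nil, or_false, not_or] at hx hy hz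
  exact ⟨x, y, z, Ne.symm hy.1, Ne.symm hz.1, Ne.symm hz.2.1, by rintro m (rfl | rfl | rfl) <;> tauto⟩

namespace MX
variable {c : (ι → F) ≃ₗ[F] (ι → F)}

theorem two0 (h : MX X) (h5 : 5 ≤ Fintype.card ι) (hE : ¬ ET X) (hc : c ∈ X) {k j l : ι} (b1 : j ≠ l)
    (hz : c (e k) j = 0) (b3 : c (e k) l = 0) : MonL c := by
  obtain ⟨k', hk⟩ := exists_e_ne (ψ := (ε j) ∘ₗ c.toLinearMap) fun h0 => by
    simpa using LinearMap.congr_fun h0 (c.symm (e j))
  replace hk : c (e k') j ≠ 0 := hk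
  by_cases hr : ∀ r ≠ j, r ≠ l → c (e k') r = 0
  · obtain ⟨x, hx⟩ := exists_out_list [j, l] (by simp; omega)
    obtain ⟨y, hy⟩ := exists_out_list [j, l, x] (by simp; omega)
    obtain ⟨z, hz⟩ := exists_out_list [j, l, x, y] (by simp; omega)
    simp only [List.mem_cons, List.not_mem_nil, or_false, not_or] at hx hy hz
    exact h.three h5 hE hc (k := k') (Ne.symm hy.2.2) (Ne.symm hz.2.2.1) (Ne.symm hz.2.2.2) (by
      rintro _ (rfl | rfl | rfl) <;> exact hr _ (by tauto) (by tauto))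
  push Not at hr
  obtain ⟨r, r1, b2, r2⟩ := hr
  exfalso
  have key : ∀ η : F, η ≠ 0 → η ≠ 1 → η + η * (η - 1) * (c (e k') j * c.symm (e j) k') +
      (1 - η) * (c (e k') l * c.symm (e l) k') = 0 := fun η h0 h1 => by
    obtain ⟨d, hd, -, e1⟩ := h.cj (inv_mem hc) b1 h0
    simp only [LinearEquiv.coe_inv, LinearEquiv.coe_inv, LinearEquiv.symm_symm, show c⁻¹ = c.symm from rfl] at e1
    obtain ⟨s, hs⟩ := h.par0 h5 hE hd (o := k) (fun x hx => by simp [e1, hz, b3, hx]) k'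
    have : d (e k') k' = 0 := hs _ fun e2 => by
      subst e2
      have e3 := congrArg c (eq_smul_e hs)
      generalize d (e k') k' = μ at e3
      simp only [e1, map_add, map_smul, LinearEquiv.apply_symm_apply] at e3
      have e4 := congrFun e3 r
      have e5 := congrFun e3 j
      simp [r1, b2, b1] at e4 e5
      exact h1 (mul_right_cancel₀ (mul_ne_zero hk r2) (by linear_combination c (e k') r * e5 - c (e k') j * e4))
    simp [e1] at this
    field_simp at this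
    linear_combination this
  obtain ⟨x, hx⟩ := h.five [0, 1] (by simp)
  obtain ⟨y, hy⟩ := h.five [0, 1, x] (by simp)
  obtain ⟨z, hz⟩ := h.five [0, 1, x, y] (by simp)
  simp only [List.mem_cons, List.not_mem_nil, or_false, not_or] at hx hy hz
  have e1 := key x hx.1 hx.2
  have e2 := key y hy.1 hy.2.1
  have e3 := key z hz.1 hz.2.1
  generalize c (e k') j * c.symm (e j) k' = A at *
  generalize c (e k') l * c.symm (e l) k' = B at *
  have f1 : 1 + (x + y - 1) * A - B = 0 := mul_left_cancel₀ (sub_ne_zero.2 hy.2.2) (by linear_combination e2 - e1)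
  have f2 : 1 + (x + z - 1) * A - B = 0 := mul_left_cancel₀ (sub_ne_zero.2 hz.2.2.1) (by linear_combination e3 - e1)
  have f3 : A = 0 := mul_left_cancel₀ (sub_ne_zero.2 hz.2.2.2) (by linear_combination f2 - f1)
  exact one_ne_zero (α := F) (by linear_combination e1 + (1 - x) * f1 - (x * (x - 1) + (1 - x) * (x + y - 1)) * f3)

theorem zero6 (h : MX X) (h7 : 6 ≤ Fintype.card ι) (hE : ¬ ET X) (hc : c ∈ X) (hR : R2 c) {k l : ι}
    (hz : c (e k) l = 0) : MonL c := by
  refine by_contra fun hM => ?_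
  obtain ⟨l', hl⟩ : ∃ l', ∀ x, x ≠ l → x ≠ l' → c (e k) x ≠ 0 := by
    by_cases hc' : ∃ l' ≠ l, c (e k) l' = 0
    · obtain ⟨l', a, b⟩ := hc'
      exact ⟨l', fun x x1 x2 x3 => hM (h.three (by omega) hE hc (k := k) x1 x2 a.symm (by
        rintro _ (rfl | rfl | rfl) <;> assumption))⟩
    · exact ⟨l, fun x a _ b => hc' ⟨x, a, b⟩⟩
  obtain ⟨x, y, z, a1, a2, a3, a4⟩ := out3x3' h7 k l l'
  obtain ⟨α, β, hR⟩ := hR
  obtain ⟨u, hu, u0⟩ := (Submodule.ne_bot_iff _).1 (LinearMap.ker_ne_bot_of_finrank_lt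
    (f := α.prod β ∘ₗ Fintype.linearCombination F ![e x, e y, e z]) (by simp))
  simp [Fintype.linearCombination_apply, Fin.sum_univ_three] at hu
  have fu := hR (u 0 • e x + u 1 • e y + u 2 • e z) (by simpa using hu.1) (by simpa using hu.2)
  obtain ⟨τ, hτ⟩ := h.five [0, -c (e k) x / u 0, -c (e k) y / u 1, -c (e k) z / u 2] (by simp)
  simp only [List.mem_cons, List.not_mem_nil, or_false, not_or] at hτ
  have st : ∀ m s, m = x ∨ m = y ∨ m = z → τ ≠ -c (e k) m / s → ∃ t ∈ X, ∀ v : ι → F, v l = 0 → v m = c (e k) m →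
      t v = v + (τ * s) • e m := fun m s hm hs => by
    obtain ⟨-, b1, b2⟩ := a4 m hm
    have b3 := hl m b1 b2
    obtain ⟨t, ht, e1⟩ := h.d2 b1 (θ := 1 + τ * s / c (e k) m) fun e1 => by
      by_cases s0 : s = 0
      · simp [s0] at e1
      · exact hs (by field_simp at e1 ⊢; linear_combination e1)
    exact ⟨t, ht, fun v v1 v2 => by simp [e1, v1, v2, b3]⟩
  obtain ⟨t1, ht1, e1⟩ := st x _ (by simp) hτ.2.1
  obtain ⟨t2, ht2, e2⟩ := st y _ (by simp) hτ.2.2.1
  obtain ⟨t3, ht3, e3⟩ := st z _ (by simp) hτ.2.2.2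
  have bx := a4 x (by simp)
  have by' := a4 y (by simp)
  have bz := a4 z (by simp)
  have e4 : (c⁻¹ * t3 * t2 * t1 * c) (e k) = e k + τ • (u 0 • e x + u 1 • e y + u 2 • e z) := by
    change c.symm (t3 (t2 (t1 (c _)))) = _
    rw [e1 _ hz rfl, e2 _ (by simp [hz, bx.2.1.symm]) (by simp [a1.symm]), e3 _ (by
      simp [hz, bx.2.1.symm, by'.2.1.symm]) (by simp [a2.symm, a3.symm]), c.symm_apply_eq, map_add, map_smul, fu]
    module
  obtain ⟨x', hx'⟩ := exists_out_list [k, x, y, z] (by simp; omega)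
  obtain ⟨y', hy'⟩ := exists_out_list [x', k, x, y, z] (by simp; omega)
  simp only [List.mem_cons, List.not_mem_nil, or_false, not_or] at hx' hy'
  obtain ⟨i, hi⟩ := h.two0 (by omega) hE (mul_mem (mul_mem (mul_mem (mul_mem (inv_mem hc) ht3) ht2) ht1) hc)
    (k := k) hy'.1 (by simp only [e4]; simp [hy']) (by simp only [e4]; simp [hx']) k
  simp only [e4] at hi
  obtain rfl : k = i := by_contra fun hk => by simpa [bx.1.symm, by'.1.symm, bz.1.symm] using hi k hk
  have f1 := hi x bx.1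
  have f2 := hi y by'.1
  have f3 := hi z bz.1
  simp [bx.1, by'.1, bz.1, a1, a2, a3, a1.symm, a2.symm, a3.symm, hτ.1] at f1 f2 f3
  exact u0 (funext fun a => by fin_cases a <;> simp [*])

theorem mon_R6 (h : MX X) (h7 : 6 ≤ Fintype.card ι) (hE : ¬ ET X) (hc : c ∈ X) (hR : R2 c) : MonL c := by
  refine by_contra fun hM => ?_
  have n1 : ∀ k l, c (e k) l ≠ 0 := fun k l hz => hM (h.zero6 h7 hE hc hR hz)
  have n2 : ∀ k l, c.symm (e k) l ≠ 0 := fun k l hz => hM (h.par_inv (by omega) hE hc (h.zero6 h7 hE (inv_mem hc)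
    (hR.imp fun α => Exists.imp fun β H v a b => c.symm_apply_eq.2 (H v a b).symm) hz))
  obtain ⟨i, j, hij⟩ := Fintype.exists_pair_of_one_lt_card (α := ι) (by omega)
  obtain ⟨η, h0, H⟩ : ∃ η : F, η ≠ 0 ∧ ∀ k, ∃ s, ∀ m ≠ s, m ≠ k →
      η * (c.symm (e k) i * c (e i) m) = c.symm (e k) j * c (e j) m := by
    by_cases hc' : ∀ k m, m ≠ k → c.symm (e k) i * c (e i) m = c.symm (e k) j * c (e j) m
    · exact ⟨1, one_ne_zero, fun k => ⟨k, fun m _ hm => by rw [one_mul, hc' k m hm]⟩⟩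
    push Not at hc'
    obtain ⟨k, m, a1, a2⟩ := hc'
    have h0 : c.symm (e k) j * c (e j) m / (c.symm (e k) i * c (e i) m) ≠ 0 := by simp [n1, n2]
    obtain ⟨d, hd, hR', e1⟩ := h.cjM hc hij h0 fun e1 => a2 (eq_of_div_eq_one e1).symm
    have M := h.zero6 h7 hE hd hR' ((e1 k m a1).2 (div_mul_cancel₀ _ (by simp [n1, n2])))
    exact ⟨_, h0, fun k => (M k).imp fun s hs m a b => (e1 k m b).1 (hs m a)⟩
  refine n2 i j ?_
  have : c.symm (e i) j • ((ε i) ∘ₗ c.symm.toLinearMap) - c.symm (e i) i • ((ε j) ∘ₗ c.symm.toLinearMap) = 0 :=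
    by_contra fun h1 => by
      obtain ⟨k, hk⟩ := exists_e_ne h1
      obtain ⟨s, hs⟩ := H k
      obtain ⟨s', hs'⟩ := H i
      obtain ⟨m, m1, m2, m3, m4⟩ := out4 (by omega) s k s' i
      refine hk (mul_left_cancel₀ (mul_ne_zero h0 (n1 i m)) ?_)
      simp only [LinearMap.sub_apply, LinearMap.smul_apply, LinearMap.comp_apply, LinearEquiv.coe_coe,
        LinearMap.proj_apply, smul_eq_mul]
      linear_combination c.symm (e i) j * hs m m1 m2 - c.symm (e k) j * hs' m m3 m4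
  simpa [hij.symm] using LinearMap.congr_fun this (c (e i))

theorem mon_or6 (h : MX X) (h7 : 6 ≤ Fintype.card ι) : SLg F (ι → F) ≤ X ∨ ∀ c ∈ X, MonL c := by
  refine or_iff_not_imp_left.2 fun hS c hc => ?_
  have hE := mt h.SLg_le hS
  obtain ⟨i, j, hij⟩ := Fintype.exists_pair_of_one_lt_card (α := ι) (by omega)
  obtain ⟨k, hk⟩ := exists_e_ne (ψ := (ε i) ∘ₗ c.symm.toLinearMap) fun h0 => by
    simpa using LinearMap.congr_fun h0 (c (e i))
  replace hk : c.symm (e k) i ≠ 0 := hk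
  obtain ⟨x, hx⟩ := h.five [0, 1] (by simp)
  obtain ⟨y, hy⟩ := h.five [0, 1, x] (by simp)
  simp only [List.mem_cons, List.not_mem_nil, or_false, not_or] at hx hy
  obtain ⟨d, hd, hR, e1⟩ := h.cjM hc hij hx.1 hx.2
  obtain ⟨d', hd', hR', e2⟩ := h.cjM hc hij hy.1 hy.2.1
  obtain ⟨s, hs⟩ := h.mon_R6 h7 hE hd hR k
  obtain ⟨s', hs'⟩ := h.mon_R6 h7 hE hd' hR' k
  obtain ⟨x', y', z', c1, c2, c3, c4⟩ := out3x3' h7 k s s'
  refine h.three (by omega) hE hc (k := i) c1 c2 c3 fun m hm => ?_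
  obtain ⟨a1, a2, a3⟩ := c4 m hm
  exact mul_left_cancel₀ (mul_ne_zero (sub_ne_zero.2 hy.2.2) hk)
    (by linear_combination (e2 k m a1).1 (hs' m a3) - (e1 k m a1).1 (hs m a2))

end MX
end Mon

section Imp
variable {F : Type*} [Field F] {V : Type*} [AddCommGroup V] [Module F V] {t : ℕ} {D : Fin t → Submodule F V}
  {X : Subgroup (V ≃ₗ[F] V)} {π : Fin t → End F V} [FiniteDimensional F V]

theorem IX.one6 [Fintype F] (h : IX 1 D π X) (h7 : 6 ≤ t) (h5 : 5 ≤ Fintype.card F) {g : V ≃ₗ[F] V} (hg : g ∈ X)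
    (hg' : g ∉ dstab D) : SLg F V ≤ X := by
  classical
  choose b hb b0 using h.exists_ne
  choose c c1 c2 c3 using fun i => h.exists_in (hb i) (S := ⊥) (b0 i)
  have sp : ∀ i, ∀ x ∈ D i, x = c i x • b i := fun i x hx => by
    obtain ⟨a, ha⟩ := (finrank_eq_one_iff_of_nonzero' (⟨b i, hb i⟩ : D i) (by simpa using b0 i)).1 (h.rk i) ⟨x, hx⟩
    obtain rfl : a • b i = x := congrArg Subtype.val ha
    simp [c2]
  have c4 : ∀ i j, c i (b j) = if j = i then 1 else 0 := fun i j => by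
    split_ifs with a
    exacts [a ▸ c2 j, c1 i j a _ (hb j)]
  let E : (Fin t → F) ≃ₗ[F] V := LinearEquiv.ofLinearMap (Fintype.linearCombination F b) (LinearMap.pi c)
    (LinearMap.ext fun v => by
      simp only [LinearMap.comp_apply, Fintype.linearCombination_apply, LinearMap.pi_apply, LinearMap.id_apply]
      conv_rhs => rw [← h.sum v]
      exact Finset.sum_congr rfl fun i _ => by rw [← h.apply (c1 i), ← sp i _ (h.mem i v)])
    (LinearMap.ext fun v => funext fun i => by simp [Fintype.linearCombination_apply, c4])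
  have E1 : ∀ i, E (Pi.single i 1) = b i := fun i => by simp [E]
  have E2 : ∀ i, E.symm (b i) = Pi.single i 1 := fun i => E.symm_apply_eq.2 (E1 i).symm
  have E3 : ∀ v i, c i (E v) = v i := fun v i => congrFun (E.symm_apply_apply v) i
  have av : ∀ n, n < Fintype.card F → ∀ l : List F, l.length ≤ n → ∃ x, x ∉ l := fun n hn l hl =>
    exists_out_list l (by omega)
  have M : MX (X.comap (autCongr E).toMonoidHom) := by
    refine ⟨fun {i j} hij θ h0 => ?_, fun {i j} hij => ?_, av 4 h5, ?_, by simp; omega⟩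
    · obtain ⟨s, hs, e1⟩ := h.bh hij (hb i) (c1 i) (c2 i) (hb j) (c1 j) (c2 j) h0
      exact ⟨(autCongr E).symm s, by simpa using hs, fun v => by simp [e1, E2, E3]⟩
    · let f : D i ≃ₗ[F] D j := LinearEquiv.ofLinearMap ((c i ∘ₗ (D i).subtype).smulRight ⟨b j, hb j⟩)
        ((c j ∘ₗ (D j).subtype).smulRight ⟨b i, hb i⟩) (by ext x; simp [c2, ← sp j x x.2])
        (by ext x; simp [c2, ← sp i x x.2])
      obtain ⟨s, hs, e1, e2, e3⟩ := h.sw0 hij f
      refine ⟨(autCongr E).symm s, by simpa using hs, fun v => ?_⟩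
      have : ∀ l, E.symm (s (E (Pi.single l 1))) = Pi.single l 1 + (Pi.single l 1 : Fin t → F) i •
          ((Pi.single j 1 : Fin t → F) - Pi.single i 1) - (Pi.single l 1 : Fin t → F) j •
          ((Pi.single i 1 : Fin t → F) + Pi.single j 1) := fun l => by
        rw [E1]
        by_cases a1 : l = i
        · rw [a1, e1 ⟨_, hb i⟩]; simp [f, c2, E2, hij.symm]
        by_cases a2 : l = j
        · rw [a2, e2 ⟨_, hb j⟩]; simp [f, c2, E2, hij]
        · simp [e3 l a1 a2 _ (hb l), E2, Ne.symm a1, Ne.symm a2]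
      conv_lhs => rw [← sum_e v]; simp only [autCongr_symm_apply, map_sum, map_smul, this]
      simp only [smul_add, smul_sub, Finset.sum_add_distrib, Finset.sum_sub_distrib, sum_e, smul_smul,
        ← Finset.sum_smul]
      simp [Pi.single_apply]
    · by_cases e5 : Fintype.card F = 5
      · exact .inl (by simpa [e5] using FiniteField.cast_card_eq_zero F)
      refine .inr (av 6 ?_)
      have : Fintype.card F ≠ 6 := fun e6 => absurd (e6 ▸ Fintype.isPrimePow_card_of_field (α := F)) (by decide)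
      omega
  rcases M.mon_or6 (by simpa) with H | H
  · exact fun s hs => by
      simpa using H (x := (autCongr E).symm s) (by
        rwa [SLg, MonoidHom.mem_ker, ← det_autCongr E, MulEquiv.apply_symm_apply])
  · refine absurd (h.mem_dstab fun i => ?_) hg'
    obtain ⟨j, hj⟩ := H ((autCongr E).symm g) (by simpa) i
    refine ⟨j, fun x hx => ?_⟩
    have := congrArg E (eq_smul_e hj)
    simp only [autCongr_symm_apply, LinearEquiv.apply_symm_apply, map_smul, E1] at this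
    rw [sp i x hx, map_smul, this]
    exact (D j).smul_mem _ ((D j).smul_mem _ (hb j))

theorem isMaximalIn_dstab_SL6 [Fintype F] {ι : Type} [Fintype ι] [DecidableEq ι] {D : Fin t → Submodule F (ι → F)}
    (h : Dec 1 D) (h1 : 6 ≤ t) (h2 : 5 ≤ Fintype.card F) :
    Geo.IsMaximalIn (SLg F (ι → F)) (dstab D ⊓ SLg F (ι → F)) := by
  classical
  obtain ⟨π, P⟩ := h.exists_prj
  have := h.two_le
  refine max_crit inf_le_right ?_ fun X a1 a2 g hg hg' => ?_
  · let i : Fin t := ⟨0, by omega⟩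
    let j : Fin t := ⟨1, by omega⟩
    have ij : i ≠ j := by simp [i, j]
    obtain ⟨w, hw, w0⟩ := h.exists_ne i
    obtain ⟨y, hy, y0⟩ := h.exists_ne j
    obtain ⟨χ, b1, b2, -⟩ := P.exists_in hw (S := ⊥) w0
    refine ⟨_, tv_mem_SLg (b1 j ij.symm y hy), fun H => ?_⟩
    obtain ⟨l, hl⟩ := exists_of_dstab H.1 i
    have := hl w hw
    rw [LinearEquiv.transvection.apply, b2, one_smul] at this
    by_cases b3 : l = i
    · exact y0 (h.eq_zero ij ((add_mem_cancel_left hw).1 (b3 ▸ this)) hy)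
    · exact w0 (by simpa [P.self hw, P.ne hy ij] using P.ne this (Ne.symm b3))
  have H : IX 1 D π X := ⟨P, a1⟩
  replace hg' : g ∉ dstab D := fun e => hg' ⟨e, a2 hg⟩
  exact H.one6 h1 h2 hg hg'

end Imp

section Sim
variable {F : Type*} [Field F] {σ : F →+* F} {V : Type*} [AddCommGroup V] [Module F V] {Φ : Formed σ V}
  [Finite F] [FiniteDimensional F V]

theorem sim_or_centres5 (hn : Φ.Nondeg) (h5 : 5 ≤ finrank F V) (hQ : ∀ x, Φ.B x x = 0 → Φ.Q x = 0)
    (hcs : ∀ g : V ≃ₗ[F] V, ∃ x, x ≠ 0 ∧ Φ.Sing x ∧ Φ.Sing (g x)) {X : Subgroup (V ≃ₗ[F] V)}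
    (hX : EG Φ ≤ X) {g : V ≃ₗ[F] V} (hg : g ∈ X) :
    (∀ p, p ∈ centres X) ∨ ∃ c, ∀ u v, Φ.B (g u) (g v) = c * Φ.B u v := by
  refine or_iff_not_imp_left.2 fun hc => ?_
  choose f hf using fun u => hn.exists_eq_B (Φ.B (g u) ∘ₗ (g : V →ₗ[F] V))
  have hf : ∀ u t, Φ.B (f u) t = Φ.B (g u) (g t) := fun u t => by simp [hf]
  have cj : ∀ x b, Φ.Sing (g x) → Φ.B (f x) b = 0 → ∃ d, ∃ t ∈ X, ∀ v,
      t v = v + (Φ.B (f b) v - d * Φ.B (f x) v) • x - (Φ.ε * Φ.B (f x) v) • b := fun x b hx hb => by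
    obtain ⟨d, s, hs⟩ := exists_isE' hn hx (a := g b) (by rwa [← hf])
    exact ⟨d, g⁻¹ * s * g, mul_mem (mul_mem (inv_mem hg) (hX (IsE_mem_EG hs))) hg, fun v => by
      simp [hs.app, hf]⟩
  have s1 : ∀ x, x ≠ 0 → Φ.Sing x → Φ.Sing (g x) → f x ∈ F ∙ x := fun x hx0 hx hx' => by
    by_contra hy
    obtain ⟨w, hw, a, ha, e⟩ := exists_B_one hn (W := ⊤ ⊓ pf Φ ![x, f x]) (by
      have := finrank_pf (Φ := Φ) ![x, f x] ⊤; rw [finrank_top] at *; omega)
    have w1 : Φ.B x w = 0 := mem_pf.1 hw.2 0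
    have w2 : Φ.B (f x) w = 0 := mem_pf.1 hw.2 1
    have a1 : Φ.B x a = 0 := mem_pf.1 ha.2 0
    have a2 : Φ.B (f x) a = 0 := mem_pf.1 ha.2 1
    have yx : Φ.B (f x) x = 0 := by rw [hf, hx'.2]
    have ax : Φ.B (f a) x = 0 := by rw [hf]; exact Φ.B_eq_zero_symm (by rwa [← hf])
    obtain ⟨d, s, hs⟩ := exists_isE' hn hx w1
    obtain ⟨d', t, ht, e1⟩ := cj x a hx' a2
    have sX := hX (IsE_mem_EG hs)
    refine hc (centres_of_tv hn h5 hX hx0 hx (w := σ (Φ.ε * Φ.B (f a) w) • x - Φ.ε • f x)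
      (by simp [hx.2, Φ.B_eq_zero_symm yx]) (fun hm => hy ?_) (.of_apply (g := s * t * s⁻¹ * t⁻¹)
        (mul_mem (mul_mem (mul_mem sX ht) (inv_mem sX)) (inv_mem ht)) fun v => ?_))
    · rw [← (F ∙ x).smul_mem_iff Φ.ε_ne_zero]
      have := sub_mem (Submodule.smul_mem _ (σ (Φ.ε * Φ.B (f a) w)) (Submodule.mem_span_singleton_self x)) hm
      rwa [sub_sub_cancel] at this
    · obtain ⟨v, rfl⟩ := (s.trans t).surjective v
      simp only [LinearEquiv.trans_apply, LinearEquiv.mul_apply, LinearEquiv.coe_inv, LinearEquiv.symm_apply_apply]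
      simp only [LinearMap.smulRight_apply, Φ.B_sub_left, Φ.B_smul_left, Φ.σσ, Φ.σε]
      simp only [e1, hs.app, map_add, map_sub, map_smul, smul_eq_mul, hx.2, w1, w2, a1, a2, yx, ax, e, hs.ap]
      module
  have s2 : ∀ x, x ≠ 0 → Φ.Sing x → Φ.Sing (g x) → ∀ b, Φ.Sing b → Φ.B x b = 0 → Φ.Sing (g b) :=
    fun x hx0 hx hx' b hb e => by
      obtain ⟨l, hl⟩ := Submodule.mem_span_singleton.1 (s1 x hx0 hx hx')
      obtain ⟨d', t, ht, e1⟩ := cj x b hx' (by simp [← hl, e])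
      obtain ⟨d, s, hs⟩ := exists_isE' hn hx (a := σ l • b) (by simp [e])
      have sX := hX (IsE_mem_EG hs)
      have bx : Φ.B (f b) x = 0 := by rw [hf]; exact Φ.B_eq_zero_symm (by rw [← hf, ← hl]; simp [e])
      have hm : f b - σ l • b + σ (d - d' * σ l + Φ.ε * σ l * Φ.B (f b) b) • x ∈ F ∙ x := by
        by_contra hm
        refine hc (centres_of_tv hn h5 hX hx0 hx (by simp [hx.2, Φ.B_eq_zero_symm bx, e]) hm
          (.of_apply (g := t * s⁻¹) (mul_mem ht (inv_mem sX)) fun v => ?_))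
        obtain ⟨v, rfl⟩ := s.surjective v
        simp only [LinearEquiv.mul_apply, LinearEquiv.coe_inv, LinearEquiv.symm_apply_apply]
        simp only [LinearMap.smulRight_apply, Φ.B_sub_left, Φ.B_add_left, Φ.B_smul_left, Φ.σσ]
        simp only [e1, hs.app, ← hl, map_add, map_sub, map_smul, smul_eq_mul, hx.2, hb.2, e, bx,
          Φ.B_eq_zero_symm e, Φ.B_smul_left, Φ.σσ]
        module
      obtain ⟨m, hm⟩ := Submodule.mem_span_singleton.1 hm
      have := congrArg (Φ.B · b) hm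
      simp only [Φ.B_sub_left, Φ.B_add_left, Φ.B_smul_left, e, hb.2, mul_zero, sub_zero, add_zero, hf] at this
      exact ⟨hQ _ this.symm, this.symm⟩
  obtain ⟨x, hx0, hx, hx'⟩ := hcs g
  obtain ⟨a, -, b, -, hab⟩ := exists_pair hn (nondeg_top hn) (by simp; omega)
  obtain ⟨ν, hν⟩ := (rich (Φ := Φ) h5).scalar hab (AddMonoidHom.mk' f fun x y =>
    hn.ext fun t => by simp [hf]) fun u hu => by
      rcases eq_or_ne u 0 with rfl | hu0
      · exact ⟨0, fun c => hn.ext fun t => by simp [hf]⟩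
      obtain ⟨z, -, hz0, hz, h1⟩ := exists_sing_pf Φ ![x, u] (U := ⊤) (R := ⊥) (by simpa)
      obtain ⟨l, hl⟩ := Submodule.mem_span_singleton.1 (s1 u hu0 hu (s2 z (by simpa using hz0) hz
        (s2 x hx0 hx hx' z hz (h1 0)) u hu (Φ.B_eq_zero_symm (h1 1))))
      refine ⟨l, fun c => hn.ext fun t => ?_⟩
      simp only [AddMonoidHom.mk'_apply, hf, map_smul, Φ.B_smul_left]
      rw [← hf, ← hl, Φ.B_smul_left]; ring
  exact ⟨σ ν, fun u v => by rw [← hf, ← Φ.B_smul_left, ← hν]; rfl⟩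

theorem isMaximalIn_simB5 {ι : Type} [Fintype ι] [DecidableEq ι] {Φ : Formed σ (ι → F)} (hn : Φ.Nondeg)
    (h5 : 5 ≤ Fintype.card ι) (hQ : ∀ x, Φ.B x x = 0 → Φ.Q x = 0)
    (hcs : ∀ g : (ι → F) ≃ₗ[F] (ι → F), ∃ x, x ≠ 0 ∧ Φ.Sing x ∧ Φ.Sing (g x)) :
    Geo.IsMaximalIn (SLg F (ι → F)) (simB Φ ⊓ SLg F (ι → F)) := by
  obtain ⟨a, -, b, -, hab⟩ := exists_pair hn (nondeg_top hn) (by simp; omega)
  refine max_crit inf_le_right ?_ fun X h1 h2 g hg hg' => ?_
  · obtain ⟨x, ⟨-, hx⟩, hx0⟩ := exists_notMem_of_lt (U := ⊤ ⊓ pf Φ ![a, b]) (R := ⊥) (by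
      have := finrank_pf (Φ := Φ) ![a, b] ⊤
      simp only [finrank_top, finrank_bot, Module.finrank_pi] at this ⊢; omega)
    have hax : Φ.B a x = 0 := mem_pf.1 hx 0
    have hbx : Φ.B b x = 0 := mem_pf.1 hx 1
    obtain ⟨y, -, h3, h4⟩ := sep hn (nondeg_top hn) (S := Submodule.span F {a, b}) le_top trivial (p := x)
      fun h => by
        obtain ⟨s, t, rfl⟩ := Submodule.mem_span_pair.1 h
        simp [hab.se.2, hab.sf.2, hab.ef, hab.fe, Φ.ε_ne_zero] at hax hbx
        simp [hax, hbx] at hx0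
    rw [Φ.mem_perp_span] at h3
    have hay := h3 a (by simp)
    have hby := h3 b (by simp)
    refine ⟨_, tv_mem_SLg hax, fun ⟨⟨c, hc⟩, _⟩ => ?_⟩
    have := hc b y
    simp [LinearMap.transvection.apply, hab.ef, hay, hby, h4] at this
  · refine (sim_or_centres5 hn (by simpa) hQ hcs (fun k hk => h1 ⟨⟨1, fun u v => by
      simp [(EG_le_isom hk).1]⟩, EG_le_SLg hk⟩) hg).elim SLg_le fun ⟨c, hc⟩ => ?_
    refine absurd ⟨⟨Units.mk0 c fun h0 => ?_, hc⟩, h2 hg⟩ hg'
    exact hab.left_ne_zero (by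
      simpa using hn (g a) fun y => by simpa [h0] using hc a (g.symm y))

end Sim

open MvPolynomial in
theorem exists_common_zero {F : Type*} [Field F] [Fintype F] {ι : Type} [Fintype ι] [DecidableEq ι]
    (h5 : 5 ≤ Fintype.card ι) (B₁ B₂ : (ι → F) →ₗ[F] (ι → F) →ₗ[F] F) : ∃ x, x ≠ 0 ∧ B₁ x x = 0 ∧ B₂ x x = 0 := by
  classical
  let P : ((ι → F) →ₗ[F] (ι → F) →ₗ[F] F) → MvPolynomial ι F := fun B =>
    ∑ i, ∑ j, C (B (Pi.single i 1) (Pi.single j 1)) * (X i * X j)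
  have h1 : ∀ B, (P B).totalDegree ≤ 2 := fun B =>
    (totalDegree_finset_sum _ _).trans (Finset.sup_le fun i _ => (totalDegree_finset_sum _ _).trans
      (Finset.sup_le fun j _ => (totalDegree_mul _ _).trans (by
        rw [totalDegree_C, zero_add]; exact (totalDegree_mul _ _).trans (by simp))))
  have h2 : ∀ B x, eval x (P B) = B x x := fun B x => by
    conv_rhs => rw [← sum_e x]
    simp only [P, map_sum, map_mul, eval_C, eval_X, map_smul, LinearMap.sum_apply, LinearMap.smul_apply,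
      smul_eq_mul, Finset.mul_sum]
    rw [Finset.sum_comm]
    exact Finset.sum_congr rfl fun i _ => Finset.sum_congr rfl fun j _ => by ring
  have hd := char_dvd_card_solutions_of_add_lt (ringChar F) (f₁ := P B₁) (f₂ := P B₂) (by
    have := h1 B₁; have := h1 B₂; omega)
  by_contra! hc
  rw [Fintype.card_eq_one_iff.2 ⟨⟨0, by rw [h2, h2]; simp⟩, fun ⟨x, hx⟩ => Subtype.ext (by_contra fun e =>
    hc x e (h2 _ _ ▸ hx.1) (h2 _ _ ▸ hx.2))⟩, Nat.dvd_one] at hd
  exact CharP.ringChar_ne_one hd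

open Cfsg.Geo
variable {F : Type*} [Field F] [Fintype F] {n : ℕ}

theorem slDec6 {t : ℕ} (h1 : 6 ≤ t) (h2 : 5 ≤ Fintype.card F) (D : Fin t → Submodule F (Fin n → F))
    (hD : IsMDecomposition 1 D) :
    IsMaximalIn (specialLinear (Fin n) F) (decompositionStabilizer D ⊓ specialLinear (Fin n) F) :=
  isMaximalIn_inf (glEquiv _ F) (isMaximalIn_dstab_SL6 (dec_of hD) h1 h2) (fun _ => mem_specialLinear)
    fun _ => mem_decompositionStabilizer

theorem slSp5 (hn : 5 ≤ n) (f : (Fin n → F) → (Fin n → F) → F) (hf : IsSymplecticForm f) :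
    IsMaximalIn (specialLinear (Fin n) F) (similarityGroup f ⊓ specialLinear (Fin n) F) := by
  have hb := hf.bilinear
  haveI : Nonempty (Fin n) := ⟨⟨0, by omega⟩⟩
  refine isMaximalIn_of_equiv (glEquiv _ F) (fun g => mem_specialLinear) (fun g => ?_)
    (isMaximalIn_simB5 (Φ := Formed.ofAlt (LinearMap.mk₂ F f hb.add_left hb.smul_left hb.add_right
      (fun c x y => hb.smul_right c x y)) hf.alternating) (fun x hx => by_contra fun h0 => ?_) (by simpa)
      (fun _ _ => rfl) fun g => ⟨1, one_ne_zero, ⟨rfl, hf.alternating _⟩, rfl, hf.alternating _⟩)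
  · exact and_congr Iff.rfl mem_specialLinear
  · obtain ⟨y, hy⟩ := (hf.nondegenerate x h0).2
    exact hy (hx y)

theorem slU5 (hn : 5 ≤ n) (σ : F ≃+* F) (f : (Fin n → F) → (Fin n → F) → F) (hf : IsUnitaryForm σ f) :
    IsMaximalIn (specialLinear (Fin n) F) (similarityGroup f ⊓ specialLinear (Fin n) F) := by
  obtain ⟨Φ, h1, h2⟩ := exists_herm hf
  have hσ : (σ : F →+* F) ≠ RingHom.id F := fun h => hf.ne_refl (RingEquiv.ext fun a => congrArg (fun s => s a) h)
  refine isMaximalIn_of_equiv (glEquiv _ F) (fun g => mem_specialLinear) (fun g => ?_)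
    (isMaximalIn_simB5 h1 (by simpa) (fun _ _ => Φ.Q_eq_zero hσ _) fun g => ?_)
  · refine and_congr ?_ mem_specialLinear
    simp only [simB, h2]
    exact exists_congr fun c => forall_comm
  obtain ⟨a, a0, ha⟩ := exists_sing_top Φ (by simp; omega)
  obtain ⟨b, -, hb0, hb, h3⟩ := exists_sing_pf Φ ![a] (U := ⊤) (R := F ∙ a) (by
    have := finrank_span_one (F := F) a; simp; omega)
  have h4 : Φ.B a b = 0 := h3 0
  obtain ⟨y, hy, hy0, hy'⟩ := exists_sing_notMem2 hσ Φ (U := ((F ∙ a) ⊔ F ∙ b).map (g : _ →ₗ[F] _)) (R := ⊥) (by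
    have := Submodule.finrank_lt_finrank_of_lt (SetLike.lt_iff_le_and_exists.2
      ⟨le_sup_left, b, mem_sup_self (F ∙ a) b, hb0⟩)
    rw [finrank_span_singleton a0] at this
    rw [finrank_bot, LinearEquiv.finrank_map_eq]; omega)
  obtain ⟨x, hx, rfl⟩ := hy
  obtain ⟨_, h5, _, h6, rfl⟩ := Submodule.mem_sup.1 hx
  obtain ⟨s, rfl⟩ := Submodule.mem_span_singleton.1 h5
  obtain ⟨t, rfl⟩ := Submodule.mem_span_singleton.1 h6
  exact ⟨_, fun e => hy0 (by simp [e]), sing_add_of_perp (ha.smul s) (hb.smul t) (by simp [h4]), hy'⟩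

theorem slQuad5 (hn : 5 ≤ n) (hodd : Odd (Fintype.card F)) (Q : (Fin n → F) → F)
    (hQ : IsNondegenerateQuadraticForm Q) :
    IsMaximalIn (specialLinear (Fin n) F) (quadSimilarityGroup Q ⊓ specialLinear (Fin n) F) := by
  obtain ⟨Q, rfl, h1⟩ := exists_quad hQ
  have h2 := two_ne_zero_of_odd_card hodd
  have h3 : ∀ x, (Formed.ofQuad Q).B x x = 0 → Q x = 0 := fun x h => by
    simpa [ofQuad_B_apply, polar_self', h2] using h
  refine isMaximalIn_of_equiv (glEquiv _ F) (fun g => mem_specialLinear) (fun g => ?_)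
    (isMaximalIn_simB5 h1 (by simpa) h3 fun g => ?_)
  · refine and_congr (exists_congr fun c => ⟨fun h u v => ?_, fun h v => ?_⟩) mem_specialLinear
    · simp only [ofQuad_B_apply, QuadraticMap.polar, glEquiv_apply, ← Matrix.mulVec_add, h]; ring
    · have := h v v
      simp only [ofQuad_B_apply, polar_self', glEquiv_apply] at this
      exact mul_left_cancel₀ h2 (by linear_combination this)
  obtain ⟨x, h0, h4, h5⟩ := exists_common_zero (by simpa) Q.polarBilin
    (Q.polarBilin.compl₁₂ (g : _ →ₗ[F] _) (g : _ →ₗ[F] _))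
  exact ⟨x, h0, ⟨h3 _ h4, h4⟩, h3 _ h5, h5⟩

end Cfsg.Agent.Root.Mx
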