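import Mathlib.GroupTheory.Sylow
import Mathlib.GroupTheory.Nilpotent

/-! Criteria for any two Sylow subgroups to intersect non-trivially. (helper18) -/

set_option autoImplicit false

namespace Cfsg.Agent.Low
open Subgroup
open scoped Pointwise

theorem sylow_meet {G : Type*} [Group G] [Finite G] {p : ℕ} [Fact p.Prime] (K : Subgroup G)
    (hK : IsPGroup p K) (h : ∀ g : G, ∃ a, a ≠ 1 ∧ a ∈ K ∧ g⁻¹ * a * g ∈ K) (H : Sylow p G) (x : G) :
    (H : Subgroup G) ⊓ MulAut.conj x • (H : Subgroup G) ≠ ⊥ := by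
  obtain ⟨P, hP⟩ := hK.exists_le_sylow
  obtain ⟨y, rfl⟩ := MulAction.exists_smul_eq G P H
  obtain ⟨a, ha, h1, h2⟩ := h (y⁻¹ * x * y)
  rw [ne_bot_iff_exists_ne_one]
  refine ⟨⟨y * a * y⁻¹, mem_inf.mpr ⟨?_, ?_⟩⟩, ?_⟩
  · rw [Sylow.coe_subgroup_smul, mem_pointwise_smul_iff_inv_smul_mem]
    simpa [mul_assoc] using hP h1
  · rw [mem_pointwise_smul_iff_inv_smul_mem, Sylow.coe_subgroup_smul,
      mem_pointwise_smul_iff_inv_smul_mem]
    simpa [mul_assoc] using hP h2
  · intro h3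
    apply ha
    simpa using congrArg Subtype.val h3

/-- a self-normalizing `p`-subgroup is a Sylow subgroup -/
theorem exists_sylow_eq {G : Type*} [Group G] [Finite G] {p : ℕ} [Fact p.Prime] (B : Subgroup G)
    (hB : IsPGroup p B) (hn : normalizer (B : Set G) ≤ B) : ∃ P : Sylow p G, (P : Subgroup G) = B := by
  obtain ⟨P, hP⟩ := hB.exists_le_sylow
  refine ⟨P, le_antisymm ?_ hP⟩
  haveI := P.isPGroup'.isNilpotent
  by_contra hle
  have h1 := Group.normalizerCondition_of_isNilpotent (G := P) (B.subgroupOf P)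
    (lt_top_iff_ne_top.mpr fun h => hle (subgroupOf_eq_top.mp h))
  rw [← subgroupOf_normalizer_eq hP] at h1
  exact h1.not_ge fun x hx => hn hx

theorem sylow_meet_index_two {G : Type*} [Group G] [Finite G] (N : Subgroup G) [N.Normal]
    (hidx : N.index = 2) (B : Subgroup N) (hB : IsPGroup 2 B)
    (hn : ∀ g : N, (∀ b ∈ B, g * b * g⁻¹ ∈ B) → g ∈ B)
    (hc : ∀ g g' : N, (∀ b ∈ B, g⁻¹ * b * g ∈ B → b = 1) → (∀ b ∈ B, g'⁻¹ * b * g' ∈ B → b = 1) →
      ∃ b ∈ B, g'⁻¹ * b * g ∈ B) (H : Sylow 2 G) (x : G) :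
    (H : Subgroup G) ⊓ MulAut.conj x • (H : Subgroup G) ≠ ⊥ := by
  obtain ⟨P, rfl⟩ := exists_sylow_eq B hB fun g hg => hn g fun b hb => (mem_normalizer_iff.mp hg b).mp hb
  have hF := P.normalizer_sup_eq_top
  set B : Subgroup G := (P : Subgroup N).map N.subtype with hBdef
  have hmem : ∀ {b : N}, b.1 ∈ B ↔ b ∈ (P : Subgroup N) := fun {b} =>
    mem_map_iff_mem N.subtype_injective
  have hBN : B ≤ N := map_subtype_le _
  have hBK : B ≤ normalizer (B : Set G) := le_normalizer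
  have hKN : ∀ g ∈ normalizer (B : Set G), g ∈ N → g ∈ B := by
    intro g hg hgN
    exact hmem.mpr (hn ⟨g, hgN⟩ fun b hb =>
      hmem.mp ((mem_normalizer_iff.mp hg b.1).mp (hmem.mpr hb)))
  apply sylow_meet (normalizer (B : Set G))
  · rintro ⟨g, hg⟩
    have h1 : g ^ 2 ∈ B := hKN _ (pow_mem hg 2) (hidx ▸ pow_index_mem N g)
    obtain ⟨k, hk⟩ := (hB.map N.subtype) ⟨g ^ 2, h1⟩
    refine ⟨k + 1, Subtype.ext ?_⟩
    have := congrArg Subtype.val hk
    simp only [SubmonoidClass.coe_pow, OneMemClass.coe_one] at this ⊢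
    rw [pow_succ', pow_mul, this]
  · intro z
    have hz : z ∈ (N ⊔ normalizer (B : Set G)) := by rw [sup_comm, hF]; trivial
    obtain ⟨n, hn', s', hs', rfl⟩ := mem_sup_of_normal_left.mp hz
    obtain ⟨s, hs, hsN⟩ : ∃ s ∈ normalizer (B : Set G), s ∉ N := by
      by_contra h
      push Not at h
      rw [sup_eq_right.mpr h] at hF
      rw [hF] at hidx
      simp at hidx
    by_contra hcon
    push Not at hcon
    have key : ∀ a ∈ normalizer (B : Set G), n⁻¹ * a * n ∈ normalizer (B : Set G) → a = 1 := by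
      intro a ha h
      by_contra h1
      apply hcon a h1 ha
      simpa [mul_assoc] using mul_mem (mul_mem (inv_mem hs') h) hs'
    obtain ⟨b, hb, hb'⟩ := hc ⟨n, hn'⟩ ⟨s * n * s⁻¹, Normal.conj_mem ‹_› n hn' s⟩
      (fun b hb h => Subtype.ext (key _ (hBK (hmem.mpr hb)) (hBK (hmem.mpr h))))
      (fun b hb h => by
        have h1 := key (s⁻¹ * b * s) (mul_mem (mul_mem (inv_mem hs) (hBK (hmem.mpr hb))) hs) (by
          simpa [mul_assoc] using mul_mem (mul_mem (inv_mem hs) (hBK (hmem.mpr h))) hs)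
        apply Subtype.ext
        have : (b : G) = s * (s⁻¹ * b * s) * s⁻¹ := by group
        rw [this, h1]; simp)
    have h1 := key (s⁻¹ * b) (mul_mem (inv_mem hs) (hBK (hmem.mpr hb))) (by
      simpa [mul_assoc] using mul_mem (inv_mem hs) (hBK (hmem.mpr hb')))
    apply hsN
    rw [inv_mul_eq_one] at h1
    exact h1 ▸ b.2

end Cfsg.Agent.Low
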